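import Mathlib
import Cfsg.Agent.S0675

/-!
# Piece S4150-FROB: a transitive group of prime degree is 2-transitive, or a Frobenius-like group
of order `p * e` with `e` a proper divisor of `p - 1`.
-/

set_option autoImplicit false
set_option linter.style.haveILetI false

open Equiv Equiv.Perm
open scoped commutatorElement

namespace Cfsg.Agent.H75.Tw

/-- a nontrivial solvable group has a nontrivial normal abelian subgroup. -/
theorem exists_normal_abelian (G : Type*) [Group G] [Nontrivial G] (hG : Group.IsSolvable G) :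
    ∃ N : Subgroup G, N.Normal ∧ N ≠ ⊥ ∧ ∀ x ∈ N, ∀ y ∈ N, x * y = y * x := by
  obtain ⟨n, hn⟩ := (Group.isSolvable_def G).mp hG
  induction n with
  | zero =>
    exfalso
    rw [derivedSeries_zero] at hn
    exact top_ne_bot hn
  | succ n ih =>
    by_cases h : derivedSeries G n = ⊥
    · exact ih h
    · refine ⟨derivedSeries G n, derivedSeries_normal G n, h, ?_⟩
      intro x hx y hy
      have h1 : ⁅x, y⁆ ∈ ⁅derivedSeries G n, derivedSeries G n⁆ :=
        Subgroup.commutator_mem_commutator hx hy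
      rw [← derivedSeries_succ, hn, Subgroup.mem_bot] at h1
      exact commutatorElement_eq_one_iff_mul_comm.mp h1

/-- a group of permutations of prime degree normalizing an abelian transitive subgroup: an
element fixing two points is trivial. -/
theorem frob_core {β : Type*} [Fintype β] [DecidableEq β] (hβ : (Fintype.card β).Prime)
    (R N : Subgroup (Perm β))
    (hnorm : ∀ h ∈ R, ∀ n ∈ N, h * n * h⁻¹ ∈ N)
    (hab : ∀ x ∈ N, ∀ y ∈ N, x * y = y * x)
    (htr : ∀ a b : β, ∃ n ∈ N, n a = b) :
    ∀ h ∈ R, ∀ c c' : β, c ≠ c' → h c = c → h c' = c' → h = 1 := by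
  have hreg : ∀ n ∈ N, ∀ a : β, n a = a → n = 1 := by
    intro n hn a ha
    ext b
    obtain ⟨m, hm, hmb⟩ := htr a b
    rw [← hmb, ← Perm.mul_apply, hab n hn m hm, Perm.mul_apply, ha, Perm.one_apply]
  intro h hh c c' hcc' hc hc'
  have hcardN : Nat.card N = Fintype.card β := by
    rw [← Nat.card_eq_fintype_card]
    apply Nat.card_eq_of_bijective (fun n : N => (n : Perm β) c)
    constructor
    · intro n m hnm
      have hnm' : (n : Perm β) c = (m : Perm β) c := hnm
      have h1 : ((m : Perm β)⁻¹ * (n : Perm β)) c = c := by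
        rw [Perm.mul_apply, hnm', Perm.inv_eq_iff_eq]
      have h2 := hreg _ (N.mul_mem (N.inv_mem m.2) n.2) c h1
      rw [inv_mul_eq_one] at h2
      exact Subtype.ext h2.symm
    · intro b
      obtain ⟨n, hn, hnb⟩ := htr c b
      exact ⟨⟨n, hn⟩, hnb⟩
  obtain ⟨n, hn, hnc⟩ := htr c c'
  have hn1 : n ≠ 1 := by
    rintro rfl
    exact hcc' (by simpa using hnc)
  have hcomm : h * n = n * h := by
    have h1 : (n⁻¹ * (h * n * h⁻¹)) c = c := by
      have h2 : h⁻¹ c = c := by rw [Perm.inv_eq_iff_eq, hc]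
      simp only [Perm.mul_apply, h2, hnc, hc']
      rw [Perm.inv_eq_iff_eq, hnc]
    have h3 := hreg _ (N.mul_mem (N.inv_mem hn) (hnorm h hh n hn)) c h1
    rw [inv_mul_eq_one] at h3
    calc h * n = (h * n * h⁻¹) * h := by group
      _ = n * h := by rw [← h3]
  have hF : N ⊓ Subgroup.centralizer {h} = N := by
    apply Subgroup.eq_of_le_of_card_ge inf_le_left
    have hdvd : Nat.card ↥(N ⊓ Subgroup.centralizer {h}) ∣ Nat.card N :=
      Subgroup.card_dvd_of_le inf_le_left
    rw [hcardN] at hdvd ⊢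
    rcases (Nat.dvd_prime hβ).mp hdvd with h1 | h1
    · exfalso
      have hbot : N ⊓ Subgroup.centralizer {h} = ⊥ := Subgroup.card_eq_one.mp h1
      have hnF : n ∈ N ⊓ Subgroup.centralizer {h} := by
        refine Subgroup.mem_inf.mpr ⟨hn, ?_⟩
        rw [Subgroup.mem_centralizer_iff]
        intro y hy
        rw [Set.mem_singleton_iff] at hy
        rw [hy]; exact hcomm
      rw [hbot, Subgroup.mem_bot] at hnF
      exact hn1 hnF
    · rw [h1]
  ext b
  obtain ⟨m, hm, hmb⟩ := htr c b
  have hmF : m ∈ N ⊓ Subgroup.centralizer {h} := by rw [hF]; exact hm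
  have hmc : h * m = m * h :=
    (Subgroup.mem_centralizer_iff.mp (Subgroup.mem_inf.mp hmF).2) h (Set.mem_singleton h)
  rw [← hmb, ← Perm.mul_apply, hmc, Perm.mul_apply, hc, Perm.one_apply]

/-- in a solvable transitive group of prime degree, an element fixing two points is trivial. -/
theorem frob_fix {β : Type*} [Fintype β] [DecidableEq β] (hβ : (Fintype.card β).Prime)
    (R : Subgroup (Perm β)) [MulAction.IsPretransitive R β] (hsolv : Group.IsSolvable R) :
    ∀ h ∈ R, ∀ c c' : β, c ≠ c' → h c = c → h c' = c' → h = 1 := by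
  haveI : Nontrivial β := Fintype.one_lt_card_iff_nontrivial.mp hβ.one_lt
  haveI : Nontrivial R := by
    obtain ⟨a, b, hab⟩ := exists_pair_ne β
    obtain ⟨g, hg⟩ := MulAction.exists_smul_eq R a b
    refine ⟨⟨g, 1, ?_⟩⟩
    rintro rfl
    exact hab (by simpa using hg)
  obtain ⟨N₀, hN₀n, hN₀1, hN₀ab⟩ := exists_normal_abelian R hsolv
  haveI := hN₀n
  haveI : MulAction.IsPreprimitive R β :=
    MulAction.IsPreprimitive.of_prime_card (by rw [Nat.card_eq_fintype_card]; exact hβ)
  have htr₀ : MulAction.IsPretransitive N₀ β := by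
    apply MulAction.IsQuasiPreprimitive.isPretransitive_of_normal
    intro hfix
    apply hN₀1
    rw [eq_bot_iff]
    intro n hn
    rw [Subgroup.mem_bot]
    apply Subtype.ext
    ext b
    have hb : b ∈ MulAction.fixedPoints N₀ β := by rw [hfix]; exact Set.mem_univ b
    exact hb ⟨n, hn⟩
  apply frob_core hβ R (N₀.map R.subtype)
  · intro h hh n hn
    obtain ⟨n₀, hn₀, rfl⟩ := Subgroup.mem_map.mp hn
    exact Subgroup.mem_map.mpr
      ⟨⟨h, hh⟩ * n₀ * ⟨h, hh⟩⁻¹, hN₀n.conj_mem n₀ hn₀ ⟨h, hh⟩, rfl⟩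
  · intro x hx y hy
    obtain ⟨x₀, hx₀, rfl⟩ := Subgroup.mem_map.mp hx
    obtain ⟨y₀, hy₀, rfl⟩ := Subgroup.mem_map.mp hy
    have h0 := hN₀ab x₀ hx₀ y₀ hy₀
    rw [← map_mul, ← map_mul, h0]
  · intro a b
    obtain ⟨n, hn⟩ := MulAction.exists_smul_eq N₀ a b
    exact ⟨(n : R), Subgroup.mem_map.mpr ⟨n, n.2, rfl⟩, hn⟩

open MulAction in
theorem prime_degree_dichotomy {β : Type*} [Fintype β] [DecidableEq β]
    (hβ : (Fintype.card β).Prime) (R : Subgroup (Perm β)) [MulAction.IsPretransitive R β] :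
    MulAction.IsMultiplyPretransitive R β 2 ∨
    ((∀ h ∈ R, ∀ c c' : β, c ≠ c' → h c = c → h c' = c' → h = 1) ∧
      ∃ e : ℕ, e ∣ Fintype.card β - 1 ∧ e < Fintype.card β - 1 ∧
        Nat.card R = Fintype.card β * e) := by
  rcases Cfsg.Agent.S0675.result hβ R with hsolv | h2
  swap
  · exact Or.inl h2
  have hi := frob_fix hβ R hsolv
  haveI : Nontrivial β := Fintype.one_lt_card_iff_nontrivial.mp hβ.one_lt
  obtain ⟨c⟩ : Nonempty β := inferInstance
  have hfree : ∀ x : SubMulAction.ofStabilizer R c, stabilizer (stabilizer R c) x = ⊥ := by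
    intro x
    rw [eq_bot_iff]
    intro g hg
    rw [Subgroup.mem_bot]
    have hgc : ((g : R) : Perm β) c = c := g.2
    have hgx : ((g : R) : Perm β) (x : β) = (x : β) := by
      have h0 := congrArg (fun y : SubMulAction.ofStabilizer R c => (y : β))
        (mem_stabilizer_iff.mp hg)
      exact h0
    have hxc : c ≠ (x : β) := fun h => (SubMulAction.mem_ofStabilizer_iff R c).mp x.2 h.symm
    have h1 := hi _ (g : R).2 c x hxc hgc hgx
    exact Subtype.ext (Subtype.ext h1)
  have eqv := selfEquivOrbitsQuotientProd hfree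
  have hcard := Nat.card_congr eqv
  rw [Nat.card_prod] at hcard
  have hp1 : Nat.card (SubMulAction.ofStabilizer R c) = Fintype.card β - 1 := by
    have h0 := SubMulAction.nat_card_ofStabilizer_add_one_eq R c
    rw [Nat.card_eq_fintype_card (α := β)] at h0; omega
  have hRcard : Nat.card R = Fintype.card β * Nat.card (stabilizer R c) := by
    rw [← Subgroup.index_mul_card (stabilizer R c), index_stabilizer_of_transitive,
      Nat.card_eq_fintype_card]
  obtain ⟨k, hk⟩ : ∃ k, k = Nat.card (Quotient (orbitRel (stabilizer R c)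
      (SubMulAction.ofStabilizer R c))) := ⟨_, rfl⟩
  rw [← hk, hp1] at hcard
  by_cases hk1 : k = 1
  · left
    apply (SubMulAction.ofStabilizer.isMultiplyPretransitive (a := c)).mpr
    rw [is_one_pretransitive_iff, pretransitive_iff_subsingleton_quotient]
    rw [hk1] at hk
    exact (Nat.card_eq_one_iff_unique.mp hk.symm).1
  · right
    refine ⟨hi, Nat.card (stabilizer R c), Dvd.intro_left k hcard.symm, ?_, hRcard⟩
    have he : 0 < Nat.card (stabilizer R c) := Nat.card_pos
    have hp : 1 ≤ Fintype.card β - 1 := by have := hβ.two_le; omega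
    have hk0 : k ≠ 0 := by rintro rfl; rw [zero_mul] at hcard; omega
    have hk2 : 2 ≤ k := by omega
    rw [hcard]; nlinarith

end Cfsg.Agent.H75.Tw
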