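import Mathlib

/-!
# Piece S4150-JT: Jordan's theorem on a primitive group containing a cycle of prime length,
multiple transitivity form.
-/

set_option autoImplicit false

open Equiv Equiv.Perm

namespace Cfsg.Agent.H75.Tw

open MulAction in
theorem jordan_multi {α : Type*} [Fintype α] [DecidableEq α] (G : Subgroup (Perm α))
    (hG : MulAction.IsPreprimitive G α) {q k : ℕ} (hq : q.Prime) {τ : Perm α} (hτ : τ.IsCycle)
    (hτq : τ.support.card = q) (hτG : τ ∈ G) (hcard : Fintype.card α = q + k) (hk : 1 ≤ k) :
    MulAction.IsMultiplyPretransitive G α (k + 1) := by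
  classical
  obtain ⟨n, hn⟩ : ∃ n, k = n + 1 := ⟨k - 1, by omega⟩
  subst hn
  suffices IsMultiplyPreprimitive G α (n + 2) from
    IsMultiplyPreprimitive.isMultiplyPretransitive ..
  apply hG.isMultiplyPreprimitive (s := (τ.supportᶜ : Set α))
  · apply Nat.add_left_cancel
    rw [Set.ncard_add_ncard_compl, Set.ncard_coe_finset, hτq, Nat.card_eq_fintype_card, hcard]
  · rw [Nat.card_eq_fintype_card, hcard]
    have := hq.two_le
    omega
  have := isPretransitive_of_isCycle_mem hτ hτG
  apply IsPreprimitive.of_prime_card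
  convert! hq
  rw [Nat.card_eq_fintype_card, Fintype.card_subtype, ← hτq]
  apply congr_arg
  ext x
  simp [SubMulAction.mem_ofFixingSubgroup_iff]

end Cfsg.Agent.H75.Tw
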