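import Mathlib

/-!
# Piece S4150-ALTIDX: a proper subgroup of `Aₙ` (`n ≥ 5`) has index at least `n`.
-/

set_option autoImplicit false
set_option linter.style.haveILetI false

open Equiv Equiv.Perm

namespace Cfsg.Agent.H75.Tw

theorem alt_index_ge {α : Type*} [Fintype α] [DecidableEq α] (h5 : 5 ≤ Fintype.card α)
    (K : Subgroup (alternatingGroup α)) (hK : K ≠ ⊤) : Fintype.card α ≤ K.index := by
  haveI : IsSimpleGroup (alternatingGroup α) :=
    alternatingGroup.isSimpleGroup (by rw [Nat.card_eq_fintype_card]; exact h5)
  haveI : Nontrivial α := Fintype.one_lt_card_iff_nontrivial.mp (by omega)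
  by_contra hcon
  rw [not_le] at hcon
  have hcore : K.normalCore = ⊥ := by
    rcases (Subgroup.normalCore_normal K).eq_bot_or_eq_top with h | h
    · exact h
    · exfalso
      apply hK
      rw [eq_top_iff, ← h]
      exact Subgroup.normalCore_le K
  have hinj : Function.Injective (MulAction.toPermHom (alternatingGroup α)
      (alternatingGroup α ⧸ K)) := by
    rw [← MonoidHom.ker_eq_bot_iff, ← Subgroup.normalCore_eq_ker]
    exact hcore
  have hdvd := Subgroup.card_dvd_of_injective _ hinj
  rw [Nat.card_perm, ← Subgroup.index_eq_card] at hdvd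
  have h2 : 2 * Nat.card (alternatingGroup α) = (Fintype.card α).factorial := by
    rw [two_mul_nat_card_alternatingGroup, Nat.card_perm, Nat.card_eq_fintype_card]
  have hk : K.index ≤ Fintype.card α - 1 := by omega
  have hdvd2 : Nat.card (alternatingGroup α) ∣ (Fintype.card α - 1).factorial :=
    hdvd.trans (Nat.factorial_dvd_factorial hk)
  have hle : Nat.card (alternatingGroup α) ≤ (Fintype.card α - 1).factorial :=
    Nat.le_of_dvd (Nat.factorial_pos _) hdvd2
  have hfac : (Fintype.card α).factorial = Fintype.card α * (Fintype.card α - 1).factorial := by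
    obtain ⟨m, hm⟩ : ∃ m, Fintype.card α = m + 1 := ⟨Fintype.card α - 1, by omega⟩
    rw [hm, Nat.factorial_succ]; simp
  have hpos : 0 < (Fintype.card α - 1).factorial := Nat.factorial_pos _
  rw [hfac] at h2
  nlinarith

end Cfsg.Agent.H75.Tw
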