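import Mathlib

/-!
# Piece S4150-PRIM: a transitive group of degree `< 2q` containing a `q`-cycle (`q` prime) is
primitive.
-/

set_option autoImplicit false

open Equiv Equiv.Perm

namespace Cfsg.Agent.H75.Tw

open MulAction Pointwise in
theorem isPreprimitive_of_cycle {α : Type*} [Fintype α] [DecidableEq α] (G : Subgroup (Perm α))
    [MulAction.IsPretransitive G α] {q : ℕ} (hq : q.Prime) {τ : Perm α} (hτ : τ.IsCycle)
    (hτq : τ.support.card = q) (hτG : τ ∈ G) (hlt : Fintype.card α < 2 * q) :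
    MulAction.IsPreprimitive G α := by
  refine ⟨fun {B} hB => ?_⟩
  by_contra hcon
  unfold IsTrivialBlock at hcon
  rw [not_or] at hcon
  obtain ⟨hns, hnu⟩ := hcon
  rw [Set.not_subsingleton_iff] at hns
  have h2 : 2 ≤ B.ncard := by
    have := (Set.one_lt_ncard_iff_nontrivial (s := B)).mpr hns
    omega
  have hle : B.ncard * 2 ≤ Nat.card α := by
    by_contra hc
    exact hnu (hB.eq_univ_of_card_lt (not_le.mp hc))
  have hBq : B.ncard < q := by
    rw [Nat.card_eq_fintype_card] at hle; omega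
  obtain ⟨a, ha⟩ : τ.support.Nonempty := by
    rw [← Finset.card_pos, hτq]; exact hq.pos
  obtain ⟨b, hb⟩ := hns.nonempty
  obtain ⟨g, hg⟩ := MulAction.exists_smul_eq G b a
  obtain ⟨B', hB'⟩ : ∃ B' : Set α, B' = g • B := ⟨_, rfl⟩
  have hblock : IsBlock G B' := by rw [hB']; exact hB.translate g
  have haB' : a ∈ B' := by rw [hB', ← hg]; exact Set.smul_mem_smul_set hb
  have hcard' : B'.ncard = B.ncard := by rw [hB', Set.ncard_smul_set]
  have hnt' : B'.Nontrivial := by
    rw [← Set.one_lt_ncard_iff_nontrivial, hcard']; omega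
  obtain ⟨c, hc, hca⟩ := hnt'.exists_ne a
  obtain ⟨τ', hτ'⟩ : ∃ τ' : G, τ' = ⟨τ, hτG⟩ := ⟨_, rfl⟩
  have hsmul : ∀ (n : ℕ) (x : α), (τ' ^ n) • x = (τ ^ n) x := by
    intro n x; rw [hτ']; rfl
  have hfix : ∀ n : ℕ, (τ ^ n) a ∈ B' → (τ' ^ n) • B' = B' := by
    intro n hn
    exact hblock.smul_eq_of_mem haB' (by rw [hsmul]; exact hn)
  have hord : orderOf τ' = q := by
    rw [hτ', ← hτq, ← hτ.orderOf]; exact Subgroup.orderOf_mk τ hτG
  have ha' : τ a ≠ a := Perm.mem_support.mp ha
  have hstab : τ' • B' = B' := by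
    by_cases hcs : τ c = c
    · have h0 : τ' • c ∈ B' := by
        have h1 := hsmul 1 c
        rw [pow_one, pow_one] at h1
        rw [h1, hcs]; exact hc
      exact hblock.smul_eq_of_mem hc h0
    · obtain ⟨n, hn⟩ := hτ.exists_pow_eq ha' hcs
      have h1 : (τ' ^ n) • B' = B' := hfix n (by rw [hn]; exact hc)
      have hcop : n.Coprime (orderOf τ') := by
        rw [hord]
        apply Nat.Coprime.symm
        rw [hq.coprime_iff_not_dvd]
        intro hdvd
        apply hca
        rw [← hn]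
        have h3 : τ ^ n = 1 := by
          rw [← orderOf_dvd_iff_pow_eq_one, hτ.orderOf, hτq]; exact hdvd
        rw [h3]; rfl
      obtain ⟨m, hm⟩ := exists_pow_eq_self_of_coprime hcop
      have h4 : ((τ' ^ n) ^ m) • B' = B' := by
        have hmem : τ' ^ n ∈ stabilizer G B' := h1
        exact pow_mem hmem m
      rw [hm] at h4; exact h4
  have hsub : (τ.support : Set α) ⊆ B' := by
    intro x hx
    have hx' : τ x ≠ x := Perm.mem_support.mp hx
    obtain ⟨n, hn⟩ := hτ.exists_pow_eq ha' hx'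
    have h1 : (τ' ^ n) • B' = B' := by
      have hmem : τ' ∈ stabilizer G B' := hstab
      exact pow_mem hmem n
    rw [← hn, ← hsmul, ← h1]
    exact Set.smul_mem_smul_set haB'
  have hqle : q ≤ B'.ncard := by
    rw [← hτq, ← Set.ncard_coe_finset]
    exact Set.ncard_le_ncard hsub (Set.toFinite _)
  omega

end Cfsg.Agent.H75.Tw
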