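import Cfsg.Agent.H7.RUDefs
/-!
Team project S2358 (helper7), piece RU-CONJ: under the hypotheses of RU-INTO, two cyclic subgroups
of the same order dividing `|T|` are conjugate.
-/
set_option autoImplicit false

namespace Cfsg.Agent.H75.RU

open Cfsg.Agent.H7.RT Cfsg.Agent.H7.RU

universe u

/-- in a cyclic subgroup `T`, a subgroup of order `d` is the set of all elements of `T` with
`d`-th power `1` -/
theorem coe_eq_of_card {G : Type u} [Group G] [Finite G] (T : Subgroup G) (hT : IsCyclic T)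
    (A : Subgroup G) (hAT : A ≤ T) :
    (A : Set G) = {g : G | g ∈ T ∧ g ^ Nat.card A = 1} := by
  classical
  have hdpos : 0 < Nat.card A := Nat.card_pos
  have hsub : (A : Set G) ⊆ {g : G | g ∈ T ∧ g ^ Nat.card A = 1} := by
    intro g hg
    refine ⟨hAT hg, ?_⟩
    have h : ((⟨g, hg⟩ : A) ^ Nat.card A : A) = 1 := pow_card_eq_one'
    have h2 : (((⟨g, hg⟩ : A) ^ Nat.card A : A) : G) = g ^ Nat.card A := by
      rw [Subgroup.coe_pow]
    rw [← h2, h]; rfl
  have hfin : ({g : G | g ∈ T ∧ g ^ Nat.card A = 1} : Set G).Finite := Set.toFinite _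
  apply Set.eq_of_subset_of_ncard_le hsub _ hfin
  -- the count in `T`
  haveI : Fintype T := Fintype.ofFinite T
  have hle := IsCyclic.card_pow_eq_one_le (α := T) hdpos
  have himg : ({g : G | g ∈ T ∧ g ^ Nat.card A = 1} : Set G) =
      Subtype.val '' ((Finset.univ.filter (fun a : T => a ^ Nat.card A = 1) : Finset T) : Set T) := by
    ext g
    constructor
    · rintro ⟨hgT, hg⟩
      refine ⟨⟨g, hgT⟩, ?_, rfl⟩
      simp only [Finset.coe_filter, Finset.mem_univ, true_and, Set.mem_setOf_eq]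
      apply Subtype.ext
      rw [Subgroup.coe_pow]; exact hg
    · rintro ⟨a, ha, rfl⟩
      simp only [Finset.coe_filter, Finset.mem_univ, true_and, Set.mem_setOf_eq] at ha
      refine ⟨a.2, ?_⟩
      have := congrArg Subtype.val ha
      rwa [Subgroup.coe_pow] at this
  rw [himg, Set.ncard_image_of_injective _ Subtype.val_injective, Set.ncard_coe_finset]
  have hA : (A : Set G).ncard = Nat.card A := by
    rw [← Nat.card_coe_set_eq]; rfl
  rw [hA]
  exact hle

theorem toralConj (hinto : StToralInto.{u}) : StToralConj.{u} := by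
  intro G _ _ T hTc hHall hNT hT0 d hd A B hAc hBc hAd hBd
  obtain ⟨c, hc⟩ := hinto G T hTc hHall hNT hT0 A hAc (by rw [hAd]; exact hd)
  obtain ⟨c', hc'⟩ := hinto G T hTc hHall hNT hT0 B hBc (by rw [hBd]; exact hd)
  have hcardA : Nat.card (A.map (MulAut.conj c).toMonoidHom) = d := by
    rw [← hAd]
    exact Nat.card_congr (A.equivMapOfInjective _ (MulAut.conj c).injective).toEquiv.symm
  have hcardB : Nat.card (B.map (MulAut.conj c').toMonoidHom) = d := by
    rw [← hBd]
    exact Nat.card_congr (B.equivMapOfInjective _ (MulAut.conj c').injective).toEquiv.symm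
  have hEq : A.map (MulAut.conj c).toMonoidHom = B.map (MulAut.conj c').toMonoidHom := by
    apply SetLike.coe_injective
    rw [coe_eq_of_card T hTc _ hc, coe_eq_of_card T hTc _ hc', hcardA, hcardB]
  refine ⟨c'⁻¹ * c, ?_⟩
  ext g
  constructor
  · intro hg
    have h1 : c' * g * c'⁻¹ ∈ B.map (MulAut.conj c').toMonoidHom := ⟨g, hg, rfl⟩
    rw [← hEq] at h1
    obtain ⟨a, ha, hae⟩ := h1
    refine ⟨a, ha, ?_⟩
    have hae' : c * a * c⁻¹ = c' * g * c'⁻¹ := hae
    show c'⁻¹ * c * a * (c'⁻¹ * c)⁻¹ = g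
    calc c'⁻¹ * c * a * (c'⁻¹ * c)⁻¹ = c'⁻¹ * (c * a * c⁻¹) * c' := by group
      _ = c'⁻¹ * (c' * g * c'⁻¹) * c' := by rw [hae']
      _ = g := by group
  · rintro ⟨a, ha, rfl⟩
    have h1 : c * a * c⁻¹ ∈ A.map (MulAut.conj c).toMonoidHom := ⟨a, ha, rfl⟩
    rw [hEq] at h1
    obtain ⟨b, hb, hbe⟩ := h1
    have hbe' : c' * b * c'⁻¹ = c * a * c⁻¹ := hbe
    have : (MulAut.conj (c'⁻¹ * c)).toMonoidHom a = b := by
      show c'⁻¹ * c * a * (c'⁻¹ * c)⁻¹ = b
      calc c'⁻¹ * c * a * (c'⁻¹ * c)⁻¹ = c'⁻¹ * (c * a * c⁻¹) * c' := by group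
        _ = c'⁻¹ * (c' * b * c'⁻¹) * c' := by rw [hbe']
        _ = b := by group
    rw [this]; exact hb

example : (@toralConj.{u} : Cfsg.Agent.H7.RU.StToralInto.{u} →
    Cfsg.Agent.H7.RU.StToralConj.{u}) = @toralConj.{u} := rfl

end Cfsg.Agent.H75.RU
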