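import Cfsg.Agent.H7.RUDefs
/-!
Team project S2358 (helper7), piece RU-INTO: a cyclic Hall subgroup `T` with
`gcd(|T|, |N(T) : T|) = 1` and `N(T₀) = N(T)` for `1 ≠ T₀ ≤ T` contains a conjugate of every cyclic
subgroup whose order divides `|T|`.
-/
set_option autoImplicit false

namespace Cfsg.Agent.H75.RU

open Cfsg.Agent.H7.RT Cfsg.Agent.H7.RU

universe u

/-- an element `y` of the normalizer of `T` with `y ^ a = 1`, `a` prime to `|N(T)| / |T|`, lies in
`T` -/
theorem mem_of_pow_coprime {G : Type u} [Group G] [Finite G] (T : Subgroup G) (a : ℕ)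
    (hcop : a.Coprime (Nat.card ↥(Subgroup.normalizer (T : Set G)) / Nat.card T))
    (y : G) (hy : y ∈ Subgroup.normalizer (T : Set G)) (hya : y ^ a = 1) : y ∈ T := by
  set N : Subgroup G := Subgroup.normalizer (T : Set G) with hN
  have hTN : T ≤ N := Subgroup.le_normalizer
  have : (T.subgroupOf N).Normal := Subgroup.normal_in_normalizer
  have hcardT' : Nat.card (T.subgroupOf N) = Nat.card T :=
    Nat.card_congr (Subgroup.subgroupOfEquivOfLe hTN).toEquiv
  have hidx : (T.subgroupOf N).index = Nat.card N / Nat.card T := by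
    have h1 := Subgroup.card_mul_index (T.subgroupOf N)
    rw [hcardT'] at h1
    have hpos : 0 < Nat.card T := Nat.card_pos
    exact (Nat.div_eq_of_eq_mul_right hpos h1.symm).symm
  set y' : N := ⟨y, hy⟩ with hy'
  have h1 : (QuotientGroup.mk y' : N ⧸ T.subgroupOf N) ^ a = 1 := by
    rw [← QuotientGroup.mk_pow]
    have : y' ^ a = 1 := by
      apply Subtype.ext
      simp [hy', hya]
    rw [this]; rfl
  have h2 : (QuotientGroup.mk y' : N ⧸ T.subgroupOf N) ^ (T.subgroupOf N).index = 1 := by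
    rw [Subgroup.index_eq_card]
    exact pow_card_eq_one'
  have h3 : orderOf (QuotientGroup.mk y' : N ⧸ T.subgroupOf N) ∣ 1 := by
    have := Nat.dvd_gcd (orderOf_dvd_of_pow_eq_one h1) (orderOf_dvd_of_pow_eq_one h2)
    rw [hidx] at this
    rwa [Nat.Coprime.gcd_eq_one hcop] at this
  have h4 : (QuotientGroup.mk y' : N ⧸ T.subgroupOf N) = 1 := by
    rw [← orderOf_eq_one_iff]
    exact Nat.dvd_one.mp h3
  have h5 : y' ∈ T.subgroupOf N := (QuotientGroup.eq_one_iff y').mp h4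
  exact Subgroup.mem_subgroupOf.mp h5

theorem toralInto (hconj : Cfsg.Agent.H7.RT.StConjInto.{u}) : StToralInto.{u} := by
  intro G _ _ T hTc hHall hNT hT0 A hAc hAdvd
  by_cases hA1 : Nat.card A = 1
  · refine ⟨1, ?_⟩
    have : A = ⊥ := Subgroup.card_eq_one.mp hA1
    rw [this, Subgroup.map_bot]
    exact bot_le
  -- a prime dividing |A|
  obtain ⟨p, hp, hpA⟩ := Nat.exists_prime_and_dvd hA1
  have : Fact p.Prime := ⟨hp⟩
  obtain ⟨x₀, hx₀⟩ := exists_prime_orderOf_dvd_card' p hpA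
  have hx0ord : orderOf (x₀ : G) = p := by rw [Subgroup.orderOf_coe]; exact hx₀
  have hx0ne : (x₀ : G) ≠ 1 := by
    intro h
    rw [h, orderOf_one] at hx0ord
    exact hp.one_lt.ne hx0ord
  -- the p-part of |G| is that of |T|
  have hTdvdG : Nat.card T ∣ Nat.card G := Subgroup.card_subgroup_dvd_card T
  have hTpos : 0 < Nat.card T := Nat.card_pos
  have hGeq : Nat.card G = Nat.card T * (Nat.card G / Nat.card T) :=
    (Nat.mul_div_cancel' hTdvdG).symm
  have hpT : p ∣ Nat.card T := hpA.trans hAdvd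
  have hpn : ¬ p ∣ Nat.card G / Nat.card T := by
    intro h
    have := Nat.dvd_gcd hpT h
    rw [Nat.Coprime.gcd_eq_one hHall] at this
    exact hp.one_lt.ne' (Nat.dvd_one.mp this)
  have hquot_ne : Nat.card G / Nat.card T ≠ 0 := by
    intro h
    rw [h, mul_zero] at hGeq
    exact (Nat.card_pos (α := G)).ne' hGeq
  have hfac : (Nat.card G).factorization p ≤ (Nat.card T).factorization p := by
    rw [hGeq, Nat.factorization_mul hTpos.ne' hquot_ne]
    simp [Nat.factorization_eq_zero_of_not_dvd hpn]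
  obtain ⟨c, hc⟩ := hconj G p T hfac (x₀ : G) hx0ord
  refine ⟨c, ?_⟩
  -- T₀
  set t₀ : G := c * (x₀ : G) * c⁻¹ with ht₀
  have ht₀ne : t₀ ≠ 1 := by
    intro h
    apply hx0ne
    have : (x₀ : G) = c⁻¹ * t₀ * c := by rw [ht₀]; group
    rw [this, h]; group
  have hT0le : Subgroup.zpowers t₀ ≤ T := by
    rw [Subgroup.zpowers_le]; exact hc
  have hT0ne : Subgroup.zpowers t₀ ≠ ⊥ := by
    intro h
    exact ht₀ne (Subgroup.zpowers_eq_bot.mp h)
  have hNeq := hT0 (Subgroup.zpowers t₀) hT0le hT0ne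
  have hcopA : (Nat.card A).Coprime
      (Nat.card ↥(Subgroup.normalizer (T : Set G)) / Nat.card T) :=
    Nat.Coprime.coprime_dvd_left hAdvd hNT
  rintro _ ⟨b, hb, rfl⟩
  show c * b * c⁻¹ ∈ T
  -- c b c⁻¹ commutes with t₀
  have hcomm : b * (x₀ : G) = (x₀ : G) * b := by
    obtain ⟨g, hg⟩ := hAc
    have hcm : ∀ u v : A, u * v = v * u := by
      intro u v
      obtain ⟨i, rfl⟩ := Subgroup.mem_zpowers_iff.mp (hg u)
      obtain ⟨j, rfl⟩ := Subgroup.mem_zpowers_iff.mp (hg v)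
      rw [← zpow_add, ← zpow_add, add_comm]
    have := congrArg Subtype.val (hcm ⟨b, hb⟩ x₀)
    simpa using this
  have hcomm2 : (c * b * c⁻¹) * t₀ = t₀ * (c * b * c⁻¹) := by
    rw [ht₀]
    calc c * b * c⁻¹ * (c * (x₀ : G) * c⁻¹) = c * (b * (x₀ : G)) * c⁻¹ := by group
      _ = c * ((x₀ : G) * b) * c⁻¹ := by rw [hcomm]
      _ = c * (x₀ : G) * c⁻¹ * (c * b * c⁻¹) := by group
  have hnorm : c * b * c⁻¹ ∈ Subgroup.normalizer ((Subgroup.zpowers t₀ : Subgroup G) : Set G) := by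
    rw [Subgroup.mem_normalizer_iff]
    intro h
    have key : ∀ z : G, z * t₀ = t₀ * z → ∀ w : G, w ∈ Subgroup.zpowers t₀ →
        z * w * z⁻¹ ∈ Subgroup.zpowers t₀ := by
      intro z hz w hw
      obtain ⟨i, rfl⟩ := Subgroup.mem_zpowers_iff.mp hw
      have : z * t₀ ^ i * z⁻¹ = t₀ ^ i := by
        have hc2 : Commute z t₀ := hz
        have := (hc2.zpow_right i).eq
        rw [this]; group
      rw [this]; exact Subgroup.zpow_mem_zpowers t₀ i
    constructor
    · intro hh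
      exact key _ hcomm2 h hh
    · intro hh
      have hinv : (c * b * c⁻¹)⁻¹ * t₀ = t₀ * (c * b * c⁻¹)⁻¹ := by
        have hc2 : Commute (c * b * c⁻¹) t₀ := hcomm2
        exact hc2.inv_left.eq
      have := key _ hinv _ hh
      have e : (c * b * c⁻¹)⁻¹ * (c * b * c⁻¹ * h * (c * b * c⁻¹)⁻¹) * (c * b * c⁻¹)⁻¹⁻¹ = h := by
        group
      rwa [e] at this
  rw [hNeq] at hnorm
  apply mem_of_pow_coprime T (Nat.card A) hcopA _ hnorm
  have hbpow : b ^ Nat.card A = 1 := by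
    have h : ((⟨b, hb⟩ : A) ^ Nat.card A : A) = 1 := pow_card_eq_one'
    have h2 : (((⟨b, hb⟩ : A) ^ Nat.card A : A) : G) = b ^ Nat.card A := by
      rw [Subgroup.coe_pow]
    rw [← h2, h]; rfl
  calc (c * b * c⁻¹) ^ Nat.card A = c * b ^ Nat.card A * c⁻¹ := by
        rw [conj_pow]
    _ = 1 := by rw [hbpow]; group

example : (@toralInto.{u} : Cfsg.Agent.H7.RT.StConjInto.{u} →
    Cfsg.Agent.H7.RU.StToralInto.{u}) = @toralInto.{u} := rfl

end Cfsg.Agent.H75.RU
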