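import Mathlib
import Cfsg.Agent.H91.JRDefs

/-!
# Piece S3206-P2D: it suffices to treat the Sylow 2-subgroups containing `t`.
-/

set_option autoImplicit false
set_option linter.style.haveILetI false

namespace Cfsg.Agent.H75.JR

open Cfsg.Agent.H91.JR
open scoped Pointwise

universe u

theorem p2d : P2dStmt.{u} := by
  intro G _ _ t ht hall φ k hφ hex
  obtain ⟨S₁, hS₁⟩ := hex
  haveI : Fact (Nat.Prime 2) := ⟨Nat.prime_two⟩
  have ht2 : IsPGroup 2 (Subgroup.zpowers t) := by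
    rintro ⟨g, hg⟩
    obtain ⟨i, rfl⟩ := Subgroup.mem_zpowers_iff.mp hg
    refine ⟨1, ?_⟩
    apply Subtype.ext
    have h1 : (t ^ i) ^ 2 = (t ^ 2) ^ i := by
      rw [← zpow_natCast, ← zpow_mul, mul_comm, zpow_mul, zpow_natCast]
    simp only [pow_one, Subgroup.coe_pow, Subgroup.coe_one]
    rw [h1, pow_two, ht, one_zpow]
  obtain ⟨S, hS⟩ := ht2.exists_le_sylow
  have htS : t ∈ S := hS (Subgroup.mem_zpowers t)
  obtain ⟨g, hg⟩ := MulAction.exists_smul_eq G S₁ S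
  have hg' : g⁻¹ • S = S₁ := by rw [← hg, inv_smul_smul]
  have hφ'app : ∀ x : G, (MulAut.conj g * φ * (MulAut.conj g)⁻¹ : MulAut G) x =
      g * φ (g⁻¹ * x * g) * g⁻¹ := by
    intro x
    rw [MulAut.mul_apply, MulAut.mul_apply, MulAut.conj_apply, MulAut.conj_inv_apply]
  have h1 : (MulAut.conj g * φ * (MulAut.conj g)⁻¹ : MulAut G) ^ (2 ^ k) = 1 := by
    rw [conj_pow, hφ, mul_one, mul_inv_cancel]
  have h2 : ∀ s ∈ S, (MulAut.conj g * φ * (MulAut.conj g)⁻¹ : MulAut G) s = s := by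
    intro s hs
    have hs' : g⁻¹ * s * g⁻¹⁻¹ ∈ (S₁ : Subgroup G) := by
      rw [← hg', Sylow.coe_subgroup_smul]
      exact Subgroup.smul_mem_pointwise_smul s (MulAut.conj g⁻¹) _ hs
    rw [inv_inv] at hs'
    rw [hφ'app, hS₁ _ hs']
    group
  obtain ⟨h, hh⟩ := hall S htS _ k h1 h2
  refine ⟨g⁻¹ * h * g, fun x => ?_⟩
  have h3 := hh (g * x * g⁻¹)
  rw [hφ'app] at h3
  have h4 : g⁻¹ * (g * x * g⁻¹) * g = x := by group
  rw [h4] at h3
  calc φ x = g⁻¹ * (g * φ x * g⁻¹) * g := by group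
    _ = g⁻¹ * (h * (g * x * g⁻¹) * h⁻¹) * g := by rw [h3]
    _ = g⁻¹ * h * g * x * (g⁻¹ * h * g)⁻¹ := by group

end Cfsg.Agent.H75.JR
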