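import Mathlib
import Cfsg.Agent.H91.JRDefs

/-!
# Piece S3206-RED: reduction of central 2-group kernels to kernels of exponent 2.
-/

set_option autoImplicit false
set_option linter.style.haveILetI false

namespace Cfsg.Agent.H75.JR

open Cfsg.Agent.H91.JR

universe u v

theorem red : RedStmt.{u, v} := by
  intro G _ _ hD L _ _ Z _ hperf hZc hZ2 hne
  obtain ⟨e⟩ := hne
  by_contra hZne
  haveI : Fact (Nat.Prime 2) := ⟨Nat.prime_two⟩
  obtain ⟨n, hn⟩ := IsPGroup.iff_card.mp hZ2
  have hn0 : n ≠ 0 := by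
    rintro rfl
    rw [pow_zero] at hn
    exact hZne (Subgroup.card_eq_one.mp hn)
  obtain ⟨n', rfl⟩ := Nat.exists_eq_succ_of_ne_zero hn0
  obtain ⟨K, hK⟩ := Sylow.exists_subgroup_card_pow_prime 2 (n := n') (G := ↥Z)
    (by rw [hn]; exact pow_dvd_pow 2 (Nat.le_succ n'))
  have hKidx : K.index = 2 := by
    have h1 := K.index_mul_card
    rw [hK, hn, pow_succ] at h1
    have h2 : 0 < 2 ^ n' := by positivity
    rw [mul_comm] at h1
    exact Nat.eq_of_mul_eq_mul_left h2 h1
  have hZ₀Z : K.map Z.subtype ≤ Z := by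
    rintro x ⟨y, -, rfl⟩
    exact y.2
  haveI hZ₀n : (K.map Z.subtype).Normal := by
    constructor
    intro x hx g
    have hxc : x ∈ Subgroup.center L := hZc (hZ₀Z hx)
    have h1 : g * x * g⁻¹ = x := by
      rw [Subgroup.mem_center_iff] at hxc
      rw [hxc g, mul_inv_cancel_right]
    rw [h1]
    exact hx
  have hcardZ₀ : Nat.card (K.map Z.subtype) = 2 ^ n' := by
    rw [← hK]
    exact (Nat.card_congr (K.equivMapOfInjective Z.subtype Z.subtype_injective).toEquiv).symm
  let ρ : L ⧸ K.map Z.subtype →* G :=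
    QuotientGroup.lift (K.map Z.subtype) (e.toMonoidHom.comp (QuotientGroup.mk' Z)) (by
      intro x hx
      show e (QuotientGroup.mk x) = 1
      rw [(QuotientGroup.eq_one_iff x).mpr (hZ₀Z hx)]
      exact map_one e)
  have hρmk : ∀ x : L, ρ (QuotientGroup.mk x) = e (QuotientGroup.mk x) := fun x => rfl
  have hker : ∀ w : L ⧸ K.map Z.subtype, w ∈ ρ.ker ↔ ∃ z ∈ Z, w = QuotientGroup.mk z := by
    intro w
    obtain ⟨x, rfl⟩ := QuotientGroup.mk_surjective w
    rw [MonoidHom.mem_ker, hρmk]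
    constructor
    · intro h
      have h1 : (QuotientGroup.mk x : L ⧸ Z) = 1 := e.injective (h.trans (map_one e).symm)
      exact ⟨x, (QuotientGroup.eq_one_iff x).mp h1, rfl⟩
    · rintro ⟨z, hz, hzx⟩
      have h1 : x⁻¹ * z ∈ K.map Z.subtype := QuotientGroup.eq.mp hzx
      have hxZ : x ∈ Z := by
        have h2 := hZ₀Z h1
        have h3 : x = z * (x⁻¹ * z)⁻¹ := by group
        rw [h3]
        exact mul_mem hz (inv_mem h2)
      rw [(QuotientGroup.eq_one_iff x).mpr hxZ, map_one]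
  have hsurj : Function.Surjective ρ := by
    intro g
    obtain ⟨y, rfl⟩ := e.surjective g
    obtain ⟨x, rfl⟩ := QuotientGroup.mk_surjective y
    exact ⟨QuotientGroup.mk x, rfl⟩
  have hcen : ρ.ker ≤ Subgroup.center (L ⧸ K.map Z.subtype) := by
    intro w hw
    obtain ⟨z, hz, rfl⟩ := (hker w).mp hw
    rw [Subgroup.mem_center_iff]
    intro y
    obtain ⟨x, rfl⟩ := QuotientGroup.mk_surjective y
    have h1 := Subgroup.mem_center_iff.mp (hZc hz) x
    rw [← QuotientGroup.mk_mul, ← QuotientGroup.mk_mul, h1]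
  have hexp : ∀ w ∈ ρ.ker, w * w = 1 := by
    intro w hw
    obtain ⟨z, hz, rfl⟩ := (hker w).mp hw
    rw [← QuotientGroup.mk_mul, QuotientGroup.eq_one_iff]
    have h1 : (⟨z, hz⟩ : ↥Z) * ⟨z, hz⟩ ∈ K := Subgroup.mul_self_mem_of_index_two hKidx _
    exact ⟨_, h1, rfl⟩
  have hperfD : commutator (L ⧸ K.map Z.subtype) = ⊤ := by
    rw [commutator_def, ← Subgroup.map_top_of_surjective (QuotientGroup.mk' (K.map Z.subtype))
      (QuotientGroup.mk'_surjective _), ← Subgroup.map_commutator, ← commutator_def, hperf]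
  have hall := hD ρ hsurj hcen hexp hperfD
  have hZle : Z ≤ K.map Z.subtype := by
    intro z hz
    have h1 := hall (QuotientGroup.mk z) ((hker _).mpr ⟨z, hz, rfl⟩)
    exact (QuotientGroup.eq_one_iff z).mp h1
  have h5 := Subgroup.card_le_of_le hZle
  rw [hn, hcardZ₀] at h5
  have h6 : 2 ^ n' < 2 ^ (n' + 1) := Nat.pow_lt_pow_right (by norm_num) (Nat.lt_succ_self n')
  omega

end Cfsg.Agent.H75.JR
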