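import Mathlib
import Cfsg.Agent.H52.ThS4

/-!
# An `S₃`-configuration on a four-group gives an `S₄`-section

`involves_S4_of_config`: if involutions-or-trivial `a, b` act on a four-group `{1, x, y, xy}` as the
two transvections (`a` fixes `x` and sends `y ↦ xy`; `b` fixes `y` and sends `x ↦ xy`), then
`S₄` is involved in `G`.
-/

set_option autoImplicit false

universe u

namespace Cfsg.Agent.H75.JE

open Cfsg

theorem involves_S4_of_config {G : Type u} [Group G] [Finite G] (a b x y : G)
    (haa : a * a = 1) (hbb : b * b = 1)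
    (hx1 : x ≠ 1) (hy1 : y ≠ 1) (hxx : x * x = 1) (hyy : y * y = 1)
    (hc : x * y = y * x)
    (hax : a * x * a⁻¹ = x) (hay : a * y * a⁻¹ = x * y)
    (hby : b * y * b⁻¹ = y) (hbx : b * x * b⁻¹ = x * y) :
    Cfsg.Involves (Equiv.Perm (Fin 4)) G := by
  classical
  have hxy : x ≠ y := by
    intro h
    rw [← h] at hay
    rw [hax, hxx] at hay
    exact hx1 hay
  -- basic identities
  have e1 : x * (x * y) = y := by rw [← mul_assoc, hxx, one_mul]
  have e2 : y * (x * y) = x := by rw [hc, ← mul_assoc, hyy, one_mul]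
  have e3 : x * y * x = y := by rw [hc, mul_assoc, hxx, mul_one]
  have e4 : x * y * y = x := by rw [mul_assoc, hyy, mul_one]
  have e5 : x * y * (x * y) = 1 := by rw [mul_assoc, e2, hxx]
  have hxi : x⁻¹ = x := inv_eq_of_mul_eq_one_left hxx
  have hyi : y⁻¹ = y := inv_eq_of_mul_eq_one_left hyy
  have hxyi : (x * y)⁻¹ = x * y := inv_eq_of_mul_eq_one_left e5
  have hai : a⁻¹ = a := inv_eq_of_mul_eq_one_left haa
  have hbi : b⁻¹ = b := inv_eq_of_mul_eq_one_left hbb
  let W : Subgroup G :=
    { carrier := {w | w = 1 ∨ w = x ∨ w = y ∨ w = x * y}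
      mul_mem' := by
        intro u v hu hv
        rcases hu with hu | hu | hu | hu <;> rcases hv with hv | hv | hv | hv <;> rw [hu, hv]
        · left; rw [one_mul]
        · right; left; rw [one_mul]
        · right; right; left; rw [one_mul]
        · right; right; right; rw [one_mul]
        · right; left; rw [mul_one]
        · left; exact hxx
        · right; right; right; rfl
        · right; right; left; exact e1
        · right; right; left; rw [mul_one]
        · right; right; right; exact hc.symm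
        · left; exact hyy
        · right; left; exact e2
        · right; right; right; rw [mul_one]
        · right; right; left; exact e3
        · right; left; exact e4
        · left; exact e5
      one_mem' := Or.inl rfl
      inv_mem' := by
        intro u hu
        rcases hu with hu | hu | hu | hu <;> rw [hu]
        · left; exact inv_one
        · right; left; exact hxi
        · right; right; left; exact hyi
        · right; right; right; exact hxyi }
  have hWmem : ∀ w : G, w ∈ W ↔ (w = 1 ∨ w = x ∨ w = y ∨ w = x * y) := fun w => Iff.rfl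
  have hxW : x ∈ W := Or.inr (Or.inl rfl)
  have hyW : y ∈ W := Or.inr (Or.inr (Or.inl rfl))
  have hxy1 : x * y ≠ 1 := by
    intro h
    apply hxy
    calc x = x * (y * y) := by rw [hyy, mul_one]
      _ = (x * y) * y := by rw [mul_assoc]
      _ = y := by rw [h, one_mul]
  have hxyx : x * y ≠ x := by
    intro h
    apply hy1
    calc y = x * (x * y) := e1.symm
      _ = x * x := by rw [h]
      _ = 1 := hxx
  have hxyy : x * y ≠ y := by
    intro h
    apply hx1
    calc x = x * y * y := e4.symm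
      _ = y * y := by rw [h]
      _ = 1 := hyy
  have hWcard : Nat.card W = 4 := by
    have hset : (W : Set G) = {1, x, y, x * y} := by
      ext w
      simp only [SetLike.mem_coe, hWmem, Set.mem_insert_iff, Set.mem_singleton_iff]
    have h0 : Nat.card W = Set.ncard (W : Set G) := (Nat.card_coe_set_eq (W : Set G))
    rw [h0, hset]
    rw [Set.ncard_insert_of_notMem, Set.ncard_insert_of_notMem, Set.ncard_insert_of_notMem,
      Set.ncard_singleton]
    · simp only [Set.mem_singleton_iff]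
      exact fun h => hxyy h.symm
    · simp only [Set.mem_insert_iff, Set.mem_singleton_iff]
      rintro (h | h)
      · exact hxy h
      · exact hxyx h.symm
    · simp only [Set.mem_insert_iff, Set.mem_singleton_iff]
      rintro (h | h | h)
      · exact hx1 h.symm
      · exact hy1 h.symm
      · exact hxy1 h.symm
  -- the element `c = a b` acts as a 3-cycle
  obtain ⟨c, hcdef⟩ : ∃ c, c = a * b := ⟨_, rfl⟩
  have hcx : c * x * c⁻¹ = y := by
    calc c * x * c⁻¹ = a * (b * x * b⁻¹) * a⁻¹ := by rw [hcdef]; group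
      _ = a * (x * y) * a⁻¹ := by rw [hbx]
      _ = (a * x * a⁻¹) * (a * y * a⁻¹) := by group
      _ = y := by rw [hax, hay, e1]
  have hcy : c * y * c⁻¹ = x * y := by
    calc c * y * c⁻¹ = a * (b * y * b⁻¹) * a⁻¹ := by rw [hcdef]; group
      _ = x * y := by rw [hby, hay]
  have hcxy : c * (x * y) * c⁻¹ = x := by
    calc c * (x * y) * c⁻¹ = (c * x * c⁻¹) * (c * y * c⁻¹) := by group
      _ = x := by rw [hcx, hcy, e2]
  have hac : a * c * a⁻¹ = c⁻¹ := by
    rw [hcdef, mul_inv_rev, hai, hbi]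
    calc a * (a * b) * a = (a * a) * b * a := by group
      _ = b * a := by rw [haa, one_mul]
  have hfixc : ∀ w ∈ W, c * w * c⁻¹ = w → w = 1 := by
    intro w hw h
    rcases hw with hw | hw | hw | hw
    · exact hw
    · rw [hw, hcx] at h; exact absurd h.symm hxy
    · rw [hw, hcy] at h; exact absurd h hxyy
    · rw [hw, hcxy] at h; exact absurd h.symm hxyx
  have hcW : ∀ w ∈ W, c * w * c⁻¹ ∈ W := by
    intro w hw
    rcases hw with hw | hw | hw | hw
    · rw [hw]; left; group
    · rw [hw, hcx]; exact hyW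
    · rw [hw, hcy]; exact Or.inr (Or.inr (Or.inr rfl))
    · rw [hw, hcxy]; exact hxW
  have haW : ∀ w ∈ W, a * w * a⁻¹ ∈ W := by
    intro w hw
    rcases hw with hw | hw | hw | hw
    · rw [hw]; left; group
    · rw [hw, hax]; exact hxW
    · rw [hw, hay]; exact Or.inr (Or.inr (Or.inr rfl))
    · have : a * (x * y) * a⁻¹ = (a * x * a⁻¹) * (a * y * a⁻¹) := by group
      rw [hw, this, hax, hay, e1]; exact hyW
  obtain ⟨d, hd⟩ : ∃ d, d = c ^ 3 := ⟨_, rfl⟩
  have hcd : Commute c d := by rw [hd]; exact (Commute.refl c).pow_right 3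
  have had : a * d * a⁻¹ = d⁻¹ := by
    rw [hd]
    calc a * c ^ 3 * a⁻¹ = (a * c * a⁻¹) ^ 3 := by rw [conj_pow]
      _ = (c ^ 3)⁻¹ := by rw [hac, inv_pow]
  have hdW : ∀ w ∈ W, d * w = w * d := by
    have hc3 : c ^ 3 = c * c * c := by rw [pow_succ, pow_two]
    have h3 : ∀ w ∈ W, c ^ 3 * w * (c ^ 3)⁻¹ = w := by
      intro w hw
      rw [hc3]
      rcases hw with h | h | h | h
      · rw [h]; group
      · rw [h]
        calc c * c * c * x * (c * c * c)⁻¹ = c * (c * (c * x * c⁻¹) * c⁻¹) * c⁻¹ := by group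
          _ = x := by rw [hcx, hcy, hcxy]
      · rw [h]
        calc c * c * c * y * (c * c * c)⁻¹ = c * (c * (c * y * c⁻¹) * c⁻¹) * c⁻¹ := by group
          _ = y := by rw [hcy, hcxy, hcx]
      · rw [h]
        calc c * c * c * (x * y) * (c * c * c)⁻¹ = c * (c * (c * (x * y) * c⁻¹) * c⁻¹) * c⁻¹ := by group
          _ = x * y := by rw [hcxy, hcx, hcy]
    intro w hw
    rw [hd]
    calc c ^ 3 * w = (c ^ 3 * w * (c ^ 3)⁻¹) * c ^ 3 := by group
      _ = w * c ^ 3 := by rw [h3 w hw]
  -- the ambient subgroup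
  have hnormOf : ∀ (K : Subgroup G) (g : G), (∀ w ∈ K, g * w * g⁻¹ ∈ K) →
      g ∈ Subgroup.normalizer (K : Set G) := by
    intro K g hg
    have h1 : K.map (MulAut.conj g).toMonoidHom ≤ K := by
      rintro _ ⟨w, hw, rfl⟩
      simpa using hg w hw
    have h2 : K.map (MulAut.conj g).toMonoidHom = K :=
      Subgroup.eq_of_le_of_card_ge h1
        (le_of_eq (Subgroup.card_map_of_injective (MulAut.conj g).injective).symm)
    rw [Subgroup.mem_normalizer_iff_map_conj_eq]
    exact h2
  set D := Subgroup.zpowers d with hD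
  set E := Subgroup.normalizer (W : Set G) ⊓ Subgroup.normalizer (D : Set G) with hE
  have hdD : d ∈ D := Subgroup.mem_zpowers d
  have hcentD : ∀ g : G, Commute g d → g ∈ Subgroup.normalizer (D : Set G) := by
    intro g hg
    apply hnormOf
    intro w hw
    obtain ⟨k, rfl⟩ := Subgroup.mem_zpowers_iff.1 hw
    have : g * d ^ k * g⁻¹ = d ^ k := by
      have := (hg.zpow_right k).eq
      calc g * d ^ k * g⁻¹ = (d ^ k * g) * g⁻¹ := by rw [this]
        _ = d ^ k := by group
    rw [this]; exact hw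
  have hWE : W ≤ E := by
    intro w hw
    exact Subgroup.mem_inf.2 ⟨Subgroup.le_normalizer hw, hcentD w (hdW w hw).symm⟩
  have hcE : c ∈ E := Subgroup.mem_inf.2 ⟨hnormOf W c hcW, hcentD c hcd⟩
  have haE : a ∈ E := by
    refine Subgroup.mem_inf.2 ⟨hnormOf W a haW, ?_⟩
    apply hnormOf
    intro w hw
    obtain ⟨k, rfl⟩ := Subgroup.mem_zpowers_iff.1 hw
    have : a * d ^ k * a⁻¹ = (d⁻¹) ^ k := by
      rw [← had]
      exact (map_zpow (MulAut.conj a).toMonoidHom d k)
    rw [this]
    exact D.zpow_mem (D.inv_mem hdD) k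
  have hdE : d ∈ E := by rw [hd]; exact E.pow_mem hcE 3
  have hDE : D ≤ E := by rw [hD, Subgroup.zpowers_le]; exact hdE
  have hDn : (D.subgroupOf E).Normal :=
    (Subgroup.normal_subgroupOf_iff_le_normalizer hDE).2 inf_le_right
  obtain ⟨π, hπ⟩ : ∃ π : E →* E ⧸ D.subgroupOf E, π = QuotientGroup.mk' (D.subgroupOf E) :=
    ⟨_, rfl⟩
  have hπsurj : Function.Surjective π := by rw [hπ]; exact QuotientGroup.mk'_surjective _
  have hπ1 : ∀ g : E, π g = 1 ↔ (g : G) ∈ D := by
    intro g
    rw [hπ, QuotientGroup.mk'_apply, QuotientGroup.eq_one_iff, Subgroup.mem_subgroupOf]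
  -- `W ∩ D = 1`
  have hWD : ∀ w ∈ W, w ∈ D → w = 1 := by
    intro w hw hwD
    apply hfixc w hw
    obtain ⟨k, rfl⟩ := Subgroup.mem_zpowers_iff.1 hwD
    have := (hcd.zpow_right k).eq
    calc c * d ^ k * c⁻¹ = (d ^ k * c) * c⁻¹ := by rw [this]
      _ = d ^ k := by group
  set WE := W.subgroupOf E with hWEdef
  set Wb := WE.map π with hWb
  have hWbcard : Nat.card Wb = 4 := by
    have hinj : Function.Injective (π.comp WE.subtype) := by
      rw [injective_iff_map_eq_one]
      rintro ⟨⟨w, hwE⟩, hw⟩ h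
      have hwW : w ∈ W := Subgroup.mem_subgroupOf.1 hw
      have h1 : π ⟨w, hwE⟩ = 1 := h
      have h2 : w = 1 := hWD w hwW ((hπ1 _).1 h1)
      apply Subtype.ext; apply Subtype.ext
      exact h2
    have hrange : (π.comp WE.subtype).range = Wb := by
      rw [MonoidHom.range_comp, Subgroup.range_subtype]
    rw [← hrange, ← Nat.card_congr (MonoidHom.ofInjective hinj).toEquiv,
      Nat.card_congr (Subgroup.subgroupOfEquivOfLe hWE).toEquiv, hWcard]
  have hmemWb : ∀ v : E ⧸ D.subgroupOf E, v ∈ Wb ↔ ∃ w : E, (w : G) ∈ W ∧ π w = v := by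
    intro v
    rw [hWb, Subgroup.mem_map]
    constructor
    · rintro ⟨w, hw, rfl⟩
      exact ⟨w, Subgroup.mem_subgroupOf.1 hw, rfl⟩
    · rintro ⟨w, hw, rfl⟩
      exact ⟨w, Subgroup.mem_subgroupOf.2 hw, rfl⟩
  obtain ⟨cE, hcEdef⟩ : ∃ cE : E, cE = ⟨c, hcE⟩ := ⟨_, rfl⟩
  obtain ⟨aE, haEdef⟩ : ∃ aE : E, aE = ⟨a, haE⟩ := ⟨_, rfl⟩
  have hy3 : (π cE) ^ 3 = 1 := by
    rw [← map_pow, hπ1]
    rw [hcEdef]
    show c ^ 3 ∈ D
    rw [← hd]; exact hdD
  have hyWb : ∀ v ∈ Wb, π cE * v * (π cE)⁻¹ ∈ Wb := by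
    intro v hv
    obtain ⟨w, hw, rfl⟩ := (hmemWb v).1 hv
    refine (hmemWb _).2 ⟨cE * w * cE⁻¹, ?_, by simp⟩
    rw [hcEdef]
    exact hcW w hw
  have hgWb : ∀ v ∈ Wb, π aE * v * (π aE)⁻¹ ∈ Wb := by
    intro v hv
    obtain ⟨w, hw, rfl⟩ := (hmemWb v).1 hv
    refine (hmemWb _).2 ⟨aE * w * aE⁻¹, ?_, by simp⟩
    rw [haEdef]
    exact haW w hw
  have hg : π aE * π cE * (π aE)⁻¹ = (π cE)⁻¹ := by
    have : aE * cE * aE⁻¹ = cE⁻¹ := by
      rw [haEdef, hcEdef]
      apply Subtype.ext
      exact hac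
    have h' := congrArg π this
    rw [map_mul, map_mul, map_inv, map_inv] at h'
    exact h'
  have hfix : ∀ v ∈ Wb, π cE * v * (π cE)⁻¹ = v → v = 1 := by
    intro v hv hfx
    obtain ⟨w, hw, rfl⟩ := (hmemWb v).1 hv
    have h1 : π (cE * w * cE⁻¹ * w⁻¹) = 1 := by
      rw [map_mul, map_inv π w, map_mul, map_mul, map_inv, hfx, mul_inv_cancel]
    have h2 : ((cE * w * cE⁻¹ * w⁻¹ : E) : G) ∈ D := (hπ1 _).1 h1
    have h3 : c * (w : G) * c⁻¹ * (w : G)⁻¹ ∈ D := by
      rw [hcEdef] at h2
      exact h2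
    have h4 : c * (w : G) * c⁻¹ * (w : G)⁻¹ ∈ W := W.mul_mem (hcW _ hw) (W.inv_mem hw)
    have h5 := hWD _ h4 h3
    have h6 : c * (w : G) * c⁻¹ = (w : G) := by
      calc c * (w : G) * c⁻¹ = (c * (w : G) * c⁻¹ * (w : G)⁻¹) * (w : G) := by group
        _ = (w : G) := by rw [h5, one_mul]
    have h7 : (w : G) = 1 := hfixc _ hw h6
    have h8 : w = 1 := Subtype.ext h7
    rw [h8, map_one]
  have hinv := Cfsg.Agent.H52.involves_S4_of_data Wb (π cE) (π aE) hWbcard hy3 hyWb hgWb hg hfix
  have hinvE : Cfsg.Involves (Equiv.Perm (Fin 4)) E :=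
    Cfsg.Agent.H52.involves_of_surjective π hπsurj hinv
  exact Cfsg.Agent.H52.involves_of_injective E.subtype E.subtype_injective hinvE

end Cfsg.Agent.H75.JE
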