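import Mathlib
import Cfsg.Agent.H74.MCDefs
/-!
S4756-CENTLE (helper74's S4756 team project): if `z = g ^ n` and `|C(z)| · |G'| = |G|`, then
`|C(g)| · |G'| = |G|`.
-/
set_option autoImplicit false

namespace Cfsg.Agent.H75.MC

open Cfsg Cfsg.Agent.H74.MC

universe u

/-- The index of a centralizer is at most the order of the commutator subgroup. -/
theorem index_centralizer_le {G : Type u} [Group G] [Finite G] (g : G) :
    (Subgroup.centralizer ({g} : Set G)).index ≤ Nat.card ↥(commutator G) := by
  have hmem : ∀ c : G, c * g * c⁻¹ * g⁻¹ ∈ commutator G := by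
    intro c
    rw [commutator_def]
    exact Subgroup.commutator_mem_commutator (Subgroup.mem_top c) (Subgroup.mem_top g)
  let f : G ⧸ Subgroup.centralizer ({g} : Set G) → ↥(commutator G) :=
    Quotient.lift (fun c : G => (⟨c * g * c⁻¹ * g⁻¹, hmem c⟩ : ↥(commutator G))) (by
      intro a b hab
      have h : a⁻¹ * b ∈ Subgroup.centralizer ({g} : Set G) := QuotientGroup.leftRel_apply.mp hab
      rw [Subgroup.mem_centralizer_singleton_iff] at h
      apply Subtype.ext
      show a * g * a⁻¹ * g⁻¹ = b * g * b⁻¹ * g⁻¹
      have e : a * g * a⁻¹ = b * g * b⁻¹ := by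
        calc a * g * a⁻¹ = a * (g * (a⁻¹ * b)) * b⁻¹ := by group
          _ = a * (a⁻¹ * b * g) * b⁻¹ := by rw [← h]
          _ = b * g * b⁻¹ := by group
      rw [e])
  have hf : Function.Injective f := by
    intro x y
    induction x using QuotientGroup.induction_on with
    | H a =>
      induction y using QuotientGroup.induction_on with
      | H b =>
        intro h
        have h' : a * g * a⁻¹ * g⁻¹ = b * g * b⁻¹ * g⁻¹ := congrArg Subtype.val h
        have e : a * g * a⁻¹ = b * g * b⁻¹ := mul_right_cancel h'
        apply QuotientGroup.eq.mpr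
        rw [Subgroup.mem_centralizer_singleton_iff]
        calc a⁻¹ * b * g = a⁻¹ * (b * g * b⁻¹) * b := by group
          _ = a⁻¹ * (a * g * a⁻¹) * b := by rw [e]
          _ = g * (a⁻¹ * b) := by group
  exact Nat.card_le_card_of_injective f hf

/-- S4756-CENTLE. -/
theorem centLe : StCentLe.{u} := by
  intro G _ _ g z ⟨n, hn⟩ hz
  have hle : Subgroup.centralizer ({g} : Set G) ≤ Subgroup.centralizer ({z} : Set G) := by
    intro c hc
    rw [Subgroup.mem_centralizer_singleton_iff] at hc ⊢
    rw [hn]
    have hcom : Commute c g := hc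
    exact (hcom.pow_right n).eq
  have h1 : Nat.card ↥(Subgroup.centralizer ({g} : Set G)) ≤
      Nat.card ↥(Subgroup.centralizer ({z} : Set G)) := Subgroup.card_le_of_le hle
  have h2 := index_centralizer_le g
  have h3 := Subgroup.card_mul_index (Subgroup.centralizer ({g} : Set G))
  apply le_antisymm
  · calc Nat.card ↥(Subgroup.centralizer ({g} : Set G)) * Nat.card ↥(commutator G)
        ≤ Nat.card ↥(Subgroup.centralizer ({z} : Set G)) * Nat.card ↥(commutator G) :=
          Nat.mul_le_mul_right _ h1
      _ = Nat.card G := hz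
  · calc Nat.card G = Nat.card ↥(Subgroup.centralizer ({g} : Set G)) *
          (Subgroup.centralizer ({g} : Set G)).index := h3.symm
      _ ≤ Nat.card ↥(Subgroup.centralizer ({g} : Set G)) * Nat.card ↥(commutator G) :=
          Nat.mul_le_mul_left _ h2

example : Cfsg.Agent.H74.MC.StCentLe.{u} := centLe

end Cfsg.Agent.H75.MC
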