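import Mathlib
import Cfsg.Agent.H74.MCDefs
/-!
S4756-CHAR (helper74's S4756 team project): the character part.  If all irreducible characters
are multiplicative on pairs of nonidentity elements of prime-power orders for different primes and
`G` is nonabelian, then for some prime `p` the commutator subgroup is a `p`-group and every
element whose order is not a power of `p` has a centralizer of order `[G : G']`.
-/
set_option autoImplicit false

namespace Cfsg.Agent.H75.MC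

open Cfsg Cfsg.Agent.H74.MC

universe u

/-- S4756-CHAR. -/
theorem char (h1 : StVan1.{u}) (h2 : StDvd.{u}) (h3 : StBig.{u}) (h4 : StUniq)
    (h5 : StNonlin.{u}) (h6 : StNotComm.{u}) (h7 : StCent.{u}) (h8 : StCentLe.{u}) :
    StChar.{u} := by
  intro G _ _ hM hnab
  classical
  have hN : 0 < Nat.card G := Nat.card_pos
  -- (a) each nonlinear character has its prime
  have ha : ∀ χ : IrrCharacter G, charDegree (χ : G → ℂ) ≠ 1 →
      ∃ q : ℕ, q.Prime ∧ Nat.card G < (q ^ (Nat.card G).factorization q) ^ 2 ∧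
        ∀ r : ℕ, r.Prime → r ≠ q → ∀ y : G, y ≠ 1 → (∃ k : ℕ, orderOf y = r ^ k) →
          (χ : G → ℂ) y = 0 := by
    intro χ hχ
    have key : ∃ q : ℕ, q.Prime ∧ ∀ r : ℕ, r.Prime → r ≠ q → ∀ y : G, y ≠ 1 →
        (∃ k : ℕ, orderOf y = r ^ k) → (χ : G → ℂ) y = 0 := by
      by_cases hex : ∃ (y₀ : G) (p₀ k₀ : ℕ), y₀ ≠ 1 ∧ p₀.Prime ∧ orderOf y₀ = p₀ ^ k₀ ∧
          (χ : G → ℂ) y₀ ≠ 0
      · obtain ⟨y₀, p₀, k₀, hy₀, hp₀, ho₀, hχ₀⟩ := hex
        refine ⟨p₀, hp₀, ?_⟩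
        rintro r hr hrp y hy ⟨k, hk⟩
        rcases h1 G hM χ hχ y₀ y hy₀ hy
          ⟨p₀, r, k₀, k, hp₀, hr, fun h => hrp h.symm, ho₀, hk⟩ with h | h
        · exact absurd h hχ₀
        · exact h
      · refine ⟨2, Nat.prime_two, ?_⟩
        rintro r hr _ y hy ⟨k, hk⟩
        by_contra hne
        exact hex ⟨y, r, k, hy, hr, hk, hne⟩
    obtain ⟨q, hq, hvan⟩ := key
    exact ⟨q, hq, h3 G χ hχ q hq (fun r hr hrq => h2 G χ r hr (hvan r hr hrq)), hvan⟩
  -- (b) the prime is the same for all nonlinear characters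
  obtain ⟨χ₀, hχ₀⟩ := h5 G hnab
  obtain ⟨p, hp, hpN, -⟩ := ha χ₀ hχ₀
  have hb : ∀ χ : IrrCharacter G, charDegree (χ : G → ℂ) ≠ 1 →
      ∀ r : ℕ, r.Prime → r ≠ p → ∀ y : G, y ≠ 1 → (∃ k : ℕ, orderOf y = r ^ k) →
        (χ : G → ℂ) y = 0 := by
    intro χ hχ
    obtain ⟨q, hq, hqN, hvan⟩ := ha χ hχ
    have hqp : q = p := h4 (Nat.card G) q p hN hq hp hqN hpN
    rw [hqp] at hvan
    exact hvan
  -- an element of prime order `r ≠ p` among the powers of `g`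
  have hz : ∀ g : G, (¬ ∃ k : ℕ, orderOf g = p ^ k) →
      ∃ n : ℕ, g ^ n ≠ 1 ∧
        ∀ χ : IrrCharacter G, charDegree (χ : G → ℂ) ≠ 1 → (χ : G → ℂ) (g ^ n) = 0 := by
    intro g hg
    have ho : orderOf g ≠ 0 := (orderOf_pos g).ne'
    obtain ⟨r, hr, hrd, hrp⟩ : ∃ r : ℕ, r.Prime ∧ r ∣ orderOf g ∧ r ≠ p := by
      by_contra hcon
      apply hg
      refine ⟨_, Nat.eq_prime_pow_of_unique_prime_dvd ho ?_⟩
      intro d hd hdd
      by_contra hdp
      exact hcon ⟨d, hd, hdd, hdp⟩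
    have hzo : orderOf (g ^ (orderOf g / r)) = r := orderOf_pow_orderOf_div ho hrd
    have hz1 : g ^ (orderOf g / r) ≠ 1 := by
      intro h
      rw [h, orderOf_one] at hzo
      exact hr.ne_one hzo.symm
    exact ⟨orderOf g / r, hz1,
      fun χ hχ => hb χ hχ r hr hrp _ hz1 ⟨1, by rw [hzo, pow_one]⟩⟩
  refine ⟨p, hp, ?_, ?_⟩
  · intro g
    by_cases hg : ∃ k : ℕ, orderOf (g : G) = p ^ k
    · obtain ⟨k, hk⟩ := hg
      refine ⟨k, ?_⟩
      apply Subtype.ext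
      rw [Subgroup.coe_pow, ← hk, pow_orderOf_eq_one]
      rfl
    · exfalso
      obtain ⟨n, hn1, hvan⟩ := hz (g : G) hg
      exact h6 G _ hn1 hvan ((commutator G).pow_mem g.2 n)
  · intro g hg
    obtain ⟨n, -, hvan⟩ := hz g hg
    exact h8 G g _ ⟨n, rfl⟩ (h7 G _ hvan)

example (h1 : StVan1.{u}) (h2 : StDvd.{u}) (h3 : StBig.{u}) (h4 : StUniq)
    (h5 : StNonlin.{u}) (h6 : StNotComm.{u}) (h7 : StCent.{u}) (h8 : StCentLe.{u}) :
    Cfsg.Agent.H74.MC.StChar.{u} := char h1 h2 h3 h4 h5 h6 h7 h8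

end Cfsg.Agent.H75.MC
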