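import Mathlib
import Cfsg.Prelude.Def_HallClasses

set_option autoImplicit false

namespace Cfsg.Agent.H75

variable {G : Type*} [Group G]

theorem mem_conjMap {H : Subgroup G} {g y : G} :
    y ∈ H.map (MulAut.conj g).toMonoidHom ↔ g⁻¹ * y * g ∈ H := by
  constructor
  · rintro ⟨h, hh, rfl⟩
    simpa [MulAut.conj_apply, mul_assoc] using hh
  · intro h
    refine ⟨g⁻¹ * y * g, h, ?_⟩
    simp [MulAut.conj_apply, mul_assoc]

theorem conjMap_mul (H : Subgroup G) (a b : G) :
    H.map (MulAut.conj (a * b)).toMonoidHom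
      = (H.map (MulAut.conj b).toMonoidHom).map (MulAut.conj a).toMonoidHom := by
  ext y
  simp only [mem_conjMap]
  simp [mul_assoc]

theorem conjMap_of_mem {H : Subgroup G} {h : G} (hh : h ∈ H) :
    H.map (MulAut.conj h).toMonoidHom = H := by
  ext y
  rw [mem_conjMap]
  constructor
  · intro hy
    have : y = h * (h⁻¹ * y * h) * h⁻¹ := by group
    rw [this]
    exact H.mul_mem (H.mul_mem hh hy) (H.inv_mem hh)
  · intro hy
    exact H.mul_mem (H.mul_mem (H.inv_mem hh) hy) hh

theorem conjMap_one (H : Subgroup G) : H.map (MulAut.conj (1 : G)).toMonoidHom = H :=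
  conjMap_of_mem H.one_mem

theorem conjMap_mul_of_mem_right {H : Subgroup G} (a : G) {h : G} (hh : h ∈ H) :
    H.map (MulAut.conj (a * h)).toMonoidHom = H.map (MulAut.conj a).toMonoidHom := by
  rw [conjMap_mul, conjMap_of_mem hh]

theorem mem_normalizer_iff_conjMap {H : Subgroup G} {g : G} :
    g ∈ Subgroup.normalizer (H : Set G) ↔ H.map (MulAut.conj g).toMonoidHom = H :=
  Subgroup.mem_normalizer_iff_map_conj_eq

theorem conjMap_mul_of_mem_normalizer {H : Subgroup G} (a : G) {n : G}
    (hn : n ∈ Subgroup.normalizer (H : Set G)) :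
    H.map (MulAut.conj (a * n)).toMonoidHom = H.map (MulAut.conj a).toMonoidHom := by
  rw [conjMap_mul, mem_normalizer_iff_conjMap.mp hn]

theorem conjMap_mono {H K : Subgroup G} (h : H ≤ K) (g : G) :
    H.map (MulAut.conj g).toMonoidHom ≤ K.map (MulAut.conj g).toMonoidHom :=
  Subgroup.map_mono h

theorem conjMap_inv_conjMap (H : Subgroup G) (g : G) :
    (H.map (MulAut.conj g).toMonoidHom).map (MulAut.conj g⁻¹).toMonoidHom = H := by
  rw [← conjMap_mul, inv_mul_cancel, conjMap_one]

theorem conjMap_conjMap_inv (H : Subgroup G) (g : G) :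
    (H.map (MulAut.conj g⁻¹).toMonoidHom).map (MulAut.conj g).toMonoidHom = H := by
  rw [← conjMap_mul, mul_inv_cancel, conjMap_one]

theorem conjMap_le_of_mem {D H : Subgroup G} (hH : H ≤ D) {g : G} (hg : g ∈ D) :
    H.map (MulAut.conj g).toMonoidHom ≤ D := by
  intro y hy
  rw [mem_conjMap] at hy
  have : y = g * (g⁻¹ * y * g) * g⁻¹ := by group
  rw [this]
  exact D.mul_mem (D.mul_mem hg (hH hy)) (D.inv_mem hg)

/-- invariance under conjugation by elements of `H`, from the elementwise inclusion -/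
theorem conjMap_eq_of_forall_mem {H U : Subgroup G}
    (hinv : ∀ h ∈ H, ∀ u ∈ U, h * u * h⁻¹ ∈ U) :
    ∀ h ∈ H, U.map (MulAut.conj h).toMonoidHom = U := by
  intro h hh
  ext y
  rw [mem_conjMap]
  constructor
  · intro hy
    have : y = h * (h⁻¹ * y * h) * h⁻¹ := by group
    rw [this]
    exact hinv h hh _ hy
  · intro hy
    have := hinv h⁻¹ (H.inv_mem hh) y hy
    simpa using this

theorem forall_mem_of_conjMap_eq {H U : Subgroup G}
    (hinv : ∀ h ∈ H, U.map (MulAut.conj h).toMonoidHom = U) :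
    ∀ h ∈ H, ∀ u ∈ U, h * u * h⁻¹ ∈ U := by
  intro h hh u hu
  have : h * u * h⁻¹ ∈ U.map (MulAut.conj h).toMonoidHom := by
    rw [mem_conjMap]
    simpa [mul_assoc] using hu
  rwa [hinv h hh] at this

end Cfsg.Agent.H75
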