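import Mathlib
import Cfsg.Prelude.Def_HallClasses
import Cfsg.Agent.H75.Pronormal

set_option autoImplicit false

namespace Cfsg.Agent.H75

variable {G : Type*} [Group G]

theorem map_conjMap {G' : Type*} [Group G'] (f : G →* G') (K : Subgroup G) (g : G) :
    (K.map (MulAut.conj g).toMonoidHom).map f
      = (K.map f).map (MulAut.conj (f g)).toMonoidHom := by
  rw [Subgroup.map_map, Subgroup.map_map]
  congr 1
  ext x
  simp [MulAut.conj_apply]

/-- relative pronormality: conjugation by elements of `M` only -/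
def PronIn (K M : Subgroup G) : Prop :=
  ∀ g ∈ M, ∃ x ∈ K ⊔ K.map (MulAut.conj g).toMonoidHom,
    K.map (MulAut.conj g).toMonoidHom = K.map (MulAut.conj x).toMonoidHom

theorem conjMap_subgroupOf {K M : Subgroup G} (g : M) :
    (K.subgroupOf M).map (MulAut.conj g).toMonoidHom
      = (K.map (MulAut.conj (g : G)).toMonoidHom).subgroupOf M := by
  ext y
  rw [mem_conjMap, Subgroup.mem_subgroupOf, Subgroup.mem_subgroupOf, mem_conjMap]
  simp

theorem pronIn_of_isPronormal_subgroupOf {K M : Subgroup G} (hKM : K ≤ M)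
    (h : Cfsg.IsPronormal (K.subgroupOf M)) : PronIn K M := by
  intro g hg
  obtain ⟨x, hx, hxeq⟩ := h ⟨g, hg⟩
  rw [conjMap_subgroupOf, conjMap_subgroupOf] at hxeq
  rw [conjMap_subgroupOf] at hx
  have hKg : K.map (MulAut.conj g).toMonoidHom ≤ M := conjMap_le_of_mem hKM hg
  have hKx : K.map (MulAut.conj (x : G)).toMonoidHom ≤ M := conjMap_le_of_mem hKM x.2
  refine ⟨x, ?_, ?_⟩
  · rw [← Subgroup.subgroupOf_sup hKM hKg] at hx
    exact hx
  · have e1 := congrArg (Subgroup.map M.subtype) hxeq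
    rwa [Subgroup.map_subgroupOf_eq_of_le hKg, Subgroup.map_subgroupOf_eq_of_le hKx] at e1

theorem isPronormal_subgroupOf_of_pronIn {K M : Subgroup G} (hKM : K ≤ M)
    (h : PronIn K M) : Cfsg.IsPronormal (K.subgroupOf M) := by
  intro g
  obtain ⟨x, hx, hxeq⟩ := h g g.2
  have hKg : K.map (MulAut.conj (g : G)).toMonoidHom ≤ M := conjMap_le_of_mem hKM g.2
  have hxM : x ∈ M := (sup_le hKM hKg) hx
  refine ⟨⟨x, hxM⟩, ?_, ?_⟩
  · rw [conjMap_subgroupOf, ← Subgroup.subgroupOf_sup hKM hKg]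
    exact hx
  · rw [conjMap_subgroupOf, conjMap_subgroupOf, hxeq]

theorem pronIn_top_iff {K : Subgroup G} : PronIn K ⊤ ↔ Cfsg.IsPronormal K := by
  constructor
  · intro h g
    exact h g (Subgroup.mem_top g)
  · intro h g _
    exact h g

theorem PronIn.mono {K M M' : Subgroup G} (h : PronIn K M) (hM : M' ≤ M) : PronIn K M' :=
  fun g hg => h g (hM hg)

theorem isPronormal_map_of_surjective {G' : Type*} [Group G'] {f : G →* G'}
    (hf : Function.Surjective f) {K : Subgroup G} (h : Cfsg.IsPronormal K) :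
    Cfsg.IsPronormal (K.map f) := by
  intro q
  obtain ⟨g, rfl⟩ := hf q
  obtain ⟨x, hx, hxeq⟩ := h g
  refine ⟨f x, ?_, ?_⟩
  · rw [← map_conjMap, ← Subgroup.map_sup]
    exact Subgroup.mem_map_of_mem f hx
  · rw [← map_conjMap, ← map_conjMap, hxeq]

theorem exists_of_isPronormal_map_mk (M : Subgroup G) [M.Normal] (K : Subgroup G)
    (h : Cfsg.IsPronormal (K.map (QuotientGroup.mk' M))) (g : G) :
    ∃ x ∈ K ⊔ K.map (MulAut.conj g).toMonoidHom,
      K.map (MulAut.conj g).toMonoidHom ⊔ M = K.map (MulAut.conj x).toMonoidHom ⊔ M := by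
  obtain ⟨x', hx', hxeq⟩ := h (QuotientGroup.mk' M g)
  rw [← map_conjMap, ← Subgroup.map_sup] at hx'
  obtain ⟨x, hx, rfl⟩ := hx'
  refine ⟨x, hx, ?_⟩
  rw [← map_conjMap, ← map_conjMap] at hxeq
  have := congrArg (Subgroup.comap (QuotientGroup.mk' M)) hxeq
  rwa [Subgroup.comap_map_eq, Subgroup.comap_map_eq, QuotientGroup.ker_mk'] at this

theorem isPronormal_of_isPronormal_map_mk (M : Subgroup G) [M.Normal] (K : Subgroup G)
    (hMK : M ≤ K) (h : Cfsg.IsPronormal (K.map (QuotientGroup.mk' M))) :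
    Cfsg.IsPronormal K := by
  intro g
  obtain ⟨x, hx, hxeq⟩ := exists_of_isPronormal_map_mk M K h g
  refine ⟨x, hx, ?_⟩
  have h1 : ∀ y : G, M ≤ K.map (MulAut.conj y).toMonoidHom := by
    intro y m hm
    rw [mem_conjMap]
    apply hMK
    have := Subgroup.Normal.conj_mem (inferInstance : M.Normal) m hm y⁻¹
    simpa using this
  rwa [sup_of_le_left (h1 g), sup_of_le_left (h1 x)] at hxeq

theorem isPronormal_conjMap {H : Subgroup G} (h : Cfsg.IsPronormal H) (c : G) :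
    Cfsg.IsPronormal (H.map (MulAut.conj c).toMonoidHom) := by
  intro g
  obtain ⟨x, hx, hxeq⟩ := h (c⁻¹ * g * c)
  refine ⟨c * x * c⁻¹, ?_, ?_⟩
  · have h1 : c * x * c⁻¹ ∈ (H ⊔ H.map (MulAut.conj (c⁻¹ * g * c)).toMonoidHom).map
        (MulAut.conj c).toMonoidHom := by
      rw [mem_conjMap]
      simpa [mul_assoc] using hx
    rw [Subgroup.map_sup] at h1
    have h2 : (H.map (MulAut.conj (c⁻¹ * g * c)).toMonoidHom).map (MulAut.conj c).toMonoidHom
        = (H.map (MulAut.conj c).toMonoidHom).map (MulAut.conj g).toMonoidHom := by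
      rw [← conjMap_mul, ← conjMap_mul]
      congr 3
      group
    rwa [h2] at h1
  · rw [← conjMap_mul, ← conjMap_mul]
    have e1 : g * c = c * (c⁻¹ * g * c) := by group
    have e2 : c * x * c⁻¹ * c = c * x := by group
    rw [e1, e2, conjMap_mul, hxeq, ← conjMap_mul]

/-! ### Sylow subgroups of subgroups, at the level of the ambient group -/

theorem relIndex_eq_relIndex_sup_of_normal [Finite G]
    (H A : Subgroup G) [A.Normal] : H.relIndex A = H.relIndex (H ⊔ A) := by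
  have h1 : Nat.card (H ⊓ A : Subgroup G) * H.relIndex A = Nat.card A := by
    have := Subgroup.relIndex_mul_relIndex (⊥ : Subgroup G) (H ⊓ A) A bot_le inf_le_right
    rwa [Subgroup.relIndex_bot_left, Subgroup.relIndex_bot_left, Subgroup.inf_relIndex_right] at this
  have h2 : Nat.card (H ⊓ A : Subgroup G) * A.relIndex H = Nat.card H := by
    have := Subgroup.relIndex_mul_relIndex (⊥ : Subgroup G) (H ⊓ A) H bot_le inf_le_left
    rwa [Subgroup.relIndex_bot_left, Subgroup.relIndex_bot_left, Subgroup.inf_relIndex_left] at this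
  have h3 : Nat.card A * A.relIndex H = Nat.card (H ⊔ A : Subgroup G) := by
    have := Subgroup.relIndex_mul_relIndex (⊥ : Subgroup G) A (H ⊔ A) bot_le le_sup_right
    rwa [Subgroup.relIndex_bot_left, Subgroup.relIndex_bot_left, Subgroup.relIndex_sup_right] at this
  have h4 : Nat.card H * H.relIndex (H ⊔ A) = Nat.card (H ⊔ A : Subgroup G) := by
    have := Subgroup.relIndex_mul_relIndex (⊥ : Subgroup G) H (H ⊔ A) bot_le le_sup_left
    rwa [Subgroup.relIndex_bot_left, Subgroup.relIndex_bot_left] at this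
  have hpos : 0 < Nat.card (H ⊓ A : Subgroup G) * A.relIndex H := by
    rw [h2]; exact Nat.card_pos
  have h5 : (Nat.card (H ⊓ A : Subgroup G) * A.relIndex H) * H.relIndex A
      = (Nat.card (H ⊓ A : Subgroup G) * A.relIndex H) * H.relIndex (H ⊔ A) := by
    calc (Nat.card (H ⊓ A : Subgroup G) * A.relIndex H) * H.relIndex A
        = (Nat.card (H ⊓ A : Subgroup G) * H.relIndex A) * A.relIndex H := by ring
      _ = Nat.card (H ⊔ A : Subgroup G) := by rw [h1, h3]
      _ = (Nat.card (H ⊓ A : Subgroup G) * A.relIndex H) * H.relIndex (H ⊔ A) := by rw [h2, h4]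
  exact Nat.eq_of_mul_eq_mul_left hpos h5

theorem relIndex_dvd_index_of_normal_right' [Finite G]
    (H A : Subgroup G) [A.Normal] : H.relIndex A ∣ H.index := by
  rw [relIndex_eq_relIndex_sup_of_normal]
  exact Subgroup.relIndex_dvd_index_of_le le_sup_left

/-- `T` is a Sylow `p`-subgroup of the subgroup `Y`. -/
def IsSylowOf (p : ℕ) (T Y : Subgroup G) : Prop :=
  T ≤ Y ∧ IsPGroup p T ∧ ¬ p ∣ T.relIndex Y

variable {p : ℕ} [Fact p.Prime]

theorem IsSylowOf.exists_sylow {T Y : Subgroup G} (h : IsSylowOf p T Y) :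
    ∃ P : Sylow p ↥Y, (P : Subgroup ↥Y) = T.subgroupOf Y := by
  have h1 : IsPGroup p (T.subgroupOf Y) := h.2.1.comap_subtype
  exact ⟨h1.toSylow h.2.2, rfl⟩

theorem IsSylowOf.exists_conj [Finite G] {T₁ T₂ Y : Subgroup G} (h₁ : IsSylowOf p T₁ Y)
    (h₂ : IsSylowOf p T₂ Y) : ∃ y ∈ Y, T₂ = T₁.map (MulAut.conj y).toMonoidHom := by
  obtain ⟨P₁, hP₁⟩ := h₁.exists_sylow
  obtain ⟨P₂, hP₂⟩ := h₂.exists_sylow
  obtain ⟨y, hy⟩ := MulAction.exists_smul_eq Y P₁ P₂
  refine ⟨y, y.2, ?_⟩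
  have h3 : (T₁.subgroupOf Y).map (MulAut.conj y).toMonoidHom = T₂.subgroupOf Y := by
    rw [← hP₁, ← hP₂, ← hy]
    rfl
  rw [conjMap_subgroupOf] at h3
  have h4 := congrArg (Subgroup.map Y.subtype) h3
  rw [Subgroup.map_subgroupOf_eq_of_le (conjMap_le_of_mem h₁.1 y.2),
    Subgroup.map_subgroupOf_eq_of_le h₂.1] at h4
  exact h4.symm

theorem IsSylowOf.conjMap {T Y : Subgroup G} (h : IsSylowOf p T Y) (g : G) :
    IsSylowOf p (T.map (MulAut.conj g).toMonoidHom) (Y.map (MulAut.conj g).toMonoidHom) := by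
  refine ⟨Subgroup.map_mono h.1, h.2.1.map _, ?_⟩
  rw [Subgroup.relIndex_map_map_of_injective _ _ (MulAut.conj g).injective]
  exact h.2.2

theorem IsSylowOf.mono {T Y A : Subgroup G} (h : IsSylowOf p T A) (hTY : T ≤ Y) (hYA : Y ≤ A) :
    IsSylowOf p T Y := by
  refine ⟨hTY, h.2.1, fun hdvd => h.2.2 ?_⟩
  rw [← Subgroup.relIndex_mul_relIndex T Y A hTY hYA]
  exact Dvd.dvd.mul_right hdvd _

theorem isSylowOf_of_sylow [Finite G] (S : Sylow p G) {D : Subgroup G} (h : (S : Subgroup G) ≤ D) :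
    IsSylowOf p (S : Subgroup G) D :=
  ⟨h, S.2, fun hdvd => S.not_dvd_index (hdvd.trans (Subgroup.relIndex_dvd_index_of_le h))⟩

theorem isSylowOf_inf_normal [Finite G] (S : Sylow p G) (A : Subgroup G) [A.Normal] :
    IsSylowOf p ((S : Subgroup G) ⊓ A) A := by
  refine ⟨inf_le_right, S.2.to_inf_left, ?_⟩
  rw [Subgroup.inf_relIndex_right]
  intro hdvd
  exact S.not_dvd_index (hdvd.trans (relIndex_dvd_index_of_normal_right' (S : Subgroup G) A))

theorem isSylowOf_map_subtype [Finite G] {A : Subgroup G} (P : Sylow p ↥A) :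
    IsSylowOf p ((P : Subgroup ↥A).map A.subtype) A := by
  refine ⟨Subgroup.map_subtype_le _, P.2.map _, ?_⟩
  have h1 : ((P : Subgroup ↥A).map A.subtype).relIndex A = (P : Subgroup ↥A).index := by
    unfold Subgroup.relIndex Subgroup.subgroupOf
    rw [Subgroup.comap_map_eq_self_of_injective A.subtype_injective]
  rw [h1]
  exact P.not_dvd_index

theorem IsSylowOf.not_dvd_index_normalizer [Finite G] {T A : Subgroup G} [A.Normal]
    (hT : IsSylowOf p T A) : ¬ p ∣ (Subgroup.normalizer (T : Set G)).index := by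
  obtain ⟨P, hP⟩ := hT.exists_sylow
  have h1 := Sylow.normalizer_sup_eq_top P
  rw [hP, Subgroup.map_subgroupOf_eq_of_le hT.1] at h1
  intro hdvd
  apply hT.2.2
  have h2 : (Subgroup.normalizer (T : Set G)).index
      = (Subgroup.normalizer (T : Set G)).relIndex A := by
    rw [relIndex_eq_relIndex_sup_of_normal, h1, Subgroup.relIndex_top_right]
  rw [h2] at hdvd
  exact hdvd.trans (Subgroup.relIndex_dvd_of_le_left A Subgroup.le_normalizer)

local notation:max K " ⊛ " g:max => Subgroup.map (MulEquiv.toMonoidHom (MulAut.conj g)) K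

theorem conjMap_normal (A : Subgroup G) [hA : A.Normal] (g : G) : A ⊛ g = A := by
  apply le_antisymm
  · intro y hy
    rw [mem_conjMap] at hy
    have := hA.conj_mem _ hy g
    simpa [mul_assoc] using this
  · intro y hy
    rw [mem_conjMap]
    have := hA.conj_mem _ hy g⁻¹
    simpa [mul_assoc] using this

theorem conjMap_inf (H K : Subgroup G) (g : G) : (H ⊓ K) ⊛ g = H ⊛ g ⊓ K ⊛ g :=
  Subgroup.map_inf H K _ (MulAut.conj g).injective

theorem normalizer_mul_mem {Y : Subgroup G} {a b : G} (ha : Y ⊛ a = Y) (hb : Y ⊛ b = Y) :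
    Y ⊛ (a * b) = Y := by
  rw [conjMap_mul, hb, ha]

theorem normalizer_inv_mem {Y : Subgroup G} {a : G} (ha : Y ⊛ a = Y) : Y ⊛ a⁻¹ = Y := by
  conv_lhs => rw [← ha]
  exact conjMap_inv_conjMap Y a

/-- The key step: an overgroup `H` of a Sylow `p`-subgroup `S` of `G` is pronormal with respect to
conjugation by the elements of the normal subgroup `A`. -/
theorem pron_step3 [Finite G] (A : Subgroup G) [A.Normal]
    (hA : ∀ K : Subgroup ↥A, (∃ P : Sylow p ↥A, (P : Subgroup ↥A) ≤ K) → Cfsg.IsPronormal K)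
    (T : Subgroup G) [(T.subgroupOf (Subgroup.normalizer (T : Set G))).Normal]
    (hi : ∀ K : Subgroup (↥(Subgroup.normalizer (T : Set G)) ⧸ T.subgroupOf (Subgroup.normalizer (T : Set G))),
      (∃ P : Sylow p (↥(Subgroup.normalizer (T : Set G)) ⧸ T.subgroupOf (Subgroup.normalizer (T : Set G))),
        (P : Subgroup (↥(Subgroup.normalizer (T : Set G)) ⧸ T.subgroupOf (Subgroup.normalizer (T : Set G)))) ≤ K) →
      Cfsg.IsPronormal K)
    (H : Subgroup G) (S : Sylow p G) (hSH : (S : Subgroup G) ≤ H) (hST : (S : Subgroup G) ⊓ A = T) :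
    PronIn H A := by
  intro a ha
  have hTsyl : IsSylowOf p T A := hST ▸ isSylowOf_inf_normal S A
  have hTY : T ≤ H ⊓ A := by rw [← hST]; exact inf_le_inf_right A hSH
  have hTsylY : IsSylowOf p T (H ⊓ A) := hTsyl.mono hTY inf_le_right
  -- a. `Y = H ⊓ A` is pronormal in `A`
  have hYA : PronIn (H ⊓ A) A := by
    apply pronIn_of_isPronormal_subgroupOf inf_le_right
    apply hA
    obtain ⟨P, hP⟩ := hTsyl.exists_sylow
    refine ⟨P, ?_⟩
    rw [hP]
    exact Subgroup.comap_mono hTY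
  obtain ⟨y, hy, hyeq⟩ := hYA a ha
  have hyD : y ∈ H ⊔ H ⊛ a := (sup_le_sup inf_le_left (conjMap_mono inf_le_left a)) hy
  have hyA : y ∈ A := (sup_le inf_le_right (conjMap_le_of_mem inf_le_right ha)) hy
  have ha₁A : y⁻¹ * a ∈ A := A.mul_mem (A.inv_mem hyA) ha
  have ha₁Y : (H ⊓ A) ⊛ (y⁻¹ * a) = H ⊓ A := by
    rw [conjMap_mul, hyeq, conjMap_inv_conjMap]
  -- b. Sylow conjugacy in `Y`
  have hT₁ : IsSylowOf p (T ⊛ (y⁻¹ * a)) (H ⊓ A) := by
    have := hTsylY.conjMap (y⁻¹ * a)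
    rwa [ha₁Y] at this
  obtain ⟨y₁, hy₁, hy₁eq⟩ := hTsylY.exists_conj hT₁
  have ha₂A : y₁⁻¹ * (y⁻¹ * a) ∈ A := A.mul_mem (A.inv_mem hy₁.2) ha₁A
  have ha₂T : T ⊛ (y₁⁻¹ * (y⁻¹ * a)) = T := by
    rw [conjMap_mul, hy₁eq, conjMap_inv_conjMap]
  have ha₂Y : (H ⊓ A) ⊛ (y₁⁻¹ * (y⁻¹ * a)) = H ⊓ A := by
    rw [conjMap_mul, ha₁Y, conjMap_of_mem (Subgroup.inv_mem _ hy₁)]
  -- c. `N_H(T)` is pronormal in `N_G(T)`
  have hSN : (S : Subgroup G) ≤ Subgroup.normalizer (T : Set G) := by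
    intro s hs
    rw [mem_normalizer_iff_conjMap, ← hST, conjMap_inf, conjMap_of_mem hs, conjMap_normal]
  have hSH₁ : (S : Subgroup G) ≤ H ⊓ Subgroup.normalizer (T : Set G) := le_inf hSH hSN
  have hTH₁ : T ≤ H ⊓ Subgroup.normalizer (T : Set G) := by
    have hTS : T ≤ (S : Subgroup G) := by rw [← hST]; exact inf_le_left
    exact hTS.trans hSH₁
  have hH₁pron : PronIn (H ⊓ Subgroup.normalizer (T : Set G)) (Subgroup.normalizer (T : Set G)) := by
    apply pronIn_of_isPronormal_subgroupOf inf_le_right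
    apply isPronormal_of_isPronormal_map_mk (T.subgroupOf (Subgroup.normalizer (T : Set G)))
      _ (Subgroup.comap_mono hTH₁)
    apply hi
    refine ⟨(S.subtype hSN).mapSurjective (QuotientGroup.mk'_surjective _), ?_⟩
    rw [Sylow.coe_mapSurjective, Sylow.coe_subtype]
    exact Subgroup.map_mono (Subgroup.comap_mono hSH₁)
  have ha₂N : y₁⁻¹ * (y⁻¹ * a) ∈ Subgroup.normalizer (T : Set G) :=
    mem_normalizer_iff_conjMap.mpr ha₂T
  obtain ⟨x, hx, hxeq⟩ := hH₁pron _ ha₂N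
  -- `x` normalizes `Y`
  have hHY : ∀ h ∈ H, (H ⊓ A) ⊛ h = H ⊓ A := by
    intro h hh
    rw [conjMap_inf, conjMap_of_mem hh, conjMap_normal]
  have hxY : (H ⊓ A) ⊛ x = H ⊓ A := by
    have hle : (H ⊓ Subgroup.normalizer (T : Set G)) ⊔
        (H ⊓ Subgroup.normalizer (T : Set G)) ⊛ (y₁⁻¹ * (y⁻¹ * a))
        ≤ Subgroup.normalizer ((H ⊓ A : Subgroup G) : Set G) := by
      apply sup_le
      · intro h hh
        exact mem_normalizer_iff_conjMap.mpr (hHY h hh.1)
      · intro z hz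
        rw [mem_conjMap] at hz
        rw [mem_normalizer_iff_conjMap]
        have e : z = (y₁⁻¹ * (y⁻¹ * a)) * ((y₁⁻¹ * (y⁻¹ * a))⁻¹ * z * (y₁⁻¹ * (y⁻¹ * a)))
            * (y₁⁻¹ * (y⁻¹ * a))⁻¹ := by group
        rw [e]
        exact normalizer_mul_mem (normalizer_mul_mem ha₂Y (hHY _ hz.1)) (normalizer_inv_mem ha₂Y)
    exact mem_normalizer_iff_conjMap.mp (hle hx)
  have ha₃H₁ : (H ⊓ Subgroup.normalizer (T : Set G)) ⊛ (x⁻¹ * (y₁⁻¹ * (y⁻¹ * a)))
      = H ⊓ Subgroup.normalizer (T : Set G) := by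
    rw [conjMap_mul, hxeq, conjMap_inv_conjMap]
  have ha₃Y : (H ⊓ A) ⊛ (x⁻¹ * (y₁⁻¹ * (y⁻¹ * a))) = H ⊓ A :=
    normalizer_mul_mem (normalizer_inv_mem hxY) ha₂Y
  -- Frattini: `H = Y ⊔ N_H(T)`
  have hfrat : H = (H ⊓ A) ⊔ (H ⊓ Subgroup.normalizer (T : Set G)) := by
    apply le_antisymm _ (sup_le inf_le_left inf_le_left)
    intro h hh
    have hT' : IsSylowOf p (T ⊛ h) (H ⊓ A) := by
      have := hTsylY.conjMap h
      rwa [hHY h hh] at this
    obtain ⟨y', hy', hy'eq⟩ := hTsylY.exists_conj hT'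
    have hn : y'⁻¹ * h ∈ Subgroup.normalizer (T : Set G) := by
      rw [mem_normalizer_iff_conjMap, conjMap_mul, hy'eq, conjMap_inv_conjMap]
    have e : h = y' * (y'⁻¹ * h) := by group
    rw [e]
    exact Subgroup.mul_mem _ (Subgroup.mem_sup_left hy')
      (Subgroup.mem_sup_right ⟨H.mul_mem (H.inv_mem hy'.1) hh, hn⟩)
  have ha₃H : H ⊛ (x⁻¹ * (y₁⁻¹ * (y⁻¹ * a))) = H := by
    conv_lhs => rw [hfrat]
    rw [Subgroup.map_sup, ha₃Y, ha₃H₁, ← hfrat]
  have h2 : H ⊛ (y₁⁻¹ * (y⁻¹ * a)) = H ⊛ x := by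
    have e : y₁⁻¹ * (y⁻¹ * a) = x * (x⁻¹ * (y₁⁻¹ * (y⁻¹ * a))) := by group
    rw [e, conjMap_mul, ha₃H]
  have hx2 : x ∈ H ⊔ H ⊛ (y₁⁻¹ * (y⁻¹ * a)) :=
    (sup_le_sup inf_le_left (conjMap_mono inf_le_left _)) hx
  have hy₁D : y₁ ∈ H ⊔ H ⊛ a := Subgroup.mem_sup_left hy₁.1
  have hle2 : H ⊛ (y₁⁻¹ * (y⁻¹ * a)) ≤ H ⊔ H ⊛ a := by
    rw [conjMap_mul, conjMap_mul]
    apply conjMap_le_of_mem _ (Subgroup.inv_mem _ hy₁D)
    apply conjMap_le_of_mem _ (Subgroup.inv_mem _ hyD)
    exact le_sup_right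
  refine ⟨y * (y₁ * x), ?_, ?_⟩
  · exact Subgroup.mul_mem _ hyD (Subgroup.mul_mem _ hy₁D ((sup_le le_sup_left hle2) hx2))
  · have e : a = y * (y₁ * (y₁⁻¹ * (y⁻¹ * a))) := by group
    conv_lhs => rw [e]
    rw [conjMap_mul, conjMap_mul, h2, ← conjMap_mul, ← conjMap_mul, mul_assoc]

theorem pron_forward_ii (A : Subgroup G) [A.Normal] (K : Subgroup G) (hK : Cfsg.IsPronormal K) :
    (Subgroup.normalizer (K : Set G)).map (QuotientGroup.mk' A)
      = Subgroup.normalizer ((K.map (QuotientGroup.mk' A) : Subgroup (G ⧸ A)) : Set (G ⧸ A)) := by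
  apply le_antisymm (Subgroup.le_normalizer_map _)
  intro q hq
  obtain ⟨g, rfl⟩ := QuotientGroup.mk'_surjective A q
  rw [mem_normalizer_iff_conjMap, ← map_conjMap] at hq
  have h1 := congrArg (Subgroup.comap (QuotientGroup.mk' A)) hq
  rw [Subgroup.comap_map_eq, Subgroup.comap_map_eq, QuotientGroup.ker_mk'] at h1
  obtain ⟨x, hx, hxeq⟩ := hK g
  have hx' : x ∈ A ⊔ K := by
    have : K ⊔ K ⊛ g ≤ A ⊔ K := by
      apply sup_le le_sup_right
      calc K ⊛ g ≤ K ⊛ g ⊔ A := le_sup_left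
        _ = K ⊔ A := h1
        _ = A ⊔ K := sup_comm _ _
    exact this hx
  rw [Subgroup.mem_sup_of_normal_left] at hx'
  obtain ⟨a, ha, k, hk, rfl⟩ := hx'
  rw [conjMap_mul_of_mem_right a hk] at hxeq
  refine ⟨a⁻¹ * g, ?_, ?_⟩
  · change a⁻¹ * g ∈ Subgroup.normalizer (K : Set G)
    rw [mem_normalizer_iff_conjMap, conjMap_mul, hxeq, conjMap_inv_conjMap]
  · have : (QuotientGroup.mk' A) a = 1 := by
      rw [QuotientGroup.mk'_apply, QuotientGroup.eq_one_iff]; exact ha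
    rw [map_mul, map_inv, this]; simp

theorem pron_backward [Finite G] (A : Subgroup G) [A.Normal]
    (hA : ∀ K : Subgroup ↥A, (∃ P : Sylow p ↥A, (P : Subgroup ↥A) ≤ K) → Cfsg.IsPronormal K)
    (hQ : ∀ K : Subgroup (G ⧸ A), (∃ P : Sylow p (G ⧸ A), (P : Subgroup (G ⧸ A)) ≤ K) →
      Cfsg.IsPronormal K)
    (T : Subgroup G) (hT : IsSylowOf p T A)
    [(T.subgroupOf (Subgroup.normalizer (T : Set G))).Normal]
    (hi : ∀ K : Subgroup (↥(Subgroup.normalizer (T : Set G)) ⧸ T.subgroupOf (Subgroup.normalizer (T : Set G))),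
      (∃ P : Sylow p (↥(Subgroup.normalizer (T : Set G)) ⧸ T.subgroupOf (Subgroup.normalizer (T : Set G))),
        (P : Subgroup (↥(Subgroup.normalizer (T : Set G)) ⧸ T.subgroupOf (Subgroup.normalizer (T : Set G)))) ≤ K) →
      Cfsg.IsPronormal K)
    (hii : ∀ K : Subgroup G, (∃ P : Sylow p G, (P : Subgroup G) ≤ K) →
      (Subgroup.normalizer (K : Set G)).map (QuotientGroup.mk' A)
        = Subgroup.normalizer ((K.map (QuotientGroup.mk' A) : Subgroup (G ⧸ A)) : Set (G ⧸ A)))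
    (H₀ : Subgroup G) (S₀ : Sylow p G) (hSH₀ : (S₀ : Subgroup G) ≤ H₀) :
    Cfsg.IsPronormal H₀ := by
  -- reduce to the case `S ⊓ A = T`
  obtain ⟨c, hc, hceq⟩ := (isSylowOf_inf_normal S₀ A).exists_conj hT
  suffices hsuff : ∀ (H : Subgroup G) (S : Sylow p G), (S : Subgroup G) ≤ H →
      (S : Subgroup G) ⊓ A = T → Cfsg.IsPronormal H by
    have h1 : Cfsg.IsPronormal (H₀ ⊛ c) := by
      apply hsuff (H₀ ⊛ c) (c • S₀)
      · have : ((c • S₀ : Sylow p G) : Subgroup G) = (S₀ : Subgroup G) ⊛ c := rfl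
        rw [this]
        exact conjMap_mono hSH₀ c
      · have : ((c • S₀ : Sylow p G) : Subgroup G) = (S₀ : Subgroup G) ⊛ c := rfl
        rw [this, hceq, conjMap_inf, conjMap_normal A c]
    have h2 := isPronormal_conjMap h1 c⁻¹
    rwa [conjMap_inv_conjMap] at h2
  intro H S hSH hST g
  have hQ' : Cfsg.IsPronormal (H.map (QuotientGroup.mk' A)) := by
    apply hQ
    refine ⟨S.mapSurjective (QuotientGroup.mk'_surjective A), ?_⟩
    rw [Sylow.coe_mapSurjective]
    exact Subgroup.map_mono hSH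
  obtain ⟨x, hx, hxeq⟩ := exists_of_isPronormal_map_mk A H hQ' g
  have hn : x⁻¹ * g ∈ Subgroup.normalizer ((H ⊔ A : Subgroup G) : Set G) := by
    rw [mem_normalizer_iff_conjMap, conjMap_mul, Subgroup.map_sup, conjMap_normal A g, hxeq,
      Subgroup.map_sup, conjMap_inv_conjMap, conjMap_normal A x⁻¹]
  have hn2 : (QuotientGroup.mk' A) (x⁻¹ * g) ∈
      Subgroup.normalizer ((H.map (QuotientGroup.mk' A) : Subgroup (G ⧸ A)) : Set (G ⧸ A)) := by
    have h1 := Subgroup.le_normalizer_map (QuotientGroup.mk' A) (Subgroup.mem_map_of_mem _ hn)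
    have h2 : (H ⊔ A).map (QuotientGroup.mk' A) = H.map (QuotientGroup.mk' A) := by
      rw [Subgroup.map_sup, QuotientGroup.map_mk'_self, sup_bot_eq]
    rwa [h2] at h1
  rw [← hii H ⟨S, hSH⟩] at hn2
  obtain ⟨n, hn', hneq⟩ := hn2
  have ha' : x⁻¹ * g * n⁻¹ ∈ A := by
    rw [← QuotientGroup.eq_one_iff, ← QuotientGroup.mk'_apply, map_mul, map_inv, hneq]
    simp
  obtain ⟨d, hd, hdeq⟩ := pron_step3 A hA T hi H S hSH hST _ ha'
  have e : g = x * ((x⁻¹ * g * n⁻¹) * n) := by group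
  have hg : H ⊛ g = (H ⊛ (x⁻¹ * g * n⁻¹)) ⊛ x := by
    conv_lhs => rw [e]
    rw [conjMap_mul, conjMap_mul_of_mem_normalizer _ hn']
  have hle : H ⊛ (x⁻¹ * g * n⁻¹) ≤ H ⊔ H ⊛ g := by
    have : H ⊛ (x⁻¹ * g * n⁻¹) = (H ⊛ g) ⊛ x⁻¹ := by
      rw [hg, conjMap_inv_conjMap]
    rw [this]
    exact conjMap_le_of_mem le_sup_right (Subgroup.inv_mem _ hx)
  refine ⟨x * d, Subgroup.mul_mem _ hx ((sup_le le_sup_left hle) hd), ?_⟩
  rw [hg, hdeq, ← conjMap_mul]

theorem pron_forward_i [Finite G] (A : Subgroup G) [A.Normal]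
    (T : Subgroup G) (hT : IsSylowOf p T A)
    [(T.subgroupOf (Subgroup.normalizer (T : Set G))).Normal]
    (hW : ∀ K : Subgroup G, (∃ P : Sylow p G, (P : Subgroup G) ≤ K) → Cfsg.IsPronormal K) :
    ∀ K : Subgroup (↥(Subgroup.normalizer (T : Set G)) ⧸ T.subgroupOf (Subgroup.normalizer (T : Set G))),
      (∃ P : Sylow p (↥(Subgroup.normalizer (T : Set G)) ⧸ T.subgroupOf (Subgroup.normalizer (T : Set G))),
        (P : Subgroup (↥(Subgroup.normalizer (T : Set G)) ⧸ T.subgroupOf (Subgroup.normalizer (T : Set G)))) ≤ K) →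
      Cfsg.IsPronormal K := by
  rintro K ⟨P, hP⟩
  have hker : IsPGroup p (QuotientGroup.mk' (T.subgroupOf (Subgroup.normalizer (T : Set G)))).ker := by
    rw [QuotientGroup.ker_mk']
    exact hT.2.1.comap_subtype
  have hPN : IsPGroup p ((P : Subgroup _).comap
      (QuotientGroup.mk' (T.subgroupOf (Subgroup.normalizer (T : Set G))))) :=
    P.2.comap_of_ker_isPGroup _ hker
  have hPG := hPN.map (Subgroup.normalizer (T : Set G)).subtype
  have hidx : ¬ p ∣ (((P : Subgroup _).comap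
      (QuotientGroup.mk' (T.subgroupOf (Subgroup.normalizer (T : Set G))))).map
        (Subgroup.normalizer (T : Set G)).subtype).index := by
    rw [Subgroup.index_map_subtype,
      Subgroup.index_comap_of_surjective _ (QuotientGroup.mk'_surjective _)]
    exact Nat.Prime.not_dvd_mul Fact.out P.not_dvd_index
      (IsSylowOf.not_dvd_index_normalizer (A := A) hT)
  have hKG : Cfsg.IsPronormal ((K.comap
      (QuotientGroup.mk' (T.subgroupOf (Subgroup.normalizer (T : Set G))))).map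
        (Subgroup.normalizer (T : Set G)).subtype) := by
    apply hW
    refine ⟨hPG.toSylow hidx, ?_⟩
    rw [IsPGroup.toSylow_coe]
    exact Subgroup.map_mono (Subgroup.comap_mono hP)
  have h3 := isPronormal_subgroupOf_of_pronIn (Subgroup.map_subtype_le _)
    ((pronIn_top_iff.mpr hKG).mono le_top)
  have h4 : (((K.comap (QuotientGroup.mk' (T.subgroupOf (Subgroup.normalizer (T : Set G))))).map
        (Subgroup.normalizer (T : Set G)).subtype).subgroupOf (Subgroup.normalizer (T : Set G)))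
      = K.comap (QuotientGroup.mk' (T.subgroupOf (Subgroup.normalizer (T : Set G)))) := by
    unfold Subgroup.subgroupOf
    rw [Subgroup.comap_map_eq_self_of_injective (Subgroup.subtype_injective _)]
  rw [h4] at h3
  have h5 := isPronormal_map_of_surjective
    (QuotientGroup.mk'_surjective (T.subgroupOf (Subgroup.normalizer (T : Set G)))) h3
  rwa [Subgroup.map_comap_eq_self_of_surjective
    (QuotientGroup.mk'_surjective (T.subgroupOf (Subgroup.normalizer (T : Set G))))] at h5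

/-- an overgroup of the normalizer of a Sylow subgroup is pronormal -/
theorem isPronormal_of_normalizer_sylow_le [Finite G] (P : Sylow p G) (K : Subgroup G)
    (hPK : (P : Subgroup G) ≤ K)
    (hN : Subgroup.normalizer ((P : Subgroup G) : Set G) ≤ K) : Cfsg.IsPronormal K := by
  intro g
  have h1 : IsSylowOf p (P : Subgroup G) (K ⊔ K ⊛ g) := isSylowOf_of_sylow P (hPK.trans le_sup_left)
  have h2 : IsSylowOf p ((P : Subgroup G) ⊛ g) (K ⊔ K ⊛ g) := by
    have : ((g • P : Sylow p G) : Subgroup G) = (P : Subgroup G) ⊛ g := rfl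
    rw [← this]
    apply isSylowOf_of_sylow
    rw [this]
    exact (conjMap_mono hPK g).trans le_sup_right
  obtain ⟨x, hx, hxeq⟩ := h1.exists_conj h2
  refine ⟨x, hx, ?_⟩
  have hn : x⁻¹ * g ∈ Subgroup.normalizer ((P : Subgroup G) : Set G) := by
    rw [mem_normalizer_iff_conjMap, conjMap_mul, hxeq, conjMap_inv_conjMap]
  have e : g = x * (x⁻¹ * g) := by group
  conv_lhs => rw [e]
  rw [conjMap_mul_of_mem_right x (hN hn)]

/-- an overgroup of a self-normalizing Sylow subgroup is self-normalizing -/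
theorem normalizer_eq_of_sylow_selfNormalizing [Finite G] (P : Sylow p G) (K : Subgroup G)
    (hPK : (P : Subgroup G) ≤ K)
    (hN : Subgroup.normalizer ((P : Subgroup G) : Set G) = P) :
    Subgroup.normalizer (K : Set G) = K := by
  apply le_antisymm _ Subgroup.le_normalizer
  intro g hg
  rw [mem_normalizer_iff_conjMap] at hg
  have h1 : IsSylowOf p (P : Subgroup G) K := isSylowOf_of_sylow P hPK
  have h2 : IsSylowOf p ((P : Subgroup G) ⊛ g) K := by
    have : ((g • P : Sylow p G) : Subgroup G) = (P : Subgroup G) ⊛ g := rfl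
    rw [← this]
    apply isSylowOf_of_sylow
    rw [this]
    calc (P : Subgroup G) ⊛ g ≤ K ⊛ g := conjMap_mono hPK g
      _ = K := hg
  obtain ⟨x, hx, hxeq⟩ := h1.exists_conj h2
  have hn : x⁻¹ * g ∈ Subgroup.normalizer ((P : Subgroup G) : Set G) := by
    rw [mem_normalizer_iff_conjMap, conjMap_mul, hxeq, conjMap_inv_conjMap]
  rw [hN] at hn
  have e : g = x * (x⁻¹ * g) := by group
  rw [e]
  exact K.mul_mem hx (hPK hn)

end Cfsg.Agent.H75
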