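import Cfsg.Agent.H7.PsDefs

/-!
# PS-F3 (helper7, S3664): no `T ∈ Sp₆(3)` with `T² = -1` commutes with an element of order 13
-/

set_option autoImplicit false

namespace Cfsg.Agent.H75.Ps

open Cfsg.Agent.H7.Ps Matrix Polynomial

/-- vectors -/
abbrev Vec : Type := Fin 3 ⊕ Fin 3 → ZMod 3

/-- the cubic with coefficients `a b c d`, as a polynomial -/
noncomputable def cubP (a b c d : ZMod 3) : (ZMod 3)[X] :=
  C a * X ^ 3 + C b * X ^ 2 + C c * X + C d

/-- the cubic with coefficients `a b c d`, evaluated at `B` -/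
def cubM (B : Mat) (a b c d : ZMod 3) : Mat :=
  a • B ^ 3 + b • B ^ 2 + c • B + d • (1 : Mat)

theorem aeval_cubP (B : Mat) (a b c d : ZMod 3) : aeval B (cubP a b c d) = cubM B a b c d := by
  simp [cubP, cubM, Algebra.smul_def]

theorem poly_fact : cubP 1 1 0 2 * cubP 1 1 1 2 * cubP 1 0 2 2 * cubP 1 2 2 2 =
    ∑ i ∈ Finset.range 13, (X : (ZMod 3)[X]) ^ i := by
  have h3 : (3 : (ZMod 3)[X]) = 0 := by
    have : ((3 : ℕ) : (ZMod 3)[X]) = 0 := CharP.cast_eq_zero _ 3
    exact_mod_cast this
  have hC2 : (C (2 : ZMod 3) : (ZMod 3)[X]) = 2 := map_ofNat C 2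
  simp only [cubP, map_one, map_zero, hC2, Finset.sum_range_succ, Finset.sum_range_zero]
  linear_combination (5 + 13 * X + 21 * X ^ 2 + 33 * X ^ 3 + 37 * X ^ 4 + 37 * X ^ 5 + 33 * X ^ 6
    + 23 * X ^ 7 + 15 * X ^ 8 + 8 * X ^ 9 + 3 * X ^ 10 + X ^ 11 : (ZMod 3)[X]) * h3

theorem mat_fact (B : Mat) :
    cubM B 1 1 0 2 * cubM B 1 1 1 2 * cubM B 1 0 2 2 * cubM B 1 2 2 2 =
    ∑ i ∈ Finset.range 13, B ^ i := by
  have := congrArg (aeval B) poly_fact
  simpa [aeval_cubP] using this

/-- a matrix commuting with `B` (order 13, fixed point free) and `T` (`T² = -1`) is zero or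
injective. -/
theorem zero_or_inj (h1 : StF1) (B T : Mat) (hB : B ∈ Sp) (h13 : B ^ 13 = 1) (hne : B ≠ 1)
    (hTT : T * T = -1) (G : Mat) (hGB : Commute G B) (hGT : Commute G T) :
    G = 0 ∨ ∀ v : Vec, G *ᵥ v = 0 → v = 0 := by
  classical
  set W : Submodule (ZMod 3) Vec := LinearMap.ker (Matrix.mulVecLin G) with hW
  have hmem : ∀ v : Vec, v ∈ W ↔ G *ᵥ v = 0 := fun v => by
    rw [hW, LinearMap.mem_ker, Matrix.mulVecLin_apply]
  have hBW : ∀ w ∈ W, B *ᵥ w ∈ W := by
    intro w hw
    rw [hmem] at hw ⊢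
    rw [Matrix.mulVec_mulVec, hGB.eq, ← Matrix.mulVec_mulVec, hw, Matrix.mulVec_zero]
  have hTW : ∀ w ∈ W, (Matrix.mulVecLin T) w ∈ W := by
    intro w hw
    rw [hmem] at hw
    rw [hmem, Matrix.mulVecLin_apply, Matrix.mulVec_mulVec, hGT.eq, ← Matrix.mulVec_mulVec, hw,
      Matrix.mulVec_zero]
  have hd6 : Module.finrank (ZMod 3) W ≤ 6 := by
    have h := Submodule.finrank_le W
    have h6 : Module.finrank (ZMod 3) Vec = 6 := by
      rw [Module.finrank_fintype_fun_eq_card]; rfl
    omega
  -- evenness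
  have heven : Even (Module.finrank (ZMod 3) W) := by
    by_contra hodd
    rw [Nat.not_even_iff_odd] at hodd
    have hcomp : ((Matrix.mulVecLin T).restrict hTW) ∘ₗ ((Matrix.mulVecLin T).restrict hTW) =
        (-1 : ZMod 3) • LinearMap.id := by
      apply LinearMap.ext
      intro w
      apply Subtype.ext
      simp only [LinearMap.comp_apply, LinearMap.coe_restrict_apply, Matrix.mulVecLin_apply,
        LinearMap.smul_apply, LinearMap.id_apply, Submodule.coe_smul]
      rw [Matrix.mulVec_mulVec, hTT, Matrix.neg_mulVec, Matrix.one_mulVec, neg_smul, one_smul]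
    have hdet := congrArg LinearMap.det hcomp
    rw [LinearMap.det_comp, LinearMap.det_smul, LinearMap.det_id, mul_one, hodd.neg_one_pow]
      at hdet
    revert hdet
    generalize LinearMap.det ((Matrix.mulVecLin T).restrict hTW) = x
    revert x
    decide
  -- counting modulo 13
  have hmod : 3 ^ Module.finrank (ZMod 3) W ≡ 1 [MOD 13] := by
    have : Fintype W := Fintype.ofFinite W
    have hp : Fact (Nat.Prime 13) := ⟨by norm_num⟩
    let f : Function.End W := fun w => ⟨B *ᵥ (w : Vec), hBW w w.2⟩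
    have hfpow : ∀ (n : ℕ) (w : W), (((f ^ n) w : W) : Vec) = (B ^ n) *ᵥ (w : Vec) := by
      intro n
      induction n with
      | zero => intro w; rw [pow_zero, pow_zero, Matrix.one_mulVec]; rfl
      | succ n ih =>
        intro w
        rw [pow_succ]
        show (((f ^ n) (f w) : W) : Vec) = _
        rw [ih (f w)]
        show (B ^ n) *ᵥ (B *ᵥ (w : Vec)) = _
        rw [Matrix.mulVec_mulVec, ← pow_succ]
    have hf13 : f ^ 13 ^ 1 = 1 := by
      funext w
      apply Subtype.ext
      rw [pow_one, hfpow 13 w, h13, Matrix.one_mulVec]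
      rfl
    have hcard := Equiv.Perm.card_fixedPoints_modEq (f := f) (p := 13) (n := 1) hf13
    have hfix : Fintype.card (Function.fixedPoints f) = 1 := by
      rw [Fintype.card_eq_one_iff]
      refine ⟨⟨0, ?_⟩, ?_⟩
      · show f 0 = 0
        apply Subtype.ext
        show B *ᵥ ((0 : W) : Vec) = ((0 : W) : Vec)
        simp
      · rintro ⟨w, hw⟩
        apply Subtype.ext
        apply Subtype.ext
        have hw' : f w = w := hw
        have h2 : B *ᵥ (w : Vec) = (w : Vec) := congrArg Subtype.val hw'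
        exact h1 B hB h13 hne _ h2
    rw [hfix, Module.card_eq_pow_finrank (K := ZMod 3) (V := W), ZMod.card] at hcard
    exact hcard
  have hd : Module.finrank (ZMod 3) W = 0 ∨ Module.finrank (ZMod 3) W = 6 := by
    generalize Module.finrank (ZMod 3) W = d at hd6 heven hmod
    interval_cases d
    · left; rfl
    · exact absurd heven (by decide)
    · exact absurd hmod (by decide)
    · exact absurd heven (by decide)
    · exact absurd hmod (by decide)
    · exact absurd heven (by decide)
    · right; rfl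
  rcases hd with hd | hd
  · right
    intro v hv
    have hbot : W = ⊥ := Submodule.finrank_eq_zero.mp hd
    have : v ∈ W := (hmem v).mpr hv
    rw [hbot] at this
    exact (Submodule.mem_bot _).mp this
  · left
    have htop : W = ⊤ := by
      apply Submodule.eq_top_of_finrank_eq
      rw [hd, Module.finrank_fintype_fun_eq_card]; rfl
    rw [Matrix.ext_iff_mulVec]
    intro v
    rw [Matrix.zero_mulVec]
    have : v ∈ W := by rw [htop]; exact Submodule.mem_top
    exact (hmem v).mp this

/-- reversal of a cubic relation for a symplectic matrix of order 13 -/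
theorem cub_rev (B : Mat) (hB : B ∈ Sp) (h13 : B ^ 13 = 1) (a b c d : ZMod 3)
    (h : cubM B a b c d = 0) : cubM B d c b a = 0 := by
  have hJ : B * J (Fin 3) (ZMod 3) * Bᵀ = J (Fin 3) (ZMod 3) :=
    SymplecticGroup.mem_iff.mp hB
  have hCB : B ^ 12 * B = 1 := by rw [← pow_succ]; exact h13
  have hJB : J (Fin 3) (ZMod 3) * Bᵀ = B ^ 12 * J (Fin 3) (ZMod 3) := by
    have := congrArg (fun M => B ^ 12 * M) hJ
    beta_reduce at this
    rw [← mul_assoc, ← mul_assoc, hCB, one_mul] at this
    exact this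
  have hJk : ∀ k : ℕ, J (Fin 3) (ZMod 3) * Bᵀ ^ k = (B ^ 12) ^ k * J (Fin 3) (ZMod 3) := by
    intro k
    induction k with
    | zero => simp
    | succ k ih => rw [pow_succ, ← mul_assoc, ih, mul_assoc, hJB, ← mul_assoc, ← pow_succ]
  have ht : a • Bᵀ ^ 3 + b • Bᵀ ^ 2 + c • Bᵀ + d • (1 : Mat) = 0 := by
    have := congrArg Matrix.transpose h
    simpa [cubM, Matrix.transpose_pow] using this
  have hQJ : (a • (B ^ 12) ^ 3 + b • (B ^ 12) ^ 2 + c • B ^ 12 + d • (1 : Mat)) *
      J (Fin 3) (ZMod 3) = 0 := by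
    have := congrArg (fun M => J (Fin 3) (ZMod 3) * M) ht
    simp only [mul_add, Matrix.mul_smul, mul_zero, mul_one] at this
    rw [hJk 3, hJk 2, hJB] at this
    rw [← this]
    simp only [add_mul, Matrix.smul_mul, one_mul]
  have hQ : a • (B ^ 12) ^ 3 + b • (B ^ 12) ^ 2 + c • B ^ 12 + d • (1 : Mat) = 0 := by
    have := congrArg (fun M => M * J (Fin 3) (ZMod 3)) hQJ
    simp only [zero_mul] at this
    rw [mul_assoc, Matrix.J_squared, mul_neg, mul_one, neg_eq_zero] at this
    exact this
  have e1 : (B ^ 12) ^ 3 * B ^ 3 = 1 := by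
    rw [← pow_mul, ← pow_add, show 12 * 3 + 3 = 13 * 3 from rfl, pow_mul, h13, one_pow]
  have e2 : (B ^ 12) ^ 2 * B ^ 3 = B := by
    rw [← pow_mul, ← pow_add, show 12 * 2 + 3 = 13 * 2 + 1 from rfl, pow_add, pow_mul, h13,
      one_pow, one_mul, pow_one]
  have e3 : B ^ 12 * B ^ 3 = B ^ 2 := by
    rw [← pow_add, show 12 + 3 = 13 + 2 from rfl, pow_add, h13, one_mul]
  have := congrArg (fun M => M * B ^ 3) hQ
  simp only [add_mul, Matrix.smul_mul, zero_mul, one_mul, e1, e2, e3] at this
  unfold cubM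
  rw [← this]
  abel

/-- a self-reciprocal-up-to-sign cubic relation is impossible -/
theorem cub_false (B : Mat) (hB : B ∈ Sp) (h13 : B ^ 13 = 1) (a b c d : ZMod 3)
    (had : a + d = 0) (hbc : b + c ≠ 0) (h : cubM B a b c d = 0) : False := by
  have hr := cub_rev B hB h13 a b c d h
  have hd : d = -a := eq_neg_of_add_eq_zero_right had
  subst hd
  have hsum : (b + c) • (B ^ 2 + B) = cubM B a b c (-a) + cubM B (-a) c b a := by
    unfold cubM
    module
  rw [h, hr, add_zero] at hsum
  have h0 : B ^ 2 + B = 0 := by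
    have := congrArg (fun M => (b + c)⁻¹ • M) hsum
    simp only [smul_zero] at this
    rwa [inv_smul_smul₀ hbc] at this
  have hCB : B ^ 12 * B = 1 := by rw [← pow_succ]; exact h13
  have hB1 : B + 1 = 0 := by
    have := congrArg (fun M => B ^ 12 * M) h0
    simp only [mul_add, mul_zero] at this
    rw [pow_two, ← mul_assoc, hCB, one_mul] at this
    exact this
  have hBm : B = -1 := eq_neg_of_add_eq_zero_left hB1
  rw [hBm, Odd.neg_one_pow (by decide)] at h13
  have := congrFun (congrFun h13 (Sum.inl 0)) (Sum.inl 0)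
  simp at this
  revert this
  decide

theorem f3 (h1 : StF1) : StF3 := by
  intro B T hB hT h13 hne hTB hTT
  have hBT : Commute B T := (show Commute T B from hTB).symm
  have hcT : ∀ a b c d : ZMod 3, Commute (cubM B a b c d) T := by
    intro a b c d
    unfold cubM
    exact (((hBT.pow_left 3).smul_left a).add_left ((hBT.pow_left 2).smul_left b)).add_left
      (hBT.smul_left c) |>.add_left ((Commute.one_left T).smul_left d)
  have hcB : ∀ a b c d : ZMod 3, Commute (cubM B a b c d) B := by
    intro a b c d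
    unfold cubM
    exact ((((Commute.refl B).pow_left 3).smul_left a).add_left
      (((Commute.refl B).pow_left 2).smul_left b)).add_left
      ((Commute.refl B).smul_left c) |>.add_left ((Commute.one_left B).smul_left d)
  have inv := fun a b c d =>
    zero_or_inj h1 B T hB h13 hne hTT (cubM B a b c d) (hcB a b c d) (hcT a b c d)
  rcases inv 1 1 0 2 with h | i1
  · exact cub_false B hB h13 1 1 0 2 (by decide) (by decide) h
  rcases inv 1 1 1 2 with h | i2
  · exact cub_false B hB h13 1 1 1 2 (by decide) (by decide) h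
  rcases inv 1 0 2 2 with h | i3
  · exact cub_false B hB h13 1 0 2 2 (by decide) (by decide) h
  rcases inv 1 2 2 2 with h | i4
  · exact cub_false B hB h13 1 2 2 2 (by decide) (by decide) h
  -- all four factors are injective, but their product kills everything
  have hN : ∀ v : Vec, (∑ i ∈ Finset.range 13, B ^ i) *ᵥ v = 0 := by
    intro v
    apply h1 B hB h13 hne
    rw [Matrix.mulVec_mulVec]
    have hgeo : (B - 1) * ∑ i ∈ Finset.range 13, B ^ i = B ^ 13 - 1 := mul_geom_sum B 13
    rw [h13, sub_self, sub_mul, one_mul, sub_eq_zero] at hgeo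
    rw [hgeo]
  have hv : (fun _ => 1 : Vec) = 0 := by
    have h := hN (fun _ => 1)
    rw [← mat_fact, ← Matrix.mulVec_mulVec, ← Matrix.mulVec_mulVec, ← Matrix.mulVec_mulVec] at h
    exact i4 _ (i3 _ (i2 _ (i1 _ h)))
  have := congrFun hv (Sum.inl 0)
  simp at this

end Cfsg.Agent.H75.Ps
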