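import Cfsg.Agent.H7.PsDefs
import Cfsg.Agent.H45.PSpInvol

/-!
# PS-NO26 (helper7, S3664): `PSp₆(3)` has no element of order 26
-/

set_option autoImplicit false

namespace Cfsg.Agent.H75.Ps

open Cfsg.Agent.H7.Ps Matrix

theorem no26 (h2 : StF2) (h3 : StF3) : StNo26 := by
  intro g hg
  obtain ⟨A, rfl⟩ := QuotientGroup.mk_surjective g
  have hAmem : (A : Mat) ∈ Sp := A.2
  have coe_pow' : ∀ n : ℕ, ((A ^ n : ↥Sp) : Mat) = (A : Mat) ^ n := fun n => by simp
  have hpow_mem : ∀ n : ℕ, (A : Mat) ^ n ∈ Sp := fun n => pow_mem hAmem n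
  have hcent : ∀ n : ℕ, (QuotientGroup.mk A : L) ^ n = 1 ↔
      ((A : Mat) ^ n = 1 ∨ (A : Mat) ^ n = -1) := by
    intro n
    rw [← QuotientGroup.mk_pow, QuotientGroup.eq_one_iff, Cfsg.Agent.H45.sp_mem_center_iff]
    constructor
    · rintro (h | h)
      · left; rw [← coe_pow', h]; rfl
      · right; rw [← coe_pow', h]; rfl
    · rintro (h | h)
      · left; apply Subtype.ext; rw [coe_pow', h]; rfl
      · right; apply Subtype.ext; rw [coe_pow', h]; rfl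
  have h26 : (QuotientGroup.mk A : L) ^ 26 = 1 := by rw [← hg]; exact pow_orderOf_eq_one _
  have hn2 : (QuotientGroup.mk A : L) ^ 2 ≠ 1 := by
    intro h
    have := Nat.le_of_dvd (by norm_num) (orderOf_dvd_of_pow_eq_one h)
    omega
  have hn13 : (QuotientGroup.mk A : L) ^ 13 ≠ 1 := by
    intro h
    have := Nat.le_of_dvd (by norm_num) (orderOf_dvd_of_pow_eq_one h)
    omega
  rw [Ne, hcent, not_or] at hn2 hn13
  rw [hcent] at h26
  rcases h26 with h | h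
  · have hB13 : ((A : Mat) ^ 2) ^ 13 = 1 := by rw [← pow_mul]; exact h
    have hTT : (A : Mat) ^ 13 * (A : Mat) ^ 13 = 1 := by rw [← pow_add]; exact h
    have hcomm : (A : Mat) ^ 13 * (A : Mat) ^ 2 = (A : Mat) ^ 2 * (A : Mat) ^ 13 := by
      rw [← pow_add, ← pow_add]
    rcases h2 ((A : Mat) ^ 2) ((A : Mat) ^ 13) (hpow_mem 2) (hpow_mem 13) hB13 hn2.1 hcomm hTT
      with h' | h'
    · exact hn13.1 h'
    · exact hn13.2 h'
  · have hB13 : (-((A : Mat) ^ 2)) ^ 13 = 1 := by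
      rw [Odd.neg_pow (by decide), ← pow_mul, h, neg_neg]
    have hBne : -((A : Mat) ^ 2) ≠ 1 := fun h' => hn2.2 (neg_eq_iff_eq_neg.mp h')
    have hTT : (A : Mat) ^ 13 * (A : Mat) ^ 13 = -1 := by rw [← pow_add]; exact h
    have hcomm : (A : Mat) ^ 13 * (-((A : Mat) ^ 2)) = -((A : Mat) ^ 2) * (A : Mat) ^ 13 := by
      rw [mul_neg, neg_mul, ← pow_add, ← pow_add]
    exact h3 (-((A : Mat) ^ 2)) ((A : Mat) ^ 13) (SymplecticGroup.neg_mem (hpow_mem 2))
      (hpow_mem 13) hB13 hBne hcomm hTT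

end Cfsg.Agent.H75.Ps
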