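import Cfsg.Agent.H87.RedDefs
import Cfsg.Agent.H87.OpPrime

/-!
# Piece S5202-EXLIM: existence of the residual limit of a saturated fusion system over a finite
`p`-group.
-/

set_option autoImplicit false
set_option linter.style.haveILetI false

namespace Cfsg.Agent.H75.Red

open Cfsg Cfsg.FusionSystem Cfsg.Agent.H86 Cfsg.Agent.H87

universe u

variable {Ω : Type u} [Group Ω] {S T : Subgroup Ω}

theorem hasPrimeToPIndexIn_refl (F : FusionSystem S) (p : ℕ) : F.HasPrimeToPIndexIn F p := by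
  refine ⟨fun P => subset_rfl, fun P _ => ?_⟩
  rintro _ ⟨β, -, rfl⟩
  exact β.2

theorem hasPrimeToPIndexIn_trans {p : ℕ} {F E D : FusionSystem S}
    (hD : D.HasPrimeToPIndexIn E p) (hE : E.HasPrimeToPIndexIn F p) :
    D.HasPrimeToPIndexIn F p := by
  refine ⟨fun P => (hD.1 P).trans (hE.1 P), fun P hP => ?_⟩
  rw [Subgroup.map_le_iff_le_comap, Subgroup.closure_le]
  rintro β ⟨k, hk⟩
  have h1 : (β : MulAut P) ∈ E.autGroup P :=
    hE.2 P hP (Subgroup.mem_map.2 ⟨β, Subgroup.subset_closure ⟨k, hk⟩, rfl⟩)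
  have h2 : (⟨β, h1⟩ : E.autGroup P) ∈
      Subgroup.closure {α : E.autGroup P | ∃ k : ℕ, orderOf α = p ^ k} := by
    apply Subgroup.subset_closure
    refine ⟨k, ?_⟩
    rw [← Subgroup.orderOf_coe] at hk ⊢
    exact hk
  exact hD.2 P hP (Subgroup.mem_map.2 ⟨⟨β, h1⟩, h2, rfl⟩)

/-- a `p'`-residual is its own `p'`-residual. -/
theorem isPPrimeResidual_self {p : ℕ} {D D' : FusionSystem S} (hD' : D.IsPPrimeResidual p D') :
    D'.IsPPrimeResidual p D' :=
  ⟨hD'.1, hasPrimeToPIndexIn_refl D' p, fun X hX hXi =>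
    hD'.2.2 X hX (hasPrimeToPIndexIn_trans hXi hD'.2.1)⟩

theorem exists_resLimit_aux {p : ℕ} [Fact p.Prime] : ∀ (n : ℕ) (S : Subgroup Ω) [Finite S],
    Nat.card S = n → IsPGroup p S → ∀ F : FusionSystem S, F.IsSaturated p →
    ∃ (U : Subgroup Ω) (L : FusionSystem U), L.IsResidualLimitOf F p := by
  intro n
  induction n using Nat.strong_induction_on with
  | _ n ih =>
    intro S _ hn hS F hF
    have hHS := hyperfocal_le F p
    haveI : Finite (F.hyperfocalSubgroup p) := finite_of_le hHS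
    have hHp : IsPGroup p (F.hyperfocalSubgroup p) := hS.to_le hHS
    obtain ⟨D, hDsat, hDP⟩ := exists_pPow hS hF hHS le_rfl
    have hDres : F.IsPResidual p D := ⟨hDsat, hDP.hasPPowerIndexIn le_rfl⟩
    obtain ⟨D', hD'⟩ := exists_pPrimeResidual hHp D hDsat
    have hH'H := hyperfocal_le D' p
    haveI : Finite (D'.hyperfocalSubgroup p) := finite_of_le hH'H
    have hH'p : IsPGroup p (D'.hyperfocalSubgroup p) := hHp.to_le hH'H
    by_cases heq : D'.hyperfocalSubgroup p = F.hyperfocalSubgroup p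
    · exact ⟨_, D', IsResidualLimitOf.step F p D D' hDres hD'
        (IsResidualLimitOf.stable D' p heq (isPPrimeResidual_self hD'))⟩
    · have hlt' : Nat.card (D'.hyperfocalSubgroup p) < n := by
        have h1 : Nat.card (D'.hyperfocalSubgroup p) < Nat.card (F.hyperfocalSubgroup p) := by
          by_contra hcon
          exact heq (Subgroup.eq_of_le_of_card_ge hH'H (not_lt.mp hcon))
        have h2 : Nat.card (F.hyperfocalSubgroup p) ≤ Nat.card S := Subgroup.card_le_of_le hHS
        omega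
      obtain ⟨D₂, hD₂sat, hD₂P⟩ := exists_pPow hHp hD'.1 hH'H le_rfl
      have hD₂res : D'.IsPResidual p D₂ := ⟨hD₂sat, hD₂P.hasPPowerIndexIn le_rfl⟩
      obtain ⟨D₂', hD₂'⟩ := exists_pPrimeResidual hH'p D₂ hD₂sat
      obtain ⟨U, L, hL⟩ := ih _ hlt' (D'.hyperfocalSubgroup p) rfl hH'p D₂' hD₂'.1
      exact ⟨U, L, IsResidualLimitOf.step F p D D' hDres hD'
        (IsResidualLimitOf.step D' p D₂ D₂' hD₂res hD₂' hL)⟩

/-- **Piece EXLIM**: a saturated fusion system over a finite `p`-group has a residual limit. -/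
theorem exists_resLimit [Finite S] {p : ℕ} [Fact p.Prime] (hS : IsPGroup p S)
    {F : FusionSystem S} (hF : F.IsSaturated p) :
    ∃ (U : Subgroup Ω) (L : FusionSystem U), L.IsResidualLimitOf F p :=
  exists_resLimit_aux (Nat.card S) S rfl hS F hF

end Cfsg.Agent.H75.Red
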