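import Cfsg.Agent.H75.RedExLim

/-!
# Piece S5202-PLIM (conditional form): a saturated subsystem of index prime to `p` has the same
residual limit, given the statement of piece PCHAIN.
-/

set_option autoImplicit false
set_option linter.style.haveILetI false

namespace Cfsg.Agent.H75.Red

open Cfsg Cfsg.FusionSystem Cfsg.Agent.H86 Cfsg.Agent.H87

universe u

variable {Ω : Type u} [Group Ω] {S T : Subgroup Ω}

/-- The statement of piece S5202-PCHAIN (`primeIdx_pPower`). -/
def StPChain (Ω : Type u) [Group Ω] : Prop :=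
  ∀ (S : Subgroup Ω) (_ : Finite S) (p : ℕ) (_ : Fact p.Prime), IsPGroup p S →
    ∀ (X R : FusionSystem S), X.IsSaturated p → R.IsSaturated p → R.HasPrimeToPIndexIn X p →
    ∀ (H : Subgroup Ω), H ≤ S → ∀ (XH RH : FusionSystem H), XH.IsSaturated p →
    XH.HasPPowerIndexIn X p → RH.IsSaturated p → RH.HasPPowerIndexIn R p →
    RH.HasPrimeToPIndexIn XH p

theorem stronglyClosed_of_subsystem {F E : FusionSystem S} (hEF : E.IsSubsystemOf F)
    {P : Subgroup Ω} (h : F.StronglyClosed P) : E.StronglyClosed P :=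
  ⟨h.1, fun R hR φ hφ x => h.2 R hR φ (hEF R hφ) x⟩

/-- the `p'`-residual of `X` is the `p'`-residual of every saturated subsystem of index prime to
`p`. -/
theorem pPrimeResidual_of_between {p : ℕ} {X R Y : FusionSystem S}
    (hY : X.IsPPrimeResidual p Y) (hR : R.IsSaturated p) (hRX : R.HasPrimeToPIndexIn X p) :
    R.IsPPrimeResidual p Y := by
  have hYR : Y.IsSubsystemOf R := hY.2.2 R hR hRX
  refine ⟨hY.1, ⟨hYR, fun P hP => ?_⟩,
    fun W hW hWR => hY.2.2 W hW (hasPrimeToPIndexIn_trans hWR hRX)⟩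
  rw [Subgroup.map_le_iff_le_comap, Subgroup.closure_le]
  rintro β ⟨k, hk⟩
  have hle : R.autGroup P ≤ X.autGroup P := by
    intro β hβ
    exact (mem_autGroup_iff hP β).2 (mor_of_subsystem hRX.1 ((mem_autGroup_iff hP β).1 hβ))
  have h1 : (β : MulAut P) ∈ X.autGroup P := hle β.2
  have h2 : (⟨β, h1⟩ : X.autGroup P) ∈
      Subgroup.closure {α : X.autGroup P | ∃ k : ℕ, orderOf α = p ^ k} := by
    apply Subgroup.subset_closure
    refine ⟨k, ?_⟩
    rw [← Subgroup.orderOf_coe] at hk ⊢
    exact hk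
  exact hY.2.1.2 P hP (Subgroup.mem_map.2 ⟨⟨β, h1⟩, h2, rfl⟩)

/-- the residual limits of a saturated system and of its `p'`-residual agree. -/
theorem resLimit_pPrimeResidual_aux (hch : StPChain Ω) {p : ℕ} [Fact p.Prime] :
    ∀ (n : ℕ) (S : Subgroup Ω) [Finite S], Nat.card S = n → IsPGroup p S →
    ∀ X : FusionSystem S, X.IsSaturated p → ∀ Y : FusionSystem S, X.IsPPrimeResidual p Y →
    ∀ {U V : Subgroup Ω} (Xinf : FusionSystem U) (Yinf : FusionSystem V),
      Xinf.IsResidualLimitOf X p → Yinf.IsResidualLimitOf Y p → SameHom Xinf Yinf := by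
  intro n
  induction n using Nat.strong_induction_on with
  | _ n ih =>
    intro S _ hn hS X hX Y hY U V Xinf Yinf hXinf hYinf
    have hp : p.Prime := Fact.out
    have hHS := hyperfocal_le X p
    haveI : Finite (X.hyperfocalSubgroup p) := finite_of_le hHS
    have hHp : IsPGroup p (X.hyperfocalSubgroup p) := hS.to_le hHS
    obtain ⟨X', hX'sat, hX'P⟩ := exists_pPow hS hX hHS le_rfl
    have hX'idx : X'.HasPPowerIndexIn X p := hX'P.hasPPowerIndexIn le_rfl
    have hX'res : X.IsPResidual p X' := ⟨hX'sat, hX'idx⟩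
    obtain ⟨Z, hZ⟩ := exists_pPrimeResidual hHp X' hX'sat
    by_cases hHeq : X.hyperfocalSubgroup p = S
    · have hX'X : SameHom X' X := sameHom_of_pPowerIndex hS hHeq hHS hX'sat hX'idx hX
        ((PPow.refl X p).hasPPowerIndexIn hHS)
      have hZY : SameHom Z Y := pPrimeResidual_sameHom hX'X hZ hY
      have h1 : IsResidualLimitOf Yinf Z p :=
        hZY.symm.transport (fun {U} W => IsResidualLimitOf Yinf W p) hYinf
      have h2 : IsResidualLimitOf Yinf X p := IsResidualLimitOf.step X p X' Z hX'res hZ h1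
      exact resLimit_unique hXinf hp inferInstance hS h2
    · have hcard : Nat.card (X.hyperfocalSubgroup p) < n := by
        have h1 : Nat.card (X.hyperfocalSubgroup p) < Nat.card S := by
          by_contra hcon
          exact hHeq (Subgroup.eq_of_le_of_card_ge hHS (not_lt.mp hcon))
        omega
      have hYsat := hY.1
      have hYX := hY.2.1
      have hhypY : Y.hyperfocalSubgroup p ≤ X.hyperfocalSubgroup p :=
        hyperfocal_mono hYX.1 le_rfl
      obtain ⟨YH, hYHsat, hYHP⟩ := exists_pPow hS hYsat hHS hhypY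
      have hYHidx : YH.HasPPowerIndexIn Y p := hYHP.hasPPowerIndexIn hhypY
      have hYHX' : YH.HasPrimeToPIndexIn X' p :=
        hch S inferInstance p inferInstance hS X Y hX hYsat hYX _ hHS X' YH hX'sat hX'idx
          hYHsat hYHidx
      have hZYH : YH.IsPPrimeResidual p Z := pPrimeResidual_of_between hZ hYHsat hYHX'
      obtain ⟨U₁, L, hL⟩ := exists_resLimit hHp hZ.1
      have hLX : IsResidualLimitOf L X p := IsResidualLimitOf.step X p X' Z hX'res hZ hL
      have e1 : SameHom Xinf L := resLimit_unique hXinf hp inferInstance hS hLX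
      obtain ⟨U₂, LYH, hLYH⟩ := exists_resLimit hHp hYHsat
      have e2 : SameHom LYH L :=
        ih _ hcard (X.hyperfocalSubgroup p) rfl hHp YH hYHsat Z hZYH LYH L hLYH hL
      have hsc : X.StronglyClosed (X.hyperfocalSubgroup p) :=
        stronglyClosed_of_hyperfocal hS hX hHS
          (fun s hs t ht => hyperfocal_conj_mem X p hs t ht) le_rfl
      have hscY : Y.StronglyClosed (X.hyperfocalSubgroup p) :=
        stronglyClosed_of_subsystem hYX.1 hsc
      have e3 : SameHom Yinf LYH :=
        resLimit_of_pPowerIndex hS hHS hscY hYHsat hYHidx hYsat hYinf hLYH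
      exact e1.trans (e2.symm.trans e3.symm)

/-- **Piece PLIM**, given the statement of PCHAIN. -/
theorem resLimit_of_primeToPIndex_of (hch : StPChain Ω) [Finite S] {p : ℕ} [Fact p.Prime]
    (hS : IsPGroup p S) {X R : FusionSystem S} (hX : X.IsSaturated p) (hR : R.IsSaturated p)
    (hRX : R.HasPrimeToPIndexIn X p) {U V : Subgroup Ω} {Xinf : FusionSystem U}
    (hXinf : Xinf.IsResidualLimitOf X p) {Rinf : FusionSystem V}
    (hRinf : Rinf.IsResidualLimitOf R p) : SameHom Xinf Rinf := by
  obtain ⟨Y, hY⟩ := exists_pPrimeResidual hS X hX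
  have hYR : R.IsPPrimeResidual p Y := pPrimeResidual_of_between hY hR hRX
  obtain ⟨W, Yinf, hYinf⟩ := exists_resLimit hS hY.1
  have e1 := resLimit_pPrimeResidual_aux hch (Nat.card S) S rfl hS X hX Y hY Xinf Yinf
    hXinf hYinf
  have e2 := resLimit_pPrimeResidual_aux hch (Nat.card S) S rfl hS R hR Y hYR Rinf Yinf
    hRinf hYinf
  exact e1.trans e2.symm

end Cfsg.Agent.H75.Red
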