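import Mathlib
import Cfsg.Agent.H88.StNDefs

/-!
# Piece S2549-SYLA: at least `q ^ (m (m + 1))` unitriangular isometries of the minus type form.
-/

set_option autoImplicit false
set_option linter.style.haveILetI false
set_option linter.unusedSimpArgs false
set_option linter.unusedSectionVars false
set_option linter.unusedVariables false

namespace Cfsg.Agent.H75.StN

open Matrix Cfsg.Agent.H88.StN

variable {F : Type*} [Field F]

/-- The data: one field element for each ordered pair of distinct indices. -/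
abbrev Dat (m : ℕ) (F : Type*) : Type _ :=
  {p : Fin m × Fin m // p ∈ (Finset.univ : Finset (Fin m)).offDiag} → F

theorem dat_mem {m : ℕ} {i j : Fin m} (h : i ≠ j) :
    (i, j) ∈ (Finset.univ : Finset (Fin m)).offDiag := by
  rw [Finset.mem_offDiag]
  exact ⟨Finset.mem_univ _, Finset.mem_univ _, h⟩

/-- The upper unitriangular matrix of the data. -/
def upA (m : ℕ) (d : Dat m F) : Matrix (Fin m) (Fin m) F :=
  fun i j => if h : i < j then d ⟨(i, j), dat_mem h.ne⟩ else if i = j then 1 else 0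

/-- The strictly lower triangular matrix of the data. -/
def lowN (m : ℕ) (d : Dat m F) : Matrix (Fin m) (Fin m) F :=
  fun i j => if h : j < i then d ⟨(i, j), dat_mem h.ne'⟩ else 0

theorem upA_upper (m : ℕ) (d : Dat m F) : (upA m d).IsUpperTriangular := by
  intro i j hij
  have hij' : j < i := hij
  unfold upA
  rw [dif_neg (not_lt.mpr hij'.le), if_neg hij'.ne']

theorem upA_diag (m : ℕ) (d : Dat m F) (i : Fin m) : upA m d i i = 1 := by
  unfold upA
  rw [dif_neg (lt_irrefl i), if_pos rfl]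

theorem upA_det (m : ℕ) (d : Dat m F) : (upA m d).det = 1 := by
  rw [Matrix.det_of_isUpperTriangular (upA_upper m d)]
  simp [upA_diag]

theorem upA_inv_mul (m : ℕ) (d : Dat m F) : (upA m d)⁻¹ * upA m d = 1 :=
  Matrix.nonsing_inv_mul _ (by rw [upA_det]; exact isUnit_one)

theorem upA_inv_upper (m : ℕ) (d : Dat m F) (i j : Fin m) (h : j < i) :
    (upA m d)⁻¹ i j = 0 := by
  haveI : Invertible (upA m d) :=
    Matrix.invertibleOfIsUnitDet _ (by rw [upA_det]; exact isUnit_one)
  exact Matrix.blockTriangular_inv_of_blockTriangular (upA_upper m d) h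

theorem upA_inv_diag (m : ℕ) (d : Dat m F) (i : Fin m) : (upA m d)⁻¹ i i = 1 := by
  have h1 : ((upA m d)⁻¹ * upA m d) i i = 1 := by rw [upA_inv_mul]; simp
  rw [Matrix.mul_apply, Finset.sum_eq_single i] at h1
  · rwa [upA_diag, mul_one] at h1
  · intro k _ hk
    rcases lt_or_gt_of_ne hk with h | h
    · rw [upA_inv_upper m d i k h, zero_mul]
    · have : upA m d k i = 0 := upA_upper m d h
      rw [this, mul_zero]
  · intro h; exact absurd (Finset.mem_univ i) h

/-- The Gram-type matrix of the binary form: `uᵀ G u = u₀² + a u₀ u₁ + b u₁²`. -/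
def gG (a b : F) : Matrix (Fin 2) (Fin 2) F := !![1, a; 0, b]

/-- The matrix of the polar form of the binary form. -/
def gP (a b : F) : Matrix (Fin 2) (Fin 2) F := !![2, a; a, 2 * b]

/-- The `e`-`f` block. -/
def tT (m : ℕ) (a b : F) (d : Dat m F) (C : Matrix (Fin 2) (Fin m) F) :
    Matrix (Fin m) (Fin m) F :=
  (lowN m d - (lowN m d)ᵀ) - Cᵀ * (gG a b * C)

/-- The `e`-`z` block. -/
def kK (m : ℕ) (a b : F) (C : Matrix (Fin 2) (Fin m) F) : Matrix (Fin m) (Fin 2) F :=
  -(Cᵀ * gP a b)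

/-- The matrix of the isometry attached to the data, in the native index. -/
noncomputable def nat (m : ℕ) (a b : F) (d : Dat m F) (C : Matrix (Fin 2) (Fin m) F) :
    Matrix ((Fin m ⊕ Fin m) ⊕ Fin 2) ((Fin m ⊕ Fin m) ⊕ Fin 2) F :=
  fromBlocks (fromBlocks (upA m d) (upA m d * tT m a b d C) 0 ((upA m d)⁻¹)ᵀ)
    (fromRows (upA m d * kK m a b C) 0) (fromCols 0 C) 1

theorem nat_mulVec (m : ℕ) (a b : F) (d : Dat m F) (C : Matrix (Fin 2) (Fin m) F)
    (v : (Fin m ⊕ Fin m) ⊕ Fin 2 → F) :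
    (∀ i, (nat m a b d C *ᵥ v) (Sum.inl (Sum.inl i)) =
      (upA m d *ᵥ ((fun i => v (Sum.inl (Sum.inl i))) +
        tT m a b d C *ᵥ (fun i => v (Sum.inl (Sum.inr i))) +
        kK m a b C *ᵥ (fun k => v (Sum.inr k)))) i) ∧
    (∀ i, (nat m a b d C *ᵥ v) (Sum.inl (Sum.inr i)) =
      (((upA m d)⁻¹)ᵀ *ᵥ (fun i => v (Sum.inl (Sum.inr i)))) i) ∧
    (∀ k, (nat m a b d C *ᵥ v) (Sum.inr k) =
      v (Sum.inr k) + (C *ᵥ (fun i => v (Sum.inl (Sum.inr i)))) k) := by
  refine ⟨fun i => ?_, fun i => ?_, fun k => ?_⟩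
  · unfold nat
    rw [Matrix.fromBlocks_mulVec, Matrix.fromBlocks_mulVec, Matrix.fromRows_mulVec]
    simp only [Sum.elim_inl, Pi.add_apply, Matrix.mulVec_add, Matrix.mulVec_mulVec]
    rfl
  · unfold nat
    rw [Matrix.fromBlocks_mulVec, Matrix.fromBlocks_mulVec, Matrix.fromRows_mulVec]
    simp only [Sum.elim_inl, Sum.elim_inr, Pi.add_apply, Matrix.zero_mulVec, Pi.zero_apply,
      zero_add, add_zero]
    rfl
  · unfold nat
    rw [Matrix.fromBlocks_mulVec, Matrix.fromCols_mulVec]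
    simp only [Sum.elim_inr, Pi.add_apply, Matrix.zero_mulVec, Pi.zero_apply, zero_add,
      Matrix.one_mulVec]
    rw [add_comm]
    rfl

theorem alt_dot (m : ℕ) (N : Matrix (Fin m) (Fin m) F) (y : Fin m → F) :
    ((N - Nᵀ) *ᵥ y) ⬝ᵥ y = 0 := by
  rw [Matrix.sub_mulVec, sub_dotProduct, Matrix.mulVec_transpose]
  have h1 : y ᵥ* N ⬝ᵥ y = N *ᵥ y ⬝ᵥ y := by
    rw [← Matrix.dotProduct_mulVec, dotProduct_comm]
  rw [h1, sub_self]

theorem tT_dot (m : ℕ) (a b : F) (d : Dat m F) (C : Matrix (Fin 2) (Fin m) F) (y : Fin m → F) :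
    (tT m a b d C *ᵥ y) ⬝ᵥ y =
      -((C *ᵥ y) 0 ^ 2 + a * (C *ᵥ y) 0 * (C *ᵥ y) 1 + b * (C *ᵥ y) 1 ^ 2) := by
  unfold tT
  rw [Matrix.sub_mulVec, sub_dotProduct, alt_dot, zero_sub, ← Matrix.mulVec_mulVec,
    ← Matrix.mulVec_mulVec, Matrix.mulVec_transpose, ← Matrix.dotProduct_mulVec]
  generalize C *ᵥ y = c
  simp only [gG, dotProduct, Matrix.mulVec, Fin.sum_univ_two, Matrix.of_apply,
    Matrix.cons_val_zero, Matrix.cons_val_one]
  simp
  ring

theorem kK_dot (m : ℕ) (a b : F) (C : Matrix (Fin 2) (Fin m) F) (w : Fin 2 → F)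
    (y : Fin m → F) :
    (kK m a b C *ᵥ w) ⬝ᵥ y =
      -((2 * w 0 + a * w 1) * (C *ᵥ y) 0 + (a * w 0 + 2 * b * w 1) * (C *ᵥ y) 1) := by
  unfold kK
  rw [Matrix.neg_mulVec, neg_dotProduct, ← Matrix.mulVec_mulVec, Matrix.mulVec_transpose,
    ← Matrix.dotProduct_mulVec]
  generalize C *ᵥ y = c
  simp only [gP, dotProduct, Matrix.mulVec, Fin.sum_univ_two, Matrix.of_apply,
    Matrix.cons_val_zero, Matrix.cons_val_one]

/-- The form is preserved. -/
theorem nat_quad (m : ℕ) (a b : F) (d : Dat m F) (C : Matrix (Fin 2) (Fin m) F)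
    (v : (Fin m ⊕ Fin m) ⊕ Fin 2 → F) :
    Cfsg.quadFormMinus m F a b (nat m a b d C *ᵥ v) = Cfsg.quadFormMinus m F a b v := by
  obtain ⟨e1, e2, e3⟩ := nat_mulVec m a b d C v
  unfold Cfsg.quadFormMinus
  simp only [e1, e2, e3]
  have h1 : ∑ i, (upA m d *ᵥ ((fun i => v (Sum.inl (Sum.inl i))) +
        tT m a b d C *ᵥ (fun i => v (Sum.inl (Sum.inr i))) +
        kK m a b C *ᵥ (fun k => v (Sum.inr k)))) i *
      (((upA m d)⁻¹)ᵀ *ᵥ (fun i => v (Sum.inl (Sum.inr i)))) i =
      ((fun i => v (Sum.inl (Sum.inl i))) +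
        tT m a b d C *ᵥ (fun i => v (Sum.inl (Sum.inr i))) +
        kK m a b C *ᵥ (fun k => v (Sum.inr k))) ⬝ᵥ (fun i => v (Sum.inl (Sum.inr i))) := by
    show (upA m d *ᵥ _) ⬝ᵥ (((upA m d)⁻¹)ᵀ *ᵥ _) = _
    rw [Matrix.mulVec_transpose, dotProduct_comm, Matrix.dotProduct_mulVec,
      Matrix.vecMul_vecMul, upA_inv_mul, Matrix.vecMul_one, dotProduct_comm]
  rw [h1, add_dotProduct, add_dotProduct, tT_dot, kK_dot]
  have h2 : (fun i => v (Sum.inl (Sum.inl i))) ⬝ᵥ (fun i => v (Sum.inl (Sum.inr i))) =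
      ∑ i, v (Sum.inl (Sum.inl i)) * v (Sum.inl (Sum.inr i)) := rfl
  rw [h2]
  ring

theorem nat_isUnit (m : ℕ) (a b : F) (d : Dat m F) (C : Matrix (Fin 2) (Fin m) F) :
    IsUnit (nat m a b d C) := by
  rw [← Matrix.mulVec_injective_iff_isUnit]
  intro v v' hvv
  have h0 : nat m a b d C *ᵥ (v - v') = 0 := by
    rw [Matrix.mulVec_sub]
    exact sub_eq_zero.mpr hvv
  have hz : v - v' = 0 := by
    obtain ⟨e1, e2, e3⟩ := nat_mulVec m a b d C (v - v')
    generalize v - v' = u at h0 e1 e2 e3 ⊢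
    have hy : (fun i => u (Sum.inl (Sum.inr i))) = 0 := by
      have h1 : ((upA m d)⁻¹)ᵀ *ᵥ (fun i => u (Sum.inl (Sum.inr i))) = 0 := by
        funext i
        rw [← e2 i, h0]
        rfl
      have h2 := congrArg (fun z => (upA m d)ᵀ *ᵥ z) h1
      simp only [Matrix.mulVec_mulVec, Matrix.mulVec_zero] at h2
      rw [← Matrix.transpose_mul, upA_inv_mul, Matrix.transpose_one, Matrix.one_mulVec] at h2
      exact h2
    have hw : (fun k => u (Sum.inr k)) = 0 := by
      funext k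
      have h1 := e3 k
      rw [h0, hy, Matrix.mulVec_zero] at h1
      simpa using h1.symm
    have hx : (fun i => u (Sum.inl (Sum.inl i))) = 0 := by
      have h1 : upA m d *ᵥ (fun i => u (Sum.inl (Sum.inl i))) = 0 := by
        funext i
        have h2 := e1 i
        rw [h0, hy, hw, Matrix.mulVec_zero, Matrix.mulVec_zero, add_zero, add_zero] at h2
        exact h2.symm
      have h2 := congrArg (fun z => (upA m d)⁻¹ *ᵥ z) h1
      simp only [Matrix.mulVec_mulVec, Matrix.mulVec_zero] at h2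
      rw [upA_inv_mul, Matrix.one_mulVec] at h2
      exact h2
    funext x
    rcases x with (i | i) | k
    · exact congrFun hx i
    · exact congrFun hy i
    · exact congrFun hw k
  exact sub_eq_zero.mp hz

/-- The isometry attached to the data. -/
theorem exists_uni (m : ℕ) (a b : F) (d : Dat m F) (C : Matrix (Fin 2) (Fin m) F) :
    ∃ g : OGm m F a b,
      ((g : Matrix.GeneralLinearGroup ((Fin m ⊕ Fin m) ⊕ Fin 2) F) :
        Matrix ((Fin m ⊕ Fin m) ⊕ Fin 2) ((Fin m ⊕ Fin m) ⊕ Fin 2) F) = nat m a b d C := by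
  refine ⟨⟨(nat_isUnit m a b d C).unit, ?_⟩, rfl⟩
  intro u _
  exact nat_quad m a b d C u

theorem isUniM_of_nat (m : ℕ) (a b : F) (d : Dat m F) (C : Matrix (Fin 2) (Fin m) F)
    (g : OGm m F a b)
    (hg : ((g : Matrix.GeneralLinearGroup ((Fin m ⊕ Fin m) ⊕ Fin 2) F) :
        Matrix ((Fin m ⊕ Fin m) ⊕ Fin 2) ((Fin m ⊕ Fin m) ⊕ Fin 2) F) = nat m a b d C) :
    IsUniM g := by
  have hmat : ∀ x y, mat g (idx m x) (idx m y) = nat m a b d C x y := by
    intro x y
    rw [mat_idx, hg]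
  refine ⟨⟨?_, ?_⟩, ?_⟩
  · intro c e hce
    obtain ⟨x, rfl⟩ := (idx m).surjective c
    obtain ⟨y, rfl⟩ := (idx m).surjective e
    rw [hmat]
    have hce' : (idx m y).val < (idx m x).val := hce
    rcases x with (i | i) | k <;> rcases y with (j | j) | l
    · simp only [idx_ee, pE] at hce'
      exact upA_upper m d (show j < i from hce')
    · simp only [idx_ee, idx_ff, pE, pF] at hce'
      have := i.isLt
      have := j.isLt
      omega
    · simp only [idx_ee, idx_zz, pE, pZ] at hce'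
      have := i.isLt
      omega
    · rfl
    · simp only [idx_ff, pF] at hce'
      have hij : i < j := by
        have := i.isLt
        have := j.isLt
        exact Fin.lt_def.mpr (by omega)
      exact upA_inv_upper m d j i hij
    · rfl
    · rfl
    · simp only [idx_ff, idx_zz, pF, pZ] at hce'
      have := j.isLt
      have := k.isLt
      omega
    · simp only [idx_zz, pZ] at hce'
      have hlk : l < k := Fin.lt_def.mpr (by omega)
      exact Matrix.one_apply_ne (ne_of_gt hlk)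
  · intro c
    obtain ⟨x, rfl⟩ := (idx m).surjective c
    rw [hmat]
    rcases x with (i | i) | k
    · exact upA_diag m d i
    · exact upA_inv_diag m d i
    · exact Matrix.one_apply_eq k
  · have h1 : nat m a b d C (Sum.inr 0) (Sum.inr 1) = 0 := by
      show (1 : Matrix (Fin 2) (Fin 2) F) 0 1 = 0
      exact Matrix.one_apply_ne (by decide)
    exact (hmat (Sum.inr 0) (Sum.inr 1)).trans h1

theorem dat_eq (m : ℕ) (a b : F) (d d' : Dat m F) (C C' : Matrix (Fin 2) (Fin m) F)
    (h : nat m a b d C = nat m a b d' C') : d = d' ∧ C = C' := by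
  unfold nat at h
  obtain ⟨hTL, hTR, hBL, -⟩ := Matrix.fromBlocks_inj.mp h
  obtain ⟨hA, hAT, -, -⟩ := Matrix.fromBlocks_inj.mp hTL
  have hC : C = C' := (Matrix.fromCols_inj hBL).2
  subst hC
  refine ⟨?_, rfl⟩
  have hT : tT m a b d C = tT m a b d' C := by
    have h1 : (upA m d)⁻¹ * (upA m d * tT m a b d C) =
        (upA m d)⁻¹ * (upA m d' * tT m a b d' C) := by rw [hAT]
    rw [← hA, ← Matrix.mul_assoc, ← Matrix.mul_assoc, upA_inv_mul, Matrix.one_mul,
      Matrix.one_mul] at h1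
    exact h1
  have hS : lowN m d - (lowN m d)ᵀ = lowN m d' - (lowN m d')ᵀ := by
    unfold tT at hT
    exact sub_left_injective hT
  funext ⟨⟨i, j⟩, hp⟩
  have hne : i ≠ j := (Finset.mem_offDiag.mp hp).2.2
  rcases lt_or_gt_of_ne hne with h | h
  · have h2 := congrFun (congrFun hA i) j
    unfold upA at h2
    rw [dif_pos h, dif_pos h] at h2
    exact h2
  · have h2 := congrFun (congrFun hS i) j
    simp only [Matrix.sub_apply, Matrix.transpose_apply] at h2
    unfold lowN at h2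
    rw [dif_pos h, dif_pos h, dif_neg (not_lt.mpr h.le), dif_neg (not_lt.mpr h.le), sub_zero,
      sub_zero] at h2
    exact h2

theorem ominus_uni_card [Fintype F] (m : ℕ) (a b : F) (U' : Subgroup (OGm m F a b))
    (hU : ∀ g : OGm m F a b, IsUniM g → g ∈ U') :
    Fintype.card F ^ (m * (m + 1)) ≤ Nat.card U' := by
  classical
  let Φ : Dat m F × (Fin 2 → Fin m → F) → U' := fun p =>
    ⟨(exists_uni m a b p.1 (Matrix.of p.2)).choose,
      hU _ (isUniM_of_nat m a b p.1 (Matrix.of p.2) _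
        (exists_uni m a b p.1 (Matrix.of p.2)).choose_spec)⟩
  have hΦ : Function.Injective Φ := by
    intro p p' hpp
    have h1 : (exists_uni m a b p.1 (Matrix.of p.2)).choose =
        (exists_uni m a b p'.1 (Matrix.of p'.2)).choose := congrArg Subtype.val hpp
    have h2 : nat m a b p.1 (Matrix.of p.2) = nat m a b p'.1 (Matrix.of p'.2) := by
      rw [← (exists_uni m a b p.1 (Matrix.of p.2)).choose_spec,
        ← (exists_uni m a b p'.1 (Matrix.of p'.2)).choose_spec, h1]
    obtain ⟨hd, hC⟩ := dat_eq m a b _ _ _ _ h2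
    exact Prod.ext hd (Matrix.of.injective hC)
  haveI : Finite (OGm m F a b) := inferInstance
  have h3 := Nat.card_le_card_of_injective Φ hΦ
  have h4 : Nat.card (Dat m F × (Fin 2 → Fin m → F)) = Fintype.card F ^ (m * (m + 1)) := by
    rw [Nat.card_prod, Nat.card_eq_fintype_card, Nat.card_eq_fintype_card, Fintype.card_fun,
      Fintype.card_coe, Finset.offDiag_card, Finset.card_univ, Fintype.card_fin,
      Fintype.card_fun, Fintype.card_fun, Fintype.card_fin, Fintype.card_fin, ← pow_mul,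
      ← pow_add]
    congr 1
    have h5 : m ≤ m * m := Nat.le_mul_self m
    have h6 : m * (m + 1) = m * m + m := by ring
    omega
  rw [← h4]
  exact h3

end Cfsg.Agent.H75.StN
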