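import Mathlib

set_option autoImplicit false
set_option linter.unusedSectionVars false
set_option linter.style.haveILetI false

namespace Cfsg.Agent.H75

open Subgroup
open scoped Pointwise

section SylowQuot

variable {G : Type*} [Group G] [Finite G] {p : ℕ} [Fact p.Prime]

/-- Frattini: `N(P ⊔ M) = N(P) ⊔ M` for a Sylow subgroup `P` and a normal subgroup `M` -/
theorem normalizer_sup_normal (P : Sylow p G) (M : Subgroup G) [M.Normal] :
    normalizer (((P : Subgroup G) ⊔ M : Subgroup G) : Set G) =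
      normalizer ((P : Subgroup G) : Set G) ⊔ M := by
  apply le_antisymm
  · intro g hg
    set B : Subgroup G := normalizer (((P : Subgroup G) ⊔ M : Subgroup G) : Set G) with hB
    have hPB : (P : Subgroup G) ≤ B := le_sup_left.trans le_normalizer
    haveI : (((P : Subgroup G) ⊔ M).subgroupOf B).Normal := Subgroup.normal_in_normalizer
    have hP' : ((P.subtype hPB : Sylow p B) : Subgroup B) ≤
        ((P : Subgroup G) ⊔ M).subgroupOf B := by
      rw [Sylow.coe_subtype]
      intro x hx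
      rw [Subgroup.mem_subgroupOf] at hx ⊢
      exact Subgroup.mem_sup_left hx
    have htop : normalizer (((P.subtype hPB : Sylow p B) : Subgroup B) : Set B) ⊔
        ((P : Subgroup G) ⊔ M).subgroupOf B = ⊤ :=
      Sylow.normalizer_sup_eq_top' (P.subtype hPB) hP'
    have hmem : (⟨g, hg⟩ : B) ∈ normalizer (((P.subtype hPB : Sylow p B) : Subgroup B) : Set B) ⊔
        ((P : Subgroup G) ⊔ M).subgroupOf B := by rw [htop]; trivial
    have hset : (⟨g, hg⟩ : B) ∈
        ((normalizer (((P.subtype hPB : Sylow p B) : Subgroup B) : Set B) : Subgroup B) : Set B) *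
        ((((P : Subgroup G) ⊔ M).subgroupOf B : Subgroup B) : Set B) := by
      rw [← Subgroup.mul_normal]; exact hmem
    obtain ⟨x, hx, y, hy, hxy⟩ := Set.mem_mul.mp hset
    have hxy' : (x : G) * (y : G) = g := congrArg Subtype.val hxy
    rw [← hxy']
    apply Subgroup.mul_mem
    · apply Subgroup.mem_sup_left
      rw [Subgroup.mem_normalizer_iff]
      intro h
      have hx' := Subgroup.mem_normalizer_iff.mp hx
      have hmemP : ∀ (u : B), u ∈ ((P.subtype hPB : Sylow p B) : Subgroup B) ↔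
          (u : G) ∈ (P : Subgroup G) := by
        intro u
        rw [Sylow.coe_subtype, Subgroup.mem_subgroupOf]
      constructor
      · intro hh
        have h1 := (hx' ⟨h, hPB hh⟩).mp ((hmemP _).mpr hh)
        exact (hmemP _).mp h1
      · intro hh
        have hhB : h ∈ B := by
          have : h = (x : G)⁻¹ * ((x : G) * h * (x : G)⁻¹) * (x : G) := by group
          rw [this]
          exact B.mul_mem (B.mul_mem (B.inv_mem x.2) (hPB hh)) x.2
        have h1 := (hx' ⟨h, hhB⟩).mpr ((hmemP _).mpr hh)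
        exact (hmemP _).mp h1
    · have h1 : (y : G) ∈ (P : Subgroup G) ⊔ M := Subgroup.mem_subgroupOf.mp hy
      exact (sup_le_sup_right le_normalizer M) h1
  · apply sup_le
    · have hsurj := QuotientGroup.mk'_surjective M
      have h1 := Subgroup.le_normalizer_map (H := (P : Subgroup G)) (QuotientGroup.mk' M)
      rw [Subgroup.map_le_iff_le_comap, Subgroup.comap_normalizer_eq_of_surjective _ hsurj,
        Subgroup.comap_map_eq, QuotientGroup.ker_mk'] at h1
      exact h1
    · exact le_sup_right.trans le_normalizer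

/-- the number of Sylow subgroups of a quotient -/
theorem card_sylow_quotient (P : Sylow p G) (M : Subgroup G) [M.Normal] :
    Nat.card (Sylow p (G ⧸ M)) = (normalizer ((P : Subgroup G) : Set G) ⊔ M).index := by
  have hsurj := QuotientGroup.mk'_surjective M
  rw [Sylow.card_eq_index_normalizer (P.mapSurjective hsurj)]
  change (normalizer (((P : Subgroup G).map (QuotientGroup.mk' M) : Subgroup (G ⧸ M)) :
    Set (G ⧸ M))).index = _
  rw [← Subgroup.index_comap_of_surjective _ hsurj,
    Subgroup.comap_normalizer_eq_of_surjective _ hsurj,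
    Subgroup.comap_map_eq, QuotientGroup.ker_mk', normalizer_sup_normal]

/-- `(P M) ∩ (P N) = P` for normal subgroups with trivial intersection -/
theorem sup_inf_sup_eq (P : Sylow p G) (M N : Subgroup G) [M.Normal] [N.Normal]
    (hMN : M ⊓ N = ⊥) : ((P : Subgroup G) ⊔ M) ⊓ ((P : Subgroup G) ⊔ N) = P := by
  have hpow : ∀ (L : Subgroup G) [L.Normal], ∀ d ∈ (P : Subgroup G) ⊔ L,
      ∃ k : ℕ, d ^ p ^ k ∈ L := by
    intro L _ d hd
    have h1 : (QuotientGroup.mk' L d) ∈ ((P : Subgroup G) ⊔ L).map (QuotientGroup.mk' L) :=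
      Subgroup.mem_map_of_mem _ hd
    have h2 : ((P : Subgroup G) ⊔ L).map (QuotientGroup.mk' L) =
        (P : Subgroup G).map (QuotientGroup.mk' L) := by
      rw [Subgroup.map_sup]
      have : L.map (QuotientGroup.mk' L) = ⊥ :=
        (Subgroup.map_eq_bot_iff _).mpr (le_of_eq (QuotientGroup.ker_mk' L).symm)
      rw [this, sup_bot_eq]
    rw [h2] at h1
    have hpg : IsPGroup p ((P : Subgroup G).map (QuotientGroup.mk' L)) := P.isPGroup'.map _
    obtain ⟨k, hk⟩ := hpg ⟨_, h1⟩
    refine ⟨k, ?_⟩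
    have hk' : (QuotientGroup.mk' L d) ^ p ^ k = 1 := congrArg Subtype.val hk
    rw [← map_pow] at hk'
    exact (QuotientGroup.eq_one_iff _).mp hk'
  apply P.is_maximal'
  · rintro ⟨d, hd⟩
    obtain ⟨k1, hk1⟩ := hpow M d hd.1
    obtain ⟨k2, hk2⟩ := hpow N d hd.2
    refine ⟨k1 + k2, ?_⟩
    apply Subtype.ext
    have h1 : d ^ p ^ (k1 + k2) ∈ M := by rw [pow_add, pow_mul]; exact M.pow_mem hk1 _
    have h2 : d ^ p ^ (k1 + k2) ∈ N := by
      rw [pow_add, mul_comm, pow_mul]; exact N.pow_mem hk2 _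
    have h3 : d ^ p ^ (k1 + k2) ∈ M ⊓ N := ⟨h1, h2⟩
    rw [hMN, Subgroup.mem_bot] at h3
    exact h3
  · exact le_inf le_sup_left le_sup_left

theorem sup_inf_le_normalizer (P : Sylow p G) (M N : Subgroup G) [M.Normal] [N.Normal]
    (hMN : M ⊓ N = ⊥) :
    (normalizer ((P : Subgroup G) : Set G) ⊔ M) ⊓ N ≤ normalizer ((P : Subgroup G) : Set G) := by
  intro x hx
  have hx1 : x ∈ normalizer ((P : Subgroup G) : Set G) ⊔ M := hx.1
  have hx2 : x ∈ N := hx.2
  rw [← normalizer_sup_normal] at hx1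
  have hx3 : x ∈ normalizer (((P : Subgroup G) ⊔ N : Subgroup G) : Set G) :=
    le_normalizer (Subgroup.mem_sup_right hx2)
  rw [Subgroup.mem_normalizer_iff] at hx1 hx3 ⊢
  intro h
  have key := sup_inf_sup_eq P M N hMN
  constructor
  · intro hh
    have h1 : h ∈ ((P : Subgroup G) ⊔ M) ⊓ ((P : Subgroup G) ⊔ N) := by rw [key]; exact hh
    have h2 : x * h * x⁻¹ ∈ ((P : Subgroup G) ⊔ M) ⊓ ((P : Subgroup G) ⊔ N) :=
      ⟨(hx1 h).mp h1.1, (hx3 h).mp h1.2⟩
    rw [key] at h2; exact h2
  · intro hh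
    have h1 : x * h * x⁻¹ ∈ ((P : Subgroup G) ⊔ M) ⊓ ((P : Subgroup G) ⊔ N) := by
      rw [key]; exact hh
    have h2 : h ∈ ((P : Subgroup G) ⊔ M) ⊓ ((P : Subgroup G) ⊔ N) :=
      ⟨(hx1 h).mpr h1.1, (hx3 h).mpr h1.2⟩
    rw [key] at h2; exact h2

theorem card_sup_mul_card_inf (H N : Subgroup G) [N.Normal] :
    Nat.card (H ⊔ N : Subgroup G) * Nat.card (H ⊓ N : Subgroup G) = Nat.card H * Nat.card N := by
  have h1 : N.relIndex (H ⊔ N) = N.relIndex H := Subgroup.relIndex_sup_right H N
  have h2 : Nat.card N * N.relIndex (H ⊔ N) = Nat.card (H ⊔ N : Subgroup G) := by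
    have h := Subgroup.card_mul_index (N.subgroupOf (H ⊔ N))
    rwa [Nat.card_congr (Subgroup.subgroupOfEquivOfLe (le_sup_right : N ≤ H ⊔ N)).toEquiv] at h
  have h3 : Nat.card (H ⊓ N : Subgroup G) * N.relIndex H = Nat.card H := by
    have h := Subgroup.card_mul_index (N.subgroupOf H)
    rw [← Subgroup.inf_subgroupOf_left N H,
      Nat.card_congr (Subgroup.subgroupOfEquivOfLe (inf_le_left : H ⊓ N ≤ H)).toEquiv,
      Subgroup.inf_subgroupOf_left] at h
    exact h
  rw [← h2, ← h3, h1]
  ring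

end SylowQuot

end Cfsg.Agent.H75
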