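import Cfsg.Agent.H64.TmDefs

/-!
# TM project (helper64, S3701): basic facts on the configuration (helper75)
-/

set_option autoImplicit false

namespace Cfsg.Agent.H75.Tm

open Subgroup Cfsg.Agent.H64.Tm

universe u

variable {G : Type u} [Group G] {H T : Subgroup G} {a b c x y : G}

theorem conj_mem_T (cfg : Cfg G H T a b c x y) {e t : G} (he : e ∈ H) (ht : t ∈ T) :
    e * t * e⁻¹ ∈ T := by
  have h1 : e ∈ normalizer (T : Set G) := by rw [cfg.norm]; exact he
  exact (Subgroup.mem_normalizer_iff.mp h1 t).mp ht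

theorem xy_sq (cfg : Cfg G H T a b c x y) : (x * y) * (x * y) = 1 := by
  calc (x * y) * (x * y) = x * (y * x) * y := by group
    _ = x * (x * y) * y := by rw [cfg.xy]
    _ = (x * x) * (y * y) := by group
    _ = 1 := by rw [cfg.x2, cfg.y2, one_mul]

theorem a_ne_one (cfg : Cfg G H T a b c x y) : a ≠ 1 := by
  intro h
  have h1 := (cfg.indep 1 0 0 (by rw [h]; simp)).1
  omega

/-- `T` is abelian. -/
theorem T_comm (cfg : Cfg G H T a b c x y) : ∀ s ∈ T, ∀ t ∈ T, s * t = t * s := by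
  intro s hs t ht
  have hab : Commute a b := cfg.ab
  have hac : Commute a c := cfg.ac
  have hbc : Commute b c := cfg.bc
  obtain ⟨i, j, k, rfl⟩ := cfg.Telts s hs
  obtain ⟨i', j', k', rfl⟩ := cfg.Telts t ht
  have h1 : Commute (a ^ i * b ^ j * c ^ k) (a ^ i') :=
    (((Commute.refl a).pow_pow i i').mul_left (hab.symm.pow_pow j i')).mul_left
      (hac.symm.pow_pow k i')
  have h2 : Commute (a ^ i * b ^ j * c ^ k) (b ^ j') :=
    ((hab.pow_pow i j').mul_left ((Commute.refl b).pow_pow j j')).mul_left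
      (hbc.symm.pow_pow k j')
  have h3 : Commute (a ^ i * b ^ j * c ^ k) (c ^ k') :=
    ((hac.pow_pow i k').mul_left (hbc.pow_pow j k')).mul_left ((Commute.refl c).pow_pow k k')
  exact (h1.mul_right h2).mul_right h3

/-- `T` has exponent 3. -/
theorem T_exp3 (cfg : Cfg G H T a b c x y) : ∀ t ∈ T, t ^ 3 = 1 := by
  intro t ht
  have hab : Commute a b := cfg.ab
  have hac : Commute a c := cfg.ac
  have hbc : Commute b c := cfg.bc
  obtain ⟨i, j, k, rfl⟩ := cfg.Telts t ht
  have h1 : Commute (a ^ i * b ^ j) (c ^ k) := (hac.pow_pow i k).mul_left (hbc.pow_pow j k)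
  have h2 : Commute (a ^ i) (b ^ j) := hab.pow_pow i j
  rw [h1.mul_pow, h2.mul_pow, ← pow_mul, ← pow_mul, ← pow_mul, mul_comm i 3, mul_comm j 3,
    mul_comm k 3, pow_mul, pow_mul, pow_mul, cfg.a3, cfg.b3, cfg.c3, one_pow, one_pow, one_pow,
    one_mul, one_mul]

/-- elements of `H` of `3`-power order lie in `T`. -/
theorem three_elt_mem_T [Finite G] (cfg : Cfg G H T a b c x y) {h : G} (hh : h ∈ H) {k : ℕ}
    (hk : h ^ 3 ^ k = 1) : h ∈ T := by
  have h27 : h ^ 27 = 1 := by
    have h1 : orderOf h ∣ 3 ^ k := orderOf_dvd_of_pow_eq_one hk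
    have h2 : orderOf h ∣ 4 * 27 := by
      have h3 := orderOf_dvd_natCard (⟨h, hh⟩ : H)
      rw [cfg.cardH, Subgroup.orderOf_mk] at h3
      exact h3
    have h3 : Nat.Coprime (orderOf h) 4 :=
      Nat.Coprime.coprime_dvd_left h1 (Nat.Coprime.pow_left k (by decide))
    exact orderOf_dvd_iff_pow_eq_one.mp (h3.dvd_of_dvd_mul_left h2)
  obtain ⟨t, ht, hcase⟩ := cfg.Helts h hh
  have key : ∀ e : G, e ∈ H → e * e = 1 → e ∉ T → h = t * e → False := by
    intro e he he2 heT hte
    have hinv : e⁻¹ = e := inv_eq_of_mul_eq_one_right he2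
    have hsq : h * h ∈ T := by
      have h1 : h * h = t * (e * t * e⁻¹) := by
        rw [hte, hinv]
        group
      rw [h1]
      exact T.mul_mem ht (conj_mem_T cfg he ht)
    have hh' : h = (h * h) ^ 14 := by
      rw [← pow_two, ← pow_mul]
      show h = h ^ (27 + 1)
      rw [pow_succ, h27, one_mul]
    have hT : h ∈ T := by rw [hh']; exact T.pow_mem hsq 14
    apply heT
    have h2 : e = t⁻¹ * h := by rw [hte]; group
    rw [h2]
    exact T.mul_mem (T.inv_mem ht) hT
  rcases hcase with h1 | h1 | h1 | h1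
  · rw [h1]; exact ht
  · exact (key x cfg.xH cfg.x2 cfg.xT h1).elim
  · exact (key y cfg.yH cfg.y2 cfg.yT h1).elim
  · exact (key (x * y) (H.mul_mem cfg.xH cfg.yH) (xy_sq cfg) cfg.xyT h1).elim

end Cfsg.Agent.H75.Tm
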