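import Cfsg.Agent.H75.TmBase

/-!
# TM-FRATT (helper64, S3701): the Frattini argument
-/

set_option autoImplicit false

namespace Cfsg.Agent.H75.Tm

open Subgroup Cfsg.Agent.H64.Tm

universe u

theorem fratt (hT : StTIT.{u}) : StFratt.{u} := by
  intro G _ _ H T a b c x y cfg K hK haK hbK hxK g
  have hp : Fact (Nat.Prime 3) := ⟨Nat.prime_three⟩
  have ha1 : a ≠ 1 := a_ne_one cfg
  -- a Sylow 3-subgroup of `K` containing `a`
  have hpg : IsPGroup 3 (zpowers (⟨a, haK⟩ : K)) := by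
    apply IsPGroup.of_card (n := 1)
    rw [Nat.card_zpowers, pow_one]
    exact orderOf_eq_prime (Subtype.ext (by simpa using cfg.a3))
      (fun h => ha1 (congrArg Subtype.val h))
  obtain ⟨P, hP⟩ := hpg.exists_le_sylow
  have haP : a ∈ (P : Subgroup K).map K.subtype := ⟨⟨a, haK⟩, hP (mem_zpowers _), rfl⟩
  have hP'pg : IsPGroup 3 ((P : Subgroup K).map K.subtype) := P.2.map K.subtype
  have hthree : ∀ p ∈ (P : Subgroup K).map K.subtype, ∃ k : ℕ, p ^ 3 ^ k = 1 := by
    intro p hp'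
    obtain ⟨k, hk⟩ := hP'pg ⟨p, hp'⟩
    exact ⟨k, by simpa using congrArg Subtype.val hk⟩
  -- a central element
  have hnt : Nontrivial ((P : Subgroup K).map K.subtype) :=
    ⟨⟨⟨a, haP⟩, 1, fun h => ha1 (congrArg Subtype.val h)⟩⟩
  have hcn := hP'pg.center_nontrivial
  obtain ⟨z, hz1⟩ := exists_ne (1 : Subgroup.center ((P : Subgroup K).map K.subtype))
  have hzc : ∀ p ∈ (P : Subgroup K).map K.subtype, p * (z.1 : G) = (z.1 : G) * p := by
    intro p hp'
    have h1 := Subgroup.mem_center_iff.mp z.2 ⟨p, hp'⟩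
    exact congrArg Subtype.val h1
  have hzne : (z.1 : G) ≠ 1 := by
    intro h
    apply hz1
    apply Subtype.ext
    apply Subtype.ext
    exact h
  have hzH : (z.1 : G) ∈ H := by
    apply cfg.loc a cfg.aT ha1
    rw [Subgroup.mem_centralizer_singleton_iff]
    exact (hzc a haP).symm
  have hzT : (z.1 : G) ∈ T := by
    obtain ⟨k, hk⟩ := hthree _ z.1.2
    exact three_elt_mem_T cfg hzH hk
  have hPT : (P : Subgroup K).map K.subtype ≤ T := by
    intro p hp'
    have hpH : p ∈ H := by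
      apply cfg.loc _ hzT hzne
      rw [Subgroup.mem_centralizer_singleton_iff]
      exact hzc p hp'
    obtain ⟨k, hk⟩ := hthree p hp'
    exact three_elt_mem_T cfg hpH hk
  -- Frattini
  have := hK
  have hfr := Sylow.normalizer_sup_eq_top P
  have hNH : normalizer (((P : Subgroup K).map K.subtype : Subgroup G) : Set G) ≤ H := by
    intro n hn
    have h1 := (Subgroup.mem_normalizer_iff.mp hn a).mp haP
    exact hT G H T a b c x y cfg a cfg.aT ha1 n (hPT h1)
  have htop : H ⊔ K = ⊤ := by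
    apply top_le_iff.mp
    rw [← hfr]
    exact sup_le_sup_right hNH K
  have hg : g ∈ ((H ⊔ K : Subgroup G) : Set G) := by rw [htop]; exact Set.mem_univ g
  rw [Subgroup.mul_normal] at hg
  obtain ⟨h, hh, k, hk, rfl⟩ := Set.mem_mul.mp hg
  have fin : ∀ (u : G) (l n : ℕ), u ∈ K → h = u * (c ^ l * y ^ n) →
      ∃ k' ∈ K, ∃ m n : ℕ, h * k = k' * c ^ m * y ^ n := by
    intro u l n hu hh'
    refine ⟨u * ((c ^ l * y ^ n) * k * (c ^ l * y ^ n)⁻¹), K.mul_mem hu (hK.conj_mem k hk _),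
      l, n, ?_⟩
    rw [hh']
    group
  have hcx : ∀ l : ℕ, c ^ l * x = x * c ^ l := fun l =>
    ((show Commute x c from cfg.xc).pow_right l).eq.symm
  obtain ⟨t, ht, hcase⟩ := cfg.Helts h hh
  obtain ⟨i, j, l, rfl⟩ := cfg.Telts t ht
  have hab : a ^ i * b ^ j ∈ K := K.mul_mem (K.pow_mem haK i) (K.pow_mem hbK j)
  rcases hcase with h1 | h1 | h1 | h1
  · exact fin (a ^ i * b ^ j) l 0 hab (by rw [h1, pow_zero, mul_one, mul_assoc])
  · refine fin (a ^ i * b ^ j * x) l 0 (K.mul_mem hab hxK) ?_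
    rw [h1, pow_zero, mul_one, mul_assoc (a ^ i * b ^ j) (c ^ l) x, hcx, ← mul_assoc]
  · exact fin (a ^ i * b ^ j) l 1 hab (by rw [h1, pow_one, mul_assoc])
  · refine fin (a ^ i * b ^ j * x) l 1 (K.mul_mem hab hxK) ?_
    rw [h1, pow_one, ← mul_assoc (a ^ i * b ^ j * c ^ l) x y,
      mul_assoc (a ^ i * b ^ j) (c ^ l) x, hcx, ← mul_assoc, mul_assoc (a ^ i * b ^ j * x)]

end Cfsg.Agent.H75.Tm
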