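import Mathlib
import Cfsg.Agent.H72.ZasDefs

/-!
# Piece S0690-CONJ4: in a perfect group with (generalized) quaternion Sylow 2-subgroups all
elements of order 4 are conjugate (focal subgroup theorem).
-/

set_option autoImplicit false
set_option linter.unusedSectionVars false
set_option linter.style.haveILetI false

namespace Cfsg.Agent.H75.Zas

open Cfsg.Agent.H72.Zas
open scoped commutatorElement

universe u

section Quat

open QuaternionGroup

variable {n : ℕ}

/-- parity `ZMod (2n) → ZMod 2`. -/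
noncomputable def par (n : ℕ) : ZMod (2 * n) →+* ZMod 2 :=
  ZMod.castHom (Dvd.intro n rfl) (ZMod 2)

theorem par_natCast (k : ℕ) : par n (k : ZMod (2 * n)) = (k : ZMod 2) := map_natCast _ k

theorem par_n (hn : Even n) : par n (n : ZMod (2 * n)) = 0 := by
  rw [par_natCast]
  exact (ZMod.natCast_eq_zero_iff n 2).mpr hn.two_dvd

theorem zmod2_cases (x : ZMod 2) : x = 0 ∨ x = 1 := by
  revert x; decide

theorem exists_two_mul_of_par [NeZero n] {z : ZMod (2 * n)} (hz : par n z = 0) :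
    ∃ k : ZMod (2 * n), z = 2 * k := by
  have h1 : ((z.val : ℕ) : ZMod (2 * n)) = z := ZMod.natCast_zmod_val z
  rw [← h1, par_natCast, ZMod.natCast_eq_zero_iff] at hz
  obtain ⟨m, hm⟩ := hz
  refine ⟨(m : ZMod (2 * n)), ?_⟩
  rw [← h1, hm]; push_cast; rfl

theorem eq_zero_or_eq_n [NeZero n] {z : ZMod (2 * n)} (hz : 2 * z = 0) :
    z = 0 ∨ z = (n : ZMod (2 * n)) := by
  have h1 : ((z.val : ℕ) : ZMod (2 * n)) = z := ZMod.natCast_zmod_val z
  have hlt : z.val < 2 * n := ZMod.val_lt z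
  have h2 : ((2 * z.val : ℕ) : ZMod (2 * n)) = 0 := by
    push_cast; rw [h1]; exact hz
  rw [ZMod.natCast_eq_zero_iff] at h2
  have h3 : n ∣ z.val := Nat.dvd_of_mul_dvd_mul_left two_pos h2
  obtain ⟨k, hk⟩ := h3
  have hn0 : 0 < n := NeZero.pos n
  have hk2 : k < 2 := by
    by_contra hcon
    rw [not_lt] at hcon
    have : 2 * n ≤ n * k := by nlinarith
    omega
  interval_cases k
  · left; rw [← h1, hk]; simp
  · right; rw [← h1, hk]; simp

theorem a_pow (i : ZMod (2 * n)) (k : ℕ) : (a i : QuaternionGroup n) ^ k = a ((k : ZMod (2 * n)) * i) := by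
  induction k with
  | zero => simp
  | succ k ih => rw [pow_succ, ih, a_mul_a]; congr 1; push_cast; ring

theorem n_ne_zero [NeZero n] : (n : ZMod (2 * n)) ≠ 0 := by
  intro h
  rw [ZMod.natCast_eq_zero_iff] at h
  have h1 := Nat.le_of_dvd (NeZero.pos n) h
  have h2 := NeZero.pos n
  omega

theorem a_pow_n_of_par_zero [NeZero n] {i : ZMod (2 * n)} (hi : par n i = 0) :
    (a i : QuaternionGroup n) ^ n = 1 := by
  obtain ⟨k, rfl⟩ := exists_two_mul_of_par hi
  rw [a_pow, one_def]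
  congr 1
  have h3 : ((2 * n : ℕ) : ZMod (2 * n)) = 0 := ZMod.natCast_self _
  push_cast at h3
  linear_combination k * h3

theorem a_pow_n_of_par_one [NeZero n] {i : ZMod (2 * n)} (hi : par n i = 1) :
    (a i : QuaternionGroup n) ^ n ≠ 1 := by
  have h1 : par n (i - 1) = 0 := by rw [map_sub, hi, map_one, sub_self]
  obtain ⟨k, hk⟩ := exists_two_mul_of_par h1
  have hi' : i = 2 * k + 1 := by rw [← hk]; ring
  rw [a_pow, one_def]
  intro h
  have h2 := a.inj h
  have h3 : ((2 * n : ℕ) : ZMod (2 * n)) = 0 := ZMod.natCast_self _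
  push_cast at h3
  apply n_ne_zero (n := n)
  have h4 : (n : ZMod (2 * n)) * i = n := by rw [hi']; linear_combination k * h3
  rw [← h4]; exact h2

theorem two_mul_eq_n_of_pow [NeZero n] {i : ZMod (2 * n)}
    (h4 : (a i : QuaternionGroup n) ^ 4 = 1) (h2 : (a i : QuaternionGroup n) ^ 2 ≠ 1) :
    2 * i = n := by
  rw [a_pow, one_def] at h4 h2
  have h4' : ((4 : ℕ) : ZMod (2 * n)) * i = 0 := a.inj h4
  have h2' : ((2 : ℕ) : ZMod (2 * n)) * i ≠ 0 := fun h => h2 (congrArg a h)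
  push_cast at h4' h2'
  have h5 : 2 * (2 * i) = 0 := by linear_combination h4'
  rcases eq_zero_or_eq_n h5 with h | h
  · exact absurd h h2'
  · exact h

/-- The fusion argument on a quaternion group with `n` even, for an abstract "conjugacy in a
bigger group" relation `R` satisfying the focal-subgroup property. -/
theorem quat_fusion [NeZero n] (hn : Even n)
    (R : QuaternionGroup n → QuaternionGroup n → Prop)
    (hrefl : ∀ q, R q q) (hsymm : ∀ q q', R q q' → R q' q)
    (htrans : ∀ q q' q'', R q q' → R q' q'' → R q q'')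
    (hconj : ∀ q r, R q (r * q * r⁻¹))
    (hpow : ∀ q q', R q q' → ∀ k : ℕ, q ^ k = 1 ↔ q' ^ k = 1)
    (hfoc : ∀ f : QuaternionGroup n → ZMod 2, (∀ x y, f (x * y) = f x + f y) →
      (∀ q q', R q q' → f q = f q') → ∀ q, f q = 0) :
    ∀ q q', orderOf q = 4 → orderOf q' = 4 → R q q' := by
  have Q1 : ∀ j j' : ZMod (2 * n), par n j = par n j' → R (xa j) (xa j') := by
    intro j j' h
    have h1 : par n (j - j') = 0 := by rw [map_sub, h, sub_self]
    obtain ⟨k, hk⟩ := exists_two_mul_of_par h1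
    have h2 := hconj (xa j) (a k)
    have h3 : a k * xa j * (a k)⁻¹ = xa j' := by
      rw [mul_inv_eq_iff_eq_mul, a_mul_xa, xa_mul_a]
      congr 1
      linear_combination hk
    rwa [h3] at h2
  have Q2 : ∀ i i' : ZMod (2 * n), 2 * i = n → 2 * i' = n → R (a i) (a i') := by
    intro i i' h h'
    have h1 : 2 * (i - i') = 0 := by linear_combination h - h'
    rcases eq_zero_or_eq_n h1 with h2 | h2
    · have h3 : i = i' := sub_eq_zero.mp h2
      rw [h3]; exact hrefl _
    · have h3 := hconj (a i) (xa 0)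
      have h4 : xa 0 * a i * (xa 0)⁻¹ = a i' := by
        rw [mul_inv_eq_iff_eq_mul, xa_mul_a, a_mul_xa]
        congr 1
        linear_combination h - h2
      rwa [h4] at h3
  have Q6 : ∀ i i' : ZMod (2 * n), 2 * i = n → 2 * i' = n → par n i = par n i' := by
    intro i i' h h'
    have h1 : 2 * (i - i') = 0 := by linear_combination h - h'
    have h2 : par n (i - i') = 0 := by
      rcases eq_zero_or_eq_n h1 with h2 | h2
      · rw [h2, map_zero]
      · rw [h2, par_n hn]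
    rw [map_sub] at h2
    exact sub_eq_zero.mp h2
  have hxa4 : ∀ j : ZMod (2 * n), (xa j : QuaternionGroup n) ^ 4 = 1 := xa_pow_four
  have hxa2 : ∀ j : ZMod (2 * n), (xa j : QuaternionGroup n) ^ 2 ≠ 1 := by
    intro j h
    rw [xa_sq, one_def] at h
    exact n_ne_zero (a.inj h)
  have K : ∀ c d ε : ZMod 2, (∀ i : ZMod (2 * n), 2 * i = n → par n i = ε) →
      (c ≠ 0 ∨ d ≠ 0) →
      (c = 1 ∧ ∃ j j' : ZMod (2 * n), par n j = 0 ∧ par n j' = 1 ∧ R (xa j) (xa j')) ∨
      ((∃ i j : ZMod (2 * n), 2 * i = n ∧ par n j = 0 ∧ R (a i) (xa j)) ∧ c * ε ≠ d) ∨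
      ((∃ i j : ZMod (2 * n), 2 * i = n ∧ par n j = 1 ∧ R (a i) (xa j)) ∧ c * ε ≠ c + d) := by
    intro c d ε hε hcd
    by_contra hcon
    obtain ⟨hc1, hcon2⟩ := not_or.mp hcon
    obtain ⟨hc2, hc3⟩ := not_or.mp hcon2
    obtain ⟨f, hf⟩ : ∃ f : QuaternionGroup n → ZMod 2, f = fun q => match q with
        | a i => c * par n i
        | xa i => c * par n i + d := ⟨_, rfl⟩
    have hfa : ∀ i, f (a i) = c * par n i := fun i => by rw [hf]
    have hfx : ∀ i, f (xa i) = c * par n i + d := fun i => by rw [hf]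
    have hadd : ∀ x y, f (x * y) = f x + f y := by
      rintro (i | i) (j | j)
      · rw [a_mul_a, hfa, hfa, hfa, map_add]; ring
      · rw [a_mul_xa, hfx, hfa, hfx, map_sub, CharTwo.sub_eq_add]; ring
      · rw [xa_mul_a, hfx, hfx, hfa, map_add]; ring
      · rw [xa_mul_xa, hfa, hfx, hfx, map_sub, map_add, par_n hn, CharTwo.sub_eq_add]
        have hdd : d + d = 0 := CharTwo.add_self_eq_zero d
        linear_combination -hdd
    have hinvar : ∀ q q', R q q' → f q = f q' := by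
      have mixed : ∀ i j, R (a i) (xa j) → f (a i) = f (xa j) := by
        intro i j hR
        have hp := hpow _ _ hR
        have h2i : 2 * i = n :=
          two_mul_eq_n_of_pow ((hp 4).mpr (hxa4 j)) (fun h => hxa2 j ((hp 2).mp h))
        rw [hfa, hfx, hε i h2i]
        rcases zmod2_cases (par n j) with hj | hj
        · rw [hj, mul_zero, zero_add]
          by_contra hne
          exact hc2 ⟨⟨i, j, h2i, hj, hR⟩, hne⟩
        · rw [hj, mul_one]
          by_contra hne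
          exact hc3 ⟨⟨i, j, h2i, hj, hR⟩, hne⟩
      rintro (i | i) (j | j) hR
      · rw [hfa, hfa]
        have hp := hpow _ _ hR n
        rcases zmod2_cases (par n i) with hi | hi <;>
          rcases zmod2_cases (par n j) with hj | hj
        · rw [hi, hj]
        · exact absurd (hp.mp (a_pow_n_of_par_zero hi)) (a_pow_n_of_par_one hj)
        · exact absurd (hp.mpr (a_pow_n_of_par_zero hj)) (a_pow_n_of_par_one hi)
        · rw [hi, hj]
      · exact mixed i j hR
      · exact (mixed j i (hsymm _ _ hR)).symm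
      · rw [hfx, hfx]
        rcases zmod2_cases (par n i) with hi | hi <;>
          rcases zmod2_cases (par n j) with hj | hj
        · rw [hi, hj]
        · rcases zmod2_cases c with hc | hc
          · rw [hc]; ring
          · exact absurd ⟨hc, i, j, hi, hj, hR⟩ hc1
        · rcases zmod2_cases c with hc | hc
          · rw [hc]; ring
          · exact absurd ⟨hc, j, i, hj, hi, hsymm _ _ hR⟩ hc1
        · rw [hi, hj]
    have hzero := hfoc f hadd hinvar
    have h1 := hzero (a 1)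
    have h2 := hzero (xa 0)
    rw [hfa, map_one, mul_one] at h1
    rw [hfx, map_zero, mul_zero, zero_add] at h2
    rcases hcd with h | h
    · exact h h1
    · exact h h2
  obtain ⟨ε, hε⟩ : ∃ ε : ZMod 2, ∀ i : ZMod (2 * n), 2 * i = n → par n i = ε := by
    by_cases hex : ∃ i₀ : ZMod (2 * n), 2 * i₀ = n
    · obtain ⟨i₀, h0⟩ := hex
      exact ⟨par n i₀, fun i hi => Q6 i i₀ hi h0⟩
    · exact ⟨0, fun i hi => absurd ⟨i, hi⟩ hex⟩
  have h01 : (1 : ZMod 2) ≠ 0 := by decide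
  have k1 := K 0 1 ε hε (Or.inr h01)
  have k2 := K 1 ε ε hε (Or.inl h01)
  have k3 := K 1 (1 + ε) ε hε (Or.inl h01)
  have f12or13 : (∃ i j : ZMod (2 * n), 2 * i = n ∧ par n j = 0 ∧ R (a i) (xa j)) ∨
      (∃ i j : ZMod (2 * n), 2 * i = n ∧ par n j = 1 ∧ R (a i) (xa j)) := by
    rcases k1 with h | h | h
    · exact absurd h.1.symm h01
    · exact Or.inl h.1
    · exact Or.inr h.1
  have f23or13 : (∃ j j' : ZMod (2 * n), par n j = 0 ∧ par n j' = 1 ∧ R (xa j) (xa j')) ∨
      (∃ i j : ZMod (2 * n), 2 * i = n ∧ par n j = 1 ∧ R (a i) (xa j)) := by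
    rcases k2 with h | h | h
    · exact Or.inl h.2
    · exact absurd (one_mul ε) h.2
    · exact Or.inr h.1
  have f23or12 : (∃ j j' : ZMod (2 * n), par n j = 0 ∧ par n j' = 1 ∧ R (xa j) (xa j')) ∨
      (∃ i j : ZMod (2 * n), 2 * i = n ∧ par n j = 0 ∧ R (a i) (xa j)) := by
    rcases k3 with h | h | h
    · exact Or.inl h.2
    · exact Or.inr h.1
    · exfalso
      apply h.2
      have h11 : (1 : ZMod 2) + 1 = 0 := by decide
      linear_combination -h11
  have X : ∀ j : ZMod (2 * n), R (xa j) (xa 0) := by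
    intro j
    rcases zmod2_cases (par n j) with hj | hj
    · exact Q1 j 0 (by rw [hj, map_zero])
    · rcases f23or13 with ⟨j₁, j₂, h1, h2, hR⟩ | ⟨i₃, j₃, h3, h3', hR3⟩
      · exact htrans _ _ _ (Q1 j j₂ (by rw [hj, h2]))
          (htrans _ _ _ (hsymm _ _ hR) (Q1 j₁ 0 (by rw [h1, map_zero])))
      · rcases f23or12 with ⟨j₁, j₂, h1, h2, hR⟩ | ⟨i₂, j₂, h2, h2', hR2⟩
        · exact htrans _ _ _ (Q1 j j₂ (by rw [hj, h2]))
            (htrans _ _ _ (hsymm _ _ hR) (Q1 j₁ 0 (by rw [h1, map_zero])))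
        · exact htrans _ _ _ (Q1 j j₃ (by rw [hj, h3'])) (htrans _ _ _ (hsymm _ _ hR3)
            (htrans _ _ _ (Q2 i₃ i₂ h3 h2)
              (htrans _ _ _ hR2 (Q1 j₂ 0 (by rw [h2', map_zero])))))
  have Y : ∀ i : ZMod (2 * n), 2 * i = n → R (a i) (xa 0) := by
    intro i hi
    rcases f12or13 with ⟨i₂, j₂, h2, h2', hR2⟩ | ⟨i₃, j₃, h3, h3', hR3⟩
    · exact htrans _ _ _ (Q2 i i₂ hi h2) (htrans _ _ _ hR2 (X j₂))
    · exact htrans _ _ _ (Q2 i i₃ hi h3) (htrans _ _ _ hR3 (X j₃))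
  have Z : ∀ q : QuaternionGroup n, orderOf q = 4 → R q (xa 0) := by
    rintro (i | j) ho
    · apply Y
      apply two_mul_eq_n_of_pow
      · rw [← ho]; exact pow_orderOf_eq_one _
      · exact pow_ne_one_of_lt_orderOf (by norm_num) (by rw [ho]; norm_num)
    · exact X j
  intro q q' hq hq'
  exact htrans _ _ _ (Z q hq) (hsymm _ _ (Z q' hq'))

end Quat

section Grp

variable {G : Type u} [Group G] [Finite G]

theorem mem_smul_sylow' {c x : G} {Q : Sylow 2 G} :
    x ∈ ((c • Q : Sylow 2 G) : Subgroup G) ↔ c⁻¹ * x * c ∈ (Q : Subgroup G) := by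
  rw [Sylow.coe_subgroup_smul, Subgroup.mem_pointwise_smul_iff_inv_smul_mem]
  simp [MulAut.smul_def]

/-- An element of order 4 is conjugate into a given Sylow 2-subgroup. -/
theorem conj_into_sylow' (S : Sylow 2 G) {g : G} (hg : orderOf g = 4) :
    ∃ y : G, y * g * y⁻¹ ∈ (S : Subgroup G) := by
  have hp : IsPGroup 2 (Subgroup.zpowers g) :=
    IsPGroup.of_card (n := 2) (by rw [Nat.card_zpowers, hg]; norm_num)
  obtain ⟨R, hR⟩ := hp.exists_le_sylow
  obtain ⟨y, hy⟩ := MulAction.exists_smul_eq G S R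
  refine ⟨y⁻¹, ?_⟩
  have h1 : g ∈ ((y • S : Sylow 2 G) : Subgroup G) := by
    rw [hy]; exact hR (Subgroup.mem_zpowers g)
  have h2 := mem_smul_sylow'.mp h1
  rwa [inv_inv]

/-- Focal subgroup theorem, in the form: an additive function `Sylow 2 → ZMod 2` that is constant
on `G`-conjugate elements of the Sylow subgroup vanishes, if `G` is perfect. -/
theorem focal_step (hperf : commutator G = ⊤) (S : Sylow 2 G) {Q : Type*} [Group Q]
    (e : ↥(S : Subgroup G) ≃* Q) (f : Q → ZMod 2) (hf : ∀ x y, f (x * y) = f x + f y)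
    (hinv : ∀ (x y : ↥(S : Subgroup G)) (w : G), w * (x : G) * w⁻¹ = (y : G) →
      f (e x) = f (e y)) :
    ∀ q, f q = 0 := by
  have hf1 : f 1 = 0 := by
    have h1 := hf 1 1
    rw [mul_one] at h1
    have h2 : f 1 + f 1 = 0 := CharTwo.add_self_eq_zero _
    rw [h2] at h1
    exact h1
  have hfinv : ∀ q, f q⁻¹ = f q := by
    intro q
    have h1 := hf q q⁻¹
    rw [mul_inv_cancel, hf1] at h1
    have h2 : f q + f q = 0 := CharTwo.add_self_eq_zero _
    linear_combination (-1 : ZMod 2) * h1 - h2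
  let K : Subgroup G :=
    { carrier := {g | ∃ h : g ∈ (S : Subgroup G), f (e ⟨g, h⟩) = 0}
      one_mem' := ⟨Subgroup.one_mem _, by
        have h1 : (⟨1, Subgroup.one_mem _⟩ : ↥(S : Subgroup G)) = 1 := rfl
        rw [h1, map_one, hf1]⟩
      mul_mem' := by
        rintro a b ⟨ha, h1⟩ ⟨hb, h2⟩
        refine ⟨Subgroup.mul_mem _ ha hb, ?_⟩
        have h3 : (⟨a * b, Subgroup.mul_mem _ ha hb⟩ : ↥(S : Subgroup G)) =
            ⟨a, ha⟩ * ⟨b, hb⟩ := rfl
        rw [h3, map_mul, hf, h1, h2, add_zero]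
      inv_mem' := by
        rintro a ⟨ha, h1⟩
        refine ⟨Subgroup.inv_mem _ ha, ?_⟩
        have h3 : (⟨a⁻¹, Subgroup.inv_mem _ ha⟩ : ↥(S : Subgroup G)) = ⟨a, ha⟩⁻¹ := rfl
        rw [h3, map_inv, hfinv, h1] }
  have hfocal : (S : Subgroup G).focalSubgroup ≤ K := by
    rw [Subgroup.focalSubgroup_def, Subgroup.closure_le]
    rintro g ⟨hg, x, hx, w, rfl⟩
    have hy : w * x * w⁻¹ ∈ (S : Subgroup G) := by
      have h1 : w * x * w⁻¹ = ⁅x, w⁆⁻¹ * x := by rw [commutatorElement_def]; group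
      rw [h1]; exact Subgroup.mul_mem _ (Subgroup.inv_mem _ hg) hx
    refine ⟨hg, ?_⟩
    have h2 : (⟨⁅x, w⁆, hg⟩ : ↥(S : Subgroup G)) = ⟨x, hx⟩ * ⟨w * x * w⁻¹, hy⟩⁻¹ := by
      apply Subtype.ext
      show ⁅x, w⁆ = x * (w * x * w⁻¹)⁻¹
      rw [commutatorElement_def]; group
    rw [h2, map_mul, map_inv, hf, hfinv, hinv ⟨x, hx⟩ ⟨w * x * w⁻¹, hy⟩ w rfl]
    exact CharTwo.add_self_eq_zero _
  have hS : (S : Subgroup G) ≤ K := by
    have h1 := Subgroup.commutator_inf_eq_focalSubgroup S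
    rw [hperf, top_inf_eq] at h1
    exact h1.le.trans hfocal
  intro q
  obtain ⟨h, hq⟩ := hS (e.symm q).2
  have h3 : (⟨((e.symm q : ↥(S : Subgroup G)) : G), h⟩ : ↥(S : Subgroup G)) = e.symm q := rfl
  rw [h3, MulEquiv.apply_symm_apply] at hq
  exact hq

/-- **Piece S0690-CONJ4.** -/
theorem conj4 : StConj4.{u} := by
  intro G _ _ hperf S n hn ⟨e⟩ u v hu hv
  haveI : NeZero (2 ^ n) := ⟨by positivity⟩
  have heven : Even (2 ^ n) := by
    obtain ⟨m, rfl⟩ : ∃ m, n = m + 1 := ⟨n - 1, by omega⟩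
    rw [pow_succ]; exact even_two.mul_left _
  obtain ⟨gu, hgu⟩ := conj_into_sylow' S hu
  obtain ⟨gv, hgv⟩ := conj_into_sylow' S hv
  obtain ⟨R, hR⟩ : ∃ R : QuaternionGroup (2 ^ n) → QuaternionGroup (2 ^ n) → Prop,
      R = fun q q' => ∃ w : G, w * ((e.symm q : ↥(S : Subgroup G)) : G) * w⁻¹ =
        ((e.symm q' : ↥(S : Subgroup G)) : G) := ⟨_, rfl⟩
  have hRiff : ∀ q q', R q q' ↔ ∃ w : G, w * ((e.symm q : ↥(S : Subgroup G)) : G) * w⁻¹ =
      ((e.symm q' : ↥(S : Subgroup G)) : G) := fun q q' => by rw [hR]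
  have hpowS : ∀ (q : QuaternionGroup (2 ^ n)) (k : ℕ),
      q ^ k = 1 ↔ ((e.symm q : ↥(S : Subgroup G)) : G) ^ k = 1 := by
    intro q k
    rw [← Subgroup.coe_pow, OneMemClass.coe_eq_one, ← map_pow, map_eq_one_iff e.symm e.symm.injective]
  have key := quat_fusion heven R
    (fun q => (hRiff q q).mpr ⟨1, by simp⟩)
    (fun q q' h => by
      obtain ⟨w, hw⟩ := (hRiff q q').mp h
      exact (hRiff q' q).mpr ⟨w⁻¹, by rw [← hw]; group⟩)
    (fun q q' q'' h h' => by
      obtain ⟨w, hw⟩ := (hRiff q q').mp h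
      obtain ⟨w', hw'⟩ := (hRiff q' q'').mp h'
      exact (hRiff q q'').mpr ⟨w' * w, by rw [← hw', ← hw]; group⟩)
    (fun q r => (hRiff _ _).mpr ⟨((e.symm r : ↥(S : Subgroup G)) : G), by
      simp [map_mul, map_inv]⟩)
    (fun q q' h k => by
      obtain ⟨w, hw⟩ := (hRiff q q').mp h
      rw [hpowS q, hpowS q', ← hw, conj_pow, conj_eq_one_iff])
    (fun f hf hinv => focal_step hperf S e f hf (fun x y w hw =>
      hinv (e x) (e y) ((hRiff _ _).mpr ⟨w, by simpa using hw⟩)))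
  have hord : ∀ (g x : G) (hx : g * x * g⁻¹ ∈ (S : Subgroup G)), orderOf x = 4 →
      orderOf (e ⟨g * x * g⁻¹, hx⟩) = 4 := by
    intro g x hx ho
    rw [MulEquiv.orderOf_eq, ← Subgroup.orderOf_coe]
    have h1 := (MulAut.conj g).orderOf_eq x
    rw [MulAut.conj_apply] at h1
    rw [h1, ho]
  obtain ⟨w, hw⟩ := (hRiff _ _).mp (key _ _ (hord gu u hgu hu) (hord gv v hgv hv))
  simp only [MulEquiv.symm_apply_apply] at hw
  refine ⟨gv⁻¹ * w * gu, ?_⟩
  have h1 : gv⁻¹ * w * gu * u * (gv⁻¹ * w * gu)⁻¹ = gv⁻¹ * (w * (gu * u * gu⁻¹) * w⁻¹) * gv := by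
    group
  rw [h1, hw]
  group

end Grp

end Cfsg.Agent.H75.Zas
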